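import Cfsg.Agent.Lib.Lev.Good

/-!
# Products of classes in `GL_n`, X: classes that split in `SL_n`
-/

set_option autoImplicit false

namespace Cfsg.Lib.Lev

open Module Polynomial LinearMap Cfsg.Lib.GLC Cfsg.Lib.Ore Submodule Matrix

universe u

variable {F V : Type u} [Field F] [AddCommGroup V] [Module F V] {μ : Multiset F[X]} {A G : End F V} {P Q φ : F[X]}

theorem eq_top_of_coprime {M : Type*} [Group M] {D : Subgroup M} {i j : ℕ} (hi : ∀ c, c ^ i ∈ D) (hj : ∀ c, c ^ j ∈ D)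
    (h : i.Coprime j) : D = ⊤ := eq_top_iff.2 fun c _ => by
  obtain ⟨x, y, hxy⟩ := Nat.isCoprime_iff_coprime.2 h
  have : c = (c ^ x) ^ i * (c ^ y) ^ j := by
    rw [← zpow_natCast, ← zpow_natCast, ← _root_.zpow_mul, ← _root_.zpow_mul, ← _root_.zpow_add, hxy, zpow_one]
  exact this ▸ mul_mem (hi _) (hj _)

theorem two_ne_zero_of_sq [Finite F] {D : Subgroup Fˣ} (h : ∀ c, c ^ 2 ∈ D) (hD : D ≠ ⊤) : (2 : F) ≠ 0 := fun h2 =>
  hD (eq_top_iff.2 fun c _ => by
    obtain ⟨d, rfl⟩ := Finite.injective_iff_surjective.1 (show Function.Injective fun c : Fˣ => c ^ 2 from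
      fun a b e => Units.ext (sub_eq_zero.1 (pow_eq_zero_iff two_ne_zero |>.1 (by
        have : a.1 ^ 2 = b.1 ^ 2 := by simpa using congrArg Units.val e
        linear_combination this + (b.1 ^ 2 - a.1 * b.1) * h2)))) c
    exact h d)

theorem irreducible_of_no_root (hP : P.Monic) (h2 : 2 ≤ P.natDegree) (h3 : P.natDegree ≤ 3) (h : ∀ c, P.eval c ≠ 0) :
    Irreducible P :=
  (hP.irreducible_iff_roots_eq_zero_of_degree_le_three h2 h3).2
    (Multiset.eq_zero_of_forall_notMem fun c hc => h c (mem_roots'.1 hc).2)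

/-- The unitriangular matrices of size three. -/
def uT (a b c : F) : End F (Fin 3 → F) := toLin' !![1, a, c; 0, 1, b; 0, 0, 1]

theorem cj_mat {n : Type} [Fintype n] [DecidableEq n] (g : Matrix n n F) {M N : Matrix n n F} (h1 : g.det = 1)
    (h2 : g * M = N * g) : Cj (toLin' M) (toLin' N) :=
  .of_semi (g := toLin' g) (by simp [h1]) (by simp only [End.mul_eq_comp, ← toLin'_mul, h2])

theorem uT_mul (a b c a' b' c' : F) : uT a b c * uT a' b' c' = uT (a + a') (b + b') (c + c' + a * b') := by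
  simp only [uT, End.mul_eq_comp, ← toLin'_mul]
  congr 1
  ext i j
  fin_cases i <;> fin_cases j <;> simp [Matrix.mul_apply, Fin.sum_univ_three] <;> ring

theorem cj_uT {a : F} (ha : a ≠ 0) (c : F) : Cj (uT 1 1 0) (uT a a c) :=
  cj_mat !![a, c / a, 0; 0, 1, 0; 0, 0, 1 / a] (by simp [det_fin_three, ha]) (by
    ext i j
    fin_cases i <;> fin_cases j <;> simp [Matrix.mul_apply, Fin.sum_univ_three, ha, div_eq_mul_inv, add_comm])

theorem pw_uT (r : F) : Pw 3 (uT 1 1 0) (uT 1 r 0) := by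
  have h1 := (Pw.one (.refl _)).mul (.one (cj_uT (neg_ne_zero.2 (one_ne_zero (α := F))) r))
  rw [uT_mul] at h1
  have h2 := (h1.cj (H := uT 0 (r - 1) 0) (cj_mat !![0, -1, 0; 1, 0, 0; 0, 0, 1] (by simp [det_fin_three]) (by
    ext i j
    fin_cases i <;> fin_cases j <;> simp [Matrix.mul_apply, Fin.sum_univ_three, sub_eq_add_neg]))).mul (.one (.refl _))
  simpa [uT_mul] using h2

theorem pw_uT_one (hF : Big F) : Pw 3 (uT (1 : F) 1 0) 1 := by
  obtain ⟨t, t0, t1, -⟩ := hF 0 (-1) 0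
  have h1 := ((Pw.one (.refl _)).mul (.one (cj_uT t0 0))).mul (.one (cj_uT (a := -1 - t)
    (fun e => t1 (by linear_combination -e)) ((1 + t) ^ 2 - t)))
  rw [uT_mul, uT_mul] at h1
  convert h1
  rw [End.one_eq_id, ← toLin'_one, uT]
  congr 1
  ext i j
  fin_cases i <;> fin_cases j <;> simp
  ring

theorem ct_uT : CT (uT (1 : F) 1 0) {1, 1, 1} := by
  have h : ∀ z : Fin 3 → F, uT 1 1 0 z = ![z 0 + z 1, z 1 + z 2, z 2] := fun z => by
    ext i
    fin_cases i <;> simp [uT, mulVec, dotProduct, Fin.sum_univ_three]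
  have h2 : ∀ z : Fin 3 → F, uT 1 1 0 z = z → z 1 = 0 ∧ z 2 = 0 := fun z e =>
    ⟨by simpa [h] using congrFun e 0, by simpa [h] using congrFun e 1⟩
  refine ⟨by simp, LinearMap.ext fun z => ?_, fun l u w hu e1 e2 => ?_⟩
  · ext i
    fin_cases i <;> simp [lt, h, vecHead, vecTail]
  · obtain rfl : l = 1 := by_contra fun hl => hu (by
      have key : ∀ x : F, x = l * x → x = 0 := fun x e => by_contra fun h => hl ((mul_eq_right₀ h).1 e.symm)
      have a2 : u 2 = 0 := key _ (by simpa [h] using congrFun e1 2)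
      have a1 : u 1 = 0 := key _ (by simpa [h, a2] using congrFun e1 1)
      have a0 : u 0 = 0 := key _ (by simpa [h, a1] using congrFun e1 0)
      ext i
      fin_cases i <;> simp [a0, a1, a2])
    rw [one_smul] at e1 e2
    have a0 : u 0 ≠ 0 := fun e => hu (by ext i; fin_cases i <;> simp [e, h2 u e1])
    exact ⟨w 0 / u 0, by ext i; fin_cases i <;> simp [a0, h2 u e1, h2 w e2]⟩

theorem blocks_uT {l : F} (hl : l ≠ 0) : Blocks (l • uT (1 : F) 1 0) {(X - C l) ^ 3} := by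
  simpa [lt, pow_succ, mul_assoc] using (ct_uT.smul hl).blocks

variable [Module.Finite F V]

theorem pow_deg_mem (hA : Blocks A μ) (hP : P ∈ μ) (c : Fˣ) : c ^ P.natDegree ∈ detC A := by
  haveI := (hA.monic P hP).finite_adjoinRoot
  obtain ⟨b, h1, h2⟩ := hA.exists_commute hP (a := c.1 • 1) ((Commute.one_left _).smul_left _)
  exact ⟨b, h1, by simp [h2, finrank_adjoinRoot]⟩

variable [Finite F]

theorem dvd_of_bad (hb : detC A ≠ ⊤) (hA : Blocks A μ) {R : F[X]} (hP : φ * R ∈ μ) (h1 : φ.Monic)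
    (h2 : Irreducible φ) : φ ∣ R := by_contra fun h => by
  obtain ⟨ν, rfl⟩ := Multiset.exists_cons_of_mem hP
  exact hb (detC_eq_top (hA.split h1 (h1.of_mul_monic_left (hA.monic _ hP)) (h2.coprime_iff_not_dvd.2 h)) h2 (by simp))

theorem pow_of_bad (hb : detC A ≠ ⊤) (hA : Blocks A μ) (hP : P ∈ μ) (h2 : 2 ≤ P.natDegree) (h3 : P.natDegree ≤ 3) :
    ∃ α, P = (X - C α) ^ P.natDegree := by
  have m1 := hA.monic P hP
  obtain ⟨α, hα⟩ : ∃ α, P.eval α = 0 := by
    simpa using mt (irreducible_of_no_root m1 h2 h3) fun h => hb (detC_eq_top hA h hP)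
  obtain ⟨R, rfl⟩ := dvd_iff_isRoot.2 hα
  obtain ⟨R, rfl⟩ := dvd_of_bad hb hA hP (monic_X_sub_C α) (irreducible_X_sub_C α)
  have m2 := (monic_X_sub_C α).of_mul_monic_left ((monic_X_sub_C α).of_mul_monic_left m1)
  have d : ((X - C α) * ((X - C α) * R)).natDegree = 2 + R.natDegree := by
    rw [← mul_assoc, ((monic_X_sub_C α).mul (monic_X_sub_C α)).natDegree_mul m2,
      (monic_X_sub_C α).natDegree_mul (monic_X_sub_C α), natDegree_X_sub_C]
  refine ⟨α, ?_⟩
  rw [d] at h3 ⊢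
  by_cases h : R.natDegree = 0
  · rw [h, m2.natDegree_eq_zero.1 h]; ring
  · obtain ⟨β, rfl⟩ : ∃ β, R = X - C β := ⟨-R.coeff 0, by simpa using m2.eq_X_add_C (by omega)⟩
    have := dvd_of_bad hb hA (φ := X - C β) (R := (X - C α) * (X - C α)) (by convert hP using 1; ring)
      (monic_X_sub_C β) (irreducible_X_sub_C β)
    obtain rfl : β = α := by simpa [sub_eq_zero] using dvd_iff_isRoot.1 this
    rw [natDegree_X_sub_C]; ring

theorem fn_uT (hq : 4 ≤ Nat.card F) : Fn 3 (uT (1 : F) 1 0) := fun G hG => by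
  have hF := big_of_card hq
  have h1 : Blocks (uT (1 : F) 1 0) {(X - C 1) ^ 3} := by simpa only [one_smul] using blocks_uT (one_ne_zero (α := F))
  rw [ct_uT.det, show ({1, 1, 1} : Multiset F).prod ^ 3 = 1 by simp] at hG
  have hu := (isUnit_iff_isUnit_det G).2 (hG ▸ isUnit_one)
  by_cases h2 : NS G
  swap
  · obtain ⟨c, rfl⟩ : ∃ c : F, G = c • 1 := by simpa [NS] using h2
    have hc : c ≠ 0 := fun e => by simp [e] at hu
    exact ⟨c⁻¹, by simpa [hc] using pw_uT_one hF⟩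
  by_cases h3 : detC G = ⊤
  · obtain ⟨x, x0, -, x1⟩ := ex_sq hq 0 (1 : F)
    have x2 : 1 / x ≠ x := fun e => x1 ((div_eq_iff x0).1 e).symm
    have h4 := (pair_pc (t := 0) ((monic_X_sub_C (1 : F)).pow 2) (by simp [natDegree_pow, -map_one]) x0 (by simp)
      (by simp [x0]) x2 (by simp) (by simp [x0, pow_two])).two_quot pair_one (irreducible_X_sub_C 1)
      (fun l a b => x1 (by simp [← a.1, b])) (ν := 0) (pow_succ (X - C (1 : F)) 2 ▸ h1)
    have h5 := (Two.full_one (t := (1 / x) ::ₘ 0 + {1}) h4 (by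
      simpa [-one_div, x2.symm] using fun e : x = 1 => x1 (by simp [e]))).2
    obtain ⟨B, D, rfl, h6, h7, -⟩ := exists_ct_mul hF (by simp) h2 ct_uT.card (γ := x ::ₘ ((1 / x) ::ₘ 0 + {1}))
      (by simp) (by simp) (by simp [x0.symm, x0]) (by simp [hG, x0])
    obtain ⟨g, rfl⟩ := exists_unit (ct_uT.sim h6)
    obtain ⟨c, c1, c2⟩ : (Units.map (LinearMap.det : _ →* F) g)⁻¹ ∈ detC _ := h3.ge trivial
    obtain ⟨c, rfl⟩ := (isUnit_iff_isUnit_det c).2 (c2 ▸ Units.isUnit _)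
    refine ⟨1, ?_⟩
    convert Pw.cons (B := (c * g).1 * uT 1 1 0 * ((c * g)⁻¹).1) ⟨c * g, by
      rw [Units.val_mul, map_mul, c2]; exact (Units.map (LinearMap.det : _ →* F) g).inv_mul, rfl⟩
      (h5 _ (h7.of_sim (sim_unit c D))) using 1
    rw [one_smul, ← c.mul_inv_cancel_right (_ * D), ← c1.eq]
    simp [mul_assoc]
  rcases cyclic_or_rank_one (by simp) h2 with ⟨Q, hQ⟩ | ⟨l, -, -, Q, -, -, -, hQ, -⟩
  swap
  · exact (h3 (detC_eq_top hQ (irreducible_X_sub_C l) (by simp))).elim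
  have h4 : Q.natDegree = 3 := by simpa using hQ.finrank_eq.symm
  obtain ⟨l, hl⟩ := pow_of_bad h3 hQ (Multiset.mem_singleton_self Q) (by omega) h4.le
  rw [hl, h4] at hQ
  have l0 : l ≠ 0 := fun e => hQ.isUnit_iff.1 hu _ (Multiset.mem_singleton_self _) (by simp [e])
  obtain ⟨g, rfl⟩ := exists_unit ((blocks_uT l0).sim hQ)
  have d0 := ((LinearMap.isUnit_iff_isUnit_det _).1 g.isUnit).ne_zero
  refine ⟨l⁻¹, (pw_uT (LinearMap.det g.1)⁻¹).cj (.of_semi (g := g.1 * toLin' !![1, 0, 0; 0, 1, 0; 0, 0,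
    (LinearMap.det g.1)⁻¹]) (by simp [det_fin_three, d0]) ?_)⟩
  simp only [mul_smul_comm, smul_mul_assoc, inv_smul_smul₀ l0, mul_assoc, Units.inv_mul_cancel_left]
  congr 1
  simp only [uT, End.mul_eq_comp, ← toLin'_mul]
  congr 1
  ext i j
  fin_cases i <;> fin_cases j <;> simp [Matrix.mul_apply, Fin.sum_univ_three]

theorem fn_single_root (hq : 4 ≤ Nat.card F) (h4 : 4 ≤ finrank F V) (hA : Blocks A {P})
    (hd : LinearMap.det A = 1) {α : F} (hα : P.eval α = 0) : Fn 4 A := by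
  have hF := big_of_card hq
  have hu := (isUnit_iff_isUnit_det A).2 (hd ▸ isUnit_one)
  obtain ⟨R, rfl⟩ := dvd_iff_isRoot.2 hα
  have m1 := (monic_X_sub_C α).of_mul_monic_left (hA.monic _ (by simp) : ((X - C α) * R).Monic)
  have h1 := hA.finrank_eq
  obtain ⟨k, hk⟩ := Nat.exists_eq_add_of_le h4
  rw [Multiset.map_singleton, Multiset.sum_singleton, (monic_X_sub_C α).natDegree_mul m1, natDegree_X_sub_C] at h1
  have h2 : α * α * (R.coeff 0 * R.coeff 0) = 1 := by
    have := congrArg (· ^ 2) (hA.det_eq.symm.trans hd)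
    simp only [mul_pow] at this
    rw [← pow_mul, mul_comm _ 2, pow_mul] at this
    simpa [mul_pow, pow_two, mul_mul_mul_comm] using this
  have a0 : α ≠ 0 := fun e => by simp [e] at h2
  rw [mul_comm] at hA
  generalize hb : α * α = b at h2
  have b0 : b ≠ 0 := left_ne_zero_of_mul_eq_one h2
  by_cases h3 : b * b = 1
  · obtain ⟨y, y0, -, y1⟩ := ex_sq hq 0 (1 : F)
    have y2 : ∀ c, c * c = 1 → y ≠ c ∧ 1 / y ≠ c := fun c hc => ⟨fun e => y1 (e ▸ hc), fun e => y1 (by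
      rw [div_eq_iff y0] at e; linear_combination -y * y * hc - (c * y + 1) * e)⟩
    have y3 : 1 / y ≠ y := fun e => y1 ((div_eq_iff y0).1 e).symm
    have h5 := pair_pc m1 (t := b ::ₘ .replicate k 1) (by simp; omega) y0 (by simp [b0.symm, Multiset.mem_replicate])
      (by simp [y0]) y3 (by simp [-one_div, Multiset.mem_replicate, y2 b h3, y2 1 (by simp)])
      (by simp [y0]; linear_combination R.coeff 0 * R.coeff 0 * h3 - b * h2)
    have h6 := h5.two_quot (pair_point a0) (irreducible_X_sub_C α) (fun l a c => (y2 b h3).1 (a.1 ▸ hb ▸ c)) hA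
    rw [hb, Multiset.cons_add] at h6
    refine (h6.full_one (by simp [-one_div, Multiset.mem_replicate, y2 b h3, y2 1 (by simp), y3.symm])).fn hF (by omega)
      hu (by simp [Multiset.mem_replicate, b0.symm, y0.symm, y0]) one_ne_zero ?_
    simp only [← Multiset.singleton_add, Multiset.map_add, Multiset.map_singleton, Multiset.map_replicate,
      one_div_one_div, div_one, (div_eq_iff b0).2 h3.symm]
    abel
  · have b1 : b ≠ 1 := fun e => h3 (by simp [e])
    have b2 : 1 / b ≠ 1 := by simpa using b1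
    have h5 := pair_pc m1 (t := .replicate (k + 1) 1) (by simp; omega) one_ne_zero (by simp [Multiset.mem_replicate])
      (by simp [b0]) b2 (by simp [-one_div, Multiset.mem_replicate, b2]) (by simp [field]; linear_combination -h2)
    have h6 := h5.two_quot (pair_point a0) (irreducible_X_sub_C α) (fun l a c => b1 (hb ▸ c ▸ a.1)) hA
    rw [hb, add_comm, Multiset.singleton_add] at h6
    refine (h6.full_one (by simpa [-one_div, Multiset.mem_replicate, b1, eq_div_iff b0] using h3)).fn hF (by omega)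
      hu (by simp [Multiset.mem_replicate, b0.symm, b0]) one_ne_zero ?_
    simp only [← Multiset.singleton_add, Multiset.map_add, Multiset.map_singleton, Multiset.map_replicate,
      one_div_one_div, div_one]
    abel

theorem pair_irr (hq : 4 ≤ Nat.card F) (h1 : φ.Monic) (h2 : Irreducible φ) (h0 : φ.coeff 0 ≠ 0) :
    ∃ t b cf, Pair {φ} t cf (· = b) := by
  by_cases h : φ.natDegree = 1
  · obtain ⟨α, rfl⟩ : ∃ α, φ = X - C α := ⟨-φ.coeff 0, by simpa using h1.eq_X_add_C h⟩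
    exact ⟨_, _, _, pair_point (by simpa using h0)⟩
  · have := h2.natDegree_pos
    obtain ⟨a, a0, -, a1⟩ := ex_sq hq 0 (φ.coeff 0 * φ.coeff 0)
    obtain ⟨s, hs⟩ := pair_start hq a0 h1 h0 (by omega) fun _ => a1
    exact ⟨_, 0, _, (hs.no_ce fun c => h2.not_isRoot_of_natDegree_ne_one h).mono (fun _ h => h) fun _ h => h.elim⟩

theorem two_bad (hq : 4 ≤ Nat.card F) (hA : Blocks A μ) (hu : IsUnit A) (hb : detC A ≠ ⊤) (h0 : μ ≠ 0)
    (h2 : ∀ P ∈ μ, 2 ≤ P.natDegree) (hc : Ch μ) : ∃ s, Two A s := by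
  have h1 := hA.isUnit_iff.1 hu
  by_cases h : ∃ Q ∈ μ, Q.natDegree = 2
  · obtain ⟨Q, hQ, h⟩ := h
    obtain ⟨α, hα⟩ := pow_of_bad hb hA hQ h.ge (by omega)
    obtain ⟨a, a0, a1, a2⟩ := hc.exists_start hq hA.monic (α * α)
    obtain ⟨ν, rfl⟩ := Multiset.exists_cons_of_mem hQ
    obtain ⟨s, hs, -⟩ := pair_chain (μ := ν) hq a0 fun P hP =>
      have := Multiset.mem_cons_of_mem (b := Q) hP; ⟨hA.monic P this, h1 P this, h2 P this, a2 P this⟩
    exact ⟨_, hs.two_jordan hq (fun e => h1 Q hQ (by rw [hα, h]; simp [e])) a1.symm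
      (by rwa [add_comm, Multiset.singleton_add, ← h, ← hα])⟩
  obtain ⟨P, hP⟩ := Multiset.exists_mem_of_ne_zero h0
  have p1 := hA.monic P hP
  have p2 := h2 P hP
  obtain ⟨φ, f1, f2, R, rfl⟩ := exists_monic_irreducible_factor P fun e => by
    simp [natDegree_eq_zero_of_isUnit e] at p2
  have p3 := natDegree_le_of_dvd (dvd_of_bad hb hA hP f1 f2) (right_ne_zero_of_mul p1.ne_zero)
  have p4 := f1.of_mul_monic_left p1
  have p5 := h1 _ hP
  have p6 : (φ * R).natDegree ≠ 2 := fun e => h ⟨_, hP, e⟩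
  rw [f1.natDegree_mul p4] at p2 p6
  rw [mul_coeff_zero] at p5
  obtain ⟨t, b, cf, ht⟩ := pair_irr hq f1 f2 (left_ne_zero_of_mul p5)
  obtain ⟨a, a0, a1, a2⟩ := ex_sq hq b (R.coeff 0 * R.coeff 0)
  obtain ⟨ν, rfl⟩ := Multiset.exists_cons_of_mem hP
  obtain ⟨s, hs, -⟩ := pair_chain (μ := R ::ₘ ν) hq a0 (Multiset.forall_mem_cons.2
    ⟨⟨p4, right_ne_zero_of_mul p5, by omega, fun _ => a2⟩, fun P hP =>
      have := Multiset.mem_cons_of_mem (b := φ * R) hP
      ⟨hA.monic P this, h1 P this, h2 P this, fun e => (h ⟨P, this, e⟩).elim⟩⟩)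
  exact ⟨_, hs.two_quot ht f2 (fun l c d => a1 (c.symm.trans d)) (mul_comm φ R ▸ hA)⟩

theorem fn_bad_large (h8 : 8 ≤ finrank F V) (hq : 4 ≤ Nat.card F) (hd : LinearMap.det A = 1) {s : Multiset F}
    (h : Two A s) : Fn (finrank F V) A := by
  obtain ⟨Y, h1, h2⟩ := h.pw
  obtain ⟨α, hα⟩ := Multiset.card_pos_iff_exists_mem.1 (show 0 < s.card by rw [h2.card]; omega)
  exact ((fn_single_root hq (by omega) h2.blocks (by simp [h1.det, hd]) (eval_lt_prod_eq_zero.2 hα)).bind h1).mono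
    ((isUnit_iff_isUnit_det A).2 (hd ▸ isUnit_one)) h8

end Cfsg.Lib.Lev
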