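import Cfsg.Agent.Lib.Ore.Top
import Cfsg.Agent.Lib.GLC.Diag

/-!
# Products of classes in `GL_n`, I: cyclic triangularizable maps, block triangular maps
-/

set_option autoImplicit false

namespace Cfsg.Lib.Lev

open Module Polynomial LinearMap Cfsg.Lib.GLC Cfsg.Lib.Ore Submodule

variable {F V W U E : Type*} [Field F] [AddCommGroup V] [Module F V] [AddCommGroup W] [Module F W]
  [AddCommGroup U] [Module F U] [AddCommGroup E] [Module F E]

omit [Field F] in
theorem ex_notMem [Finite F] {n : ℕ} (h : n < Nat.card F) (l : List F) (hl : l.length ≤ n) :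
    ∃ t, t ∉ l := by
  classical
  have := Fintype.ofFinite F
  by_contra hc
  push Not at hc
  have := Finset.card_le_card (show Finset.univ ⊆ l.toFinset from fun t _ => by simpa using hc t)
  have := l.toFinset_card_le
  rw [Nat.card_eq_fintype_card, ← Finset.card_univ] at h
  omega

/-- The field has at least four elements. -/
def Big (F : Type*) : Prop := ∀ a b c : F, ∃ t, t ≠ a ∧ t ≠ b ∧ t ≠ c

omit [Field F] in
theorem big_of_card [Finite F] (h : 4 ≤ Nat.card F) : Big F := fun a b c => by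
  simpa using ex_notMem (n := 3) (by omega) [a, b, c] le_rfl

theorem ex_sq [Finite F] (h : 4 ≤ Nat.card F) (a c : F) : ∃ e, e ≠ 0 ∧ e ≠ a ∧ e * e ≠ c := by
  by_cases h1 : ∃ s, s * s = c
  · obtain ⟨s, rfl⟩ := h1
    by_cases h2 : (2 : F) = 0
    · obtain ⟨e, e1, e2, e3⟩ := big_of_card h 0 a s
      refine ⟨e, e1, e2, fun e4 => e3 ?_⟩
      have : (e - s) ^ 2 = 0 := by linear_combination e4 + (s * s - e * s) * h2
      exact sub_eq_zero.1 (pow_eq_zero_iff two_ne_zero |>.1 this)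
    · have := Fintype.ofFinite F
      have h5 : Nat.card F ≠ 4 := fun e4 => h2 (by
        have h6 : ((Fintype.card F : ℕ) : F) = 0 := FiniteField.cast_card_eq_zero F
        rw [← Nat.card_eq_fintype_card, e4] at h6
        have : (2 : F) ^ 2 = 0 := by rw [← h6]; norm_num
        exact pow_eq_zero_iff two_ne_zero |>.1 this)
      obtain ⟨e, he⟩ := ex_notMem (n := 4) (by omega) [0, a, s, -s] le_rfl
      simp only [List.mem_cons, List.not_mem_nil, or_false, not_or] at he
      exact ⟨e, he.1, he.2.1, fun e4 => (mul_self_eq_mul_self_iff.1 e4).elim he.2.2.1 he.2.2.2⟩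
  · obtain ⟨e, e1, e2, -⟩ := big_of_card h 0 a a
    exact ⟨e, e1, e2, fun e4 => h1 ⟨e, e4⟩⟩

theorem ex_lin (hF : Big F) {a₁ b₁ a₂ b₂ a₃ b₃ : F} (h1 : a₁ = 0 → b₁ ≠ 0) (h2 : a₂ = 0 → b₂ ≠ 0)
    (h3 : a₃ = 0 → b₃ ≠ 0) : ∃ t, a₁ * t + b₁ ≠ 0 ∧ a₂ * t + b₂ ≠ 0 ∧ a₃ * t + b₃ ≠ 0 := by
  have key : ∀ a b t : F, (a = 0 → b ≠ 0) → t ≠ -b / a → a * t + b ≠ 0 := fun a b t h ht e => by
    by_cases ha : a = 0
    · exact h ha (by simpa [ha] using e)
    · exact ht (by field_simp; linear_combination e)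
  obtain ⟨t, t1, t2, t3⟩ := hF (-b₁ / a₁) (-b₂ / a₂) (-b₃ / a₃)
  exact ⟨t, key _ _ _ h1 t1, key _ _ _ h2 t2, key _ _ _ h3 t3⟩

theorem exists_factor (f : E →ₗ[F] V) (g : E →ₗ[F] W) (h : ∀ x, f x = 0 → g x = 0) :
    ∃ Z : V →ₗ[F] W, ∀ x, Z (f x) = g x := by
  obtain ⟨Z, hZ⟩ := LinearMap.exists_extend
    (((ker f).liftQ g fun x hx => h x hx) ∘ₗ f.quotKerEquivRange.symm.toLinearMap)
  refine ⟨Z, fun x => ?_⟩
  have := LinearMap.congr_fun hZ ⟨f x, mem_range_self f x⟩
  rw [comp_apply, comp_apply, LinearEquiv.coe_coe, LinearMap.quotKerEquivRange_symm_apply_image] at this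
  exact this

theorem exists_map_one {u : V} (hu : u ≠ 0) (a : W) : ∃ φ : V →ₗ[F] W, φ u = a := by
  obtain ⟨Z, hZ⟩ := exists_factor (toSpanSingleton F V u) (toSpanSingleton F W a) fun x hx => by
    simp_all
  exact ⟨Z, by simpa using hZ 1⟩

variable (F) in
/-- Independence of two vectors. -/
def I2 (u v : V) : Prop := ∀ a b : F, a • u + b • v = 0 → a = 0 ∧ b = 0

variable (F) in
/-- Independence of three vectors. -/
def I3 (u v w : V) : Prop := ∀ a b c : F, a • u + b • v + c • w = 0 → a = 0 ∧ b = 0 ∧ c = 0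

variable (F) in
/-- Independence of four vectors. -/
def I4 (u v w z : V) : Prop :=
  ∀ a b c d : F, a • u + b • v + c • w + d • z = 0 → a = 0 ∧ b = 0 ∧ c = 0 ∧ d = 0

theorem I2.map {u v : V} (h : I2 F u v) (a b : W) : ∃ φ : V →ₗ[F] W, φ u = a ∧ φ v = b := by
  obtain ⟨Z, hZ⟩ := exists_factor ((toSpanSingleton F V u).coprod (toSpanSingleton F V v))
    ((toSpanSingleton F W a).coprod (toSpanSingleton F W b)) fun x hx => by
    obtain ⟨h1, h2⟩ := h x.1 x.2 hx
    simp [h1, h2]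
  exact ⟨Z, by simpa using hZ (1, 0), by simpa using hZ (0, 1)⟩

theorem I3.map {u v w : V} (h : I3 F u v w) (a b c : W) :
    ∃ φ : V →ₗ[F] W, φ u = a ∧ φ v = b ∧ φ w = c := by
  obtain ⟨Z, hZ⟩ := exists_factor
    (((toSpanSingleton F V u).coprod (toSpanSingleton F V v)).coprod (toSpanSingleton F V w))
    (((toSpanSingleton F W a).coprod (toSpanSingleton F W b)).coprod (toSpanSingleton F W c)) fun x hx => by
    obtain ⟨h1, h2, h3⟩ := h x.1.1 x.1.2 x.2 hx
    simp [h1, h2, h3]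
  exact ⟨Z, by simpa using hZ ((1, 0), 0), by simpa using hZ ((0, 1), 0), by simpa using hZ ((0, 0), 1)⟩

theorem I4.map {u v w z : V} (h : I4 F u v w z) (a b c d : W) :
    ∃ φ : V →ₗ[F] W, φ u = a ∧ φ v = b ∧ φ w = c ∧ φ z = d := by
  obtain ⟨Z, hZ⟩ := exists_factor
    (((toSpanSingleton F V u).coprod (toSpanSingleton F V v)).coprod
      ((toSpanSingleton F V w).coprod (toSpanSingleton F V z)))
    (((toSpanSingleton F W a).coprod (toSpanSingleton F W b)).coprod
      ((toSpanSingleton F W c).coprod (toSpanSingleton F W d))) fun x hx => by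
    obtain ⟨h1, h2, h3, h4⟩ := h x.1.1 x.1.2 x.2.1 x.2.2 (by simpa [add_assoc] using hx)
    simp [h1, h2, h3, h4]
  exact ⟨Z, by simpa using hZ ((1, 0), 0), by simpa using hZ ((0, 1), 0), by simpa using hZ (0, (1, 0)),
    by simpa using hZ (0, (0, 1))⟩

theorem i2_of_ne {S : End F V} {v : V} (h : ∀ c : F, S v ≠ c • v) : I2 F v (S v) := fun a b e => by
  by_cases hb : b = 0
  · refine ⟨by_contra fun ha => h 0 ?_, hb⟩
    have : v = 0 := by simpa [hb, ha] using e
    simp [this]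
  · exact (h (-a / b) (by
      rw [div_eq_inv_mul, mul_smul, eq_inv_smul_iff₀ hb]; linear_combination (norm := module) e)).elim

/-- A map that is not a scalar moves some line. -/
theorem exists_not_eigen {S : End F V} (h : ∀ c : F, S ≠ c • 1) : ∃ v, ∀ c : F, S v ≠ c • v := by
  by_contra hc
  push Not at hc
  rcases subsingleton_or_nontrivial V with hV | hV
  · exact h 0 (Subsingleton.elim _ _)
  obtain ⟨u, hu⟩ := exists_ne (0 : V)
  obtain ⟨c, h1⟩ := hc u
  refine h c (LinearMap.ext fun w => ?_)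
  obtain ⟨d, h2⟩ := hc w
  obtain ⟨e, h3⟩ := hc (u + w)
  rw [map_add, h1, h2] at h3
  by_cases h4 : e = d
  · have : c = d := by
      have : (c - d) • u = 0 := by rw [h4] at h3; linear_combination (norm := module) h3
      exact sub_eq_zero.1 ((smul_eq_zero.1 this).resolve_right hu)
    simp [h2, this]
  · have h5 : w = ((c - e) / (e - d)) • u := by
      rw [div_eq_inv_mul, mul_smul, eq_inv_smul_iff₀ (sub_ne_zero.2 h4)]
      linear_combination (norm := module) -h3
    rw [h5]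
    simp [h1, smul_smul, mul_comm]

theorem ext_equiv [Module.Finite F V] [Module.Finite F W] (h : finrank F V = finrank F W)
    {f : E →ₗ[F] V} {g : E →ₗ[F] W} (hf : Function.Injective f) (hg : Function.Injective g) :
    ∃ e : V ≃ₗ[F] W, ∀ x, e (f x) = g x := by
  let e₁ := LinearEquiv.ofFinrankEq V W h
  have h1 : Function.Injective (e₁.toLinearMap ∘ₗ f) := e₁.injective.comp hf
  obtain ⟨e₂, h2⟩ := Submodule.exists_linearEquiv_restrict_eq
    ((LinearEquiv.ofInjective _ h1).symm.trans (LinearEquiv.ofInjective _ hg))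
  refine ⟨e₁.trans e₂, fun x => ?_⟩
  have := h2 (LinearEquiv.ofInjective _ h1 x)
  simpa using this.symm

theorem I2.equiv [Module.Finite F V] [Module.Finite F W] (h : finrank F V = finrank F W) {u v : V} {u' v' : W}
    (h1 : I2 F u v) (h2 : I2 F u' v') : ∃ e : V ≃ₗ[F] W, e u = u' ∧ e v = v' := by
  obtain ⟨e, he⟩ := ext_equiv h (f := (toSpanSingleton F V u).coprod (toSpanSingleton F V v))
    (g := (toSpanSingleton F W u').coprod (toSpanSingleton F W v'))
    (ker_eq_bot.1 (ker_eq_bot'.2 fun x hx => Prod.ext (h1 _ _ hx).1 (h1 _ _ hx).2))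
    (ker_eq_bot.1 (ker_eq_bot'.2 fun x hx => Prod.ext (h2 _ _ hx).1 (h2 _ _ hx).2))
  exact ⟨e, by simpa using he (1, 0), by simpa using he (0, 1)⟩

theorem exists_eq_one {b : V →ₗ[F] F} (hb : b ≠ 0) : ∃ u, b u = 1 := by
  obtain ⟨u, hu⟩ := DFunLike.ne_iff.1 hb
  exact ⟨(b u)⁻¹ • u, by simpa using inv_mul_cancel₀ hu⟩

theorem finrank_ker_add_one [Module.Finite F V] {b : V →ₗ[F] F} (hb : b ≠ 0) :
    finrank F (ker b) + 1 = finrank F V := by
  obtain ⟨u, hu⟩ := exists_eq_one hb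
  have h1 := b.finrank_range_add_finrank_ker
  rw [range_eq_top.2 fun s => ⟨s • u, by simp [hu]⟩, finrank_top, finrank_self] at h1
  omega

/-- Rank one perturbations of the identity with the same determinant are similar. -/
theorem sim_transvection [Module.Finite F V] [Module.Finite F W] (h : finrank F V = finrank F W)
    {a : V} {b : Dual F V} {a' : W} {b' : Dual F W} (ha : a ≠ 0) (hb : b ≠ 0) (ha' : a' ≠ 0) (hb' : b' ≠ 0)
    (hd : b a = b' a') : Sim (transvection b a) (transvection b' a') := by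
  have h1 : finrank F (ker b) = finrank F (ker b') := by
    have := finrank_ker_add_one hb
    have := finrank_ker_add_one hb'
    omega
  obtain ⟨u, u', hu, hu', e₀, h2⟩ : ∃ u u', ∃ (hu : b u = 1) (hu' : b' u' = 1), ∃ e₀ : ker b ≃ₗ[F] ker b',
      e₀ ⟨a - b a • u, by simp [hu]⟩ = ⟨a' - b' a' • u', by simp [hu']⟩ := by
    by_cases h0 : b a = 0
    · obtain ⟨u, hu⟩ := exists_eq_one hb
      obtain ⟨u', hu'⟩ := exists_eq_one hb'
      obtain ⟨e₀, he⟩ := ext_equiv h1 (f := toSpanSingleton F _ (⟨a, h0⟩ : ker b))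
        (g := toSpanSingleton F _ (⟨a', hd.symm.trans h0⟩ : ker b'))
        (ker_eq_bot.1 (ker_toSpanSingleton F fun e => ha (congrArg Subtype.val e)))
        (ker_eq_bot.1 (ker_toSpanSingleton F fun e => ha' (congrArg Subtype.val e)))
      exact ⟨u, u', hu, hu', e₀, by simpa [h0, ← hd] using he 1⟩
    · refine ⟨(b a)⁻¹ • a, (b a)⁻¹ • a', by simp [h0], by simp [← hd, h0], .ofFinrankEq _ _ h1, ?_⟩
      simp only [← hd, smul_inv_smul₀ h0, sub_self]
      exact map_zero _
  obtain ⟨e, he⟩ := ext_equiv h (f := (ker b).subtype.coprod (toSpanSingleton F V u))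
    (g := ((ker b').subtype ∘ₗ e₀.toLinearMap).coprod (toSpanSingleton F W u'))
    (ker_eq_bot.1 (ker_eq_bot'.2 fun x hx => by
      have h3 : x.2 = 0 := by simpa [hu, mem_ker.1 x.1.2] using congrArg b hx
      exact Prod.ext (by simpa [h3] using hx) h3))
    (ker_eq_bot.1 (ker_eq_bot'.2 fun x hx => by
      have h3 : x.2 = 0 := by simpa [hu', mem_ker.1 (e₀ x.1).2] using congrArg b' hx
      exact Prod.ext (by simpa [h3] using hx) h3))
  have h4 : ∀ z, e z = e₀ ⟨z - b z • u, by simp [hu]⟩ + b z • u' := fun z => by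
    simpa using he (⟨z - b z • u, by simp [hu]⟩, b z)
  have h5 : e a = a' := by rw [h4, h2, hd]; simp
  refine ⟨e, fun z => ?_⟩
  have h6 : b' (e z) = b z := by
    rw [h4, map_add, mem_ker.1 (e₀ _).2]; simp [hu']
  simp [transvection.apply, h5, h6]

/-- A map of rank one. -/
theorem exists_of_rank_one [Module.Finite F V] {N : End F V} (h : finrank F (ker N) + 1 = finrank F V) :
    ∃ (a : V) (b : Dual F V), a ≠ 0 ∧ b ≠ 0 ∧ ∀ z, N z = b z • a := by
  have h1 := N.finrank_range_add_finrank_ker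
  obtain ⟨⟨a, ha⟩, h2, h3⟩ := finrank_eq_one_iff'.1 (show finrank F (range N) = 1 by omega)
  have h4 : a ≠ 0 := fun e => h2 (Subtype.ext e)
  obtain ⟨f, hf⟩ := exists_map_one (F := F) h4 (1 : F)
  have h5 : ∀ z, N z = (f ∘ₗ N) z • a := fun z => by
    obtain ⟨c, hc⟩ := h3 ⟨N z, z, rfl⟩
    have : N z = c • a := (congrArg Subtype.val hc).symm
    simp [this, hf]
  refine ⟨a, f ∘ₗ N, h4, fun e => h4 ?_, h5⟩
  obtain ⟨z, rfl⟩ := ha
  rw [h5, e]; simp

theorem blocks_scalar [Module.Finite F V] (c : F) :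
    Blocks (c • 1 : End F V) (.replicate (finrank F V) (X - C c)) := by
  obtain ⟨f, hf⟩ := exists_blocks_lt (V := V) (M := .replicate (finrank F V) c) (by simp)
  rwa [(hf.lt_eq_smul_iff (c := c)).2 fun a ha => Multiset.eq_of_mem_replicate ha, lt_replicate] at hf

/-- Invariant factors. -/
theorem exists_inv [Module.Finite F V] (f : End F V) : ∃ μ, Blocks f μ ∧ (∀ P ∈ μ, 0 < P.natDegree) ∧
    ∀ P ∈ μ, ∀ Q ∈ μ, P.natDegree ≤ Q.natDegree → P ∣ Q := by
  classical
  let S : Set ℕ := {k | ∃ μ, Blocks f μ ∧ (∀ P ∈ μ, 0 < P.natDegree) ∧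
    (μ.map fun P => P.natDegree ^ 2).sum = k}
  have hb : BddAbove S := ⟨finrank F V * finrank F V, by
    rintro _ ⟨μ, h1, -, rfl⟩
    conv_rhs => rw [← smul_eq_mul, h1.finrank_eq, smul_eq_mul, ← Multiset.sum_map_mul_right, ← h1.finrank_eq]
    exact Multiset.sum_map_le_sum_map _ _ fun P hP => by
      rw [sq]; exact Nat.mul_le_mul_left _ (natDegree_le_of_mem h1 hP)⟩
  obtain ⟨μ, h1, h2, h3⟩ := Nat.sSup_mem (s := S)
    ⟨_, typ f, blocks_typ f, fun P hP => (typ_pp f P hP).natDegree_pos, rfl⟩ hb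
  refine ⟨μ, h1, h2, fun P hP Q hQ hd => by_contra fun hn => ?_⟩
  have hPQ : P ≠ Q := fun e => hn (e ▸ dvd_rfl)
  obtain ⟨ν, rfl⟩ := Multiset.exists_cons_of_mem hP
  obtain ⟨ν, rfl⟩ := Multiset.exists_cons_of_mem ((Multiset.mem_cons.1 hQ).resolve_left hPQ.symm)
  have mP := h1.monic P hP
  have mQ := h1.monic Q hQ
  obtain ⟨φ, m1, p1, h4⟩ : ∃ φ : F[X], φ.Monic ∧ Prime φ ∧ emultiplicity φ Q < emultiplicity φ P := by
    obtain ⟨p, hp⟩ := not_forall.1 (mt (UniqueFactorizationMonoid.dvd_iff_emultiplicity_le mP.ne_zero).2 hn)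
    rw [Classical.not_imp, not_le] at hp
    have ha := associated_normalize p
    refine ⟨normalize p, monic_normalize hp.1.ne_zero, ha.prime hp.1, ?_⟩
    rw [emultiplicity_eq_of_associated_left ha, emultiplicity_eq_of_associated_left ha]
    exact hp.2
  have f1 : FiniteMultiplicity φ P := .of_prime_left p1 mP.ne_zero
  have f2 : FiniteMultiplicity φ Q := .of_prime_left p1 mQ.ne_zero
  rw [f1.emultiplicity_eq_multiplicity, f2.emultiplicity_eq_multiplicity, Nat.cast_lt] at h4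
  obtain ⟨P', e1, n1⟩ := f1.exists_eq_pow_mul_and_not_dvd
  obtain ⟨Q', e2, n2⟩ := f2.exists_eq_pow_mul_and_not_dvd
  generalize multiplicity φ P = i at *
  generalize multiplicity φ Q = j at *
  have mP' : P'.Monic := (m1.pow i).of_mul_monic_left (e1 ▸ mP)
  have mQ' : Q'.Monic := (m1.pow j).of_mul_monic_left (e2 ▸ mQ)
  have c1 := p1.irreducible.coprime_iff_not_dvd.2 n1
  have c2 := p1.irreducible.coprime_iff_not_dvd.2 n2
  subst e1 e2
  have h5 := h1.split (m1.pow i) mP' c1.pow_left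
  rw [Multiset.cons_swap P', Multiset.cons_swap (φ ^ i)] at h5
  have h6 := h5.split (m1.pow j) mQ' c2.pow_left
  rw [Multiset.cons_swap (φ ^ j), Multiset.cons_swap (φ ^ j), Multiset.cons_swap Q'] at h6
  have h7 := h6.merge c2.pow_left
  rw [Multiset.cons_swap, Multiset.cons_swap (φ ^ i * Q')] at h7
  have h8 := h7.merge c1.pow_left
  have d1 : ∀ (k : ℕ) (R : F[X]), R.Monic → (φ ^ k * R).natDegree = k * φ.natDegree + R.natDegree :=
    fun k R hR => by rw [(m1.pow k).natDegree_mul hR, m1.natDegree_pow]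
  have d2 := p1.irreducible.natDegree_pos
  obtain ⟨k, rfl⟩ := Nat.exists_eq_add_of_lt h4
  have h9 : ∀ ξ, Blocks f ξ → (∀ P ∈ ξ, 0 < P.natDegree) → (ξ.map fun P => P.natDegree ^ 2).sum ≤ sSup S :=
    fun ξ a b => le_csSup hb ⟨ξ, a, b, rfl⟩
  have p0 : ∀ P ∈ φ ^ (j + k + 1) * Q' ::ₘ ν, 0 < P.natDegree := fun P hP => by
    rcases Multiset.mem_cons.1 hP with rfl | hP
    · rw [d1 _ _ mQ']; positivity
    · exact h2 P (by simp [hP])
  rw [d1 _ _ mP', d1 _ _ mQ'] at hd
  have key : ∀ x y t : ℕ, 0 < t → x + t ≤ y → (x + t) ^ 2 + y ^ 2 < x ^ 2 + (y + t) ^ 2 := fun x y t a b => by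
    nlinarith
  replace key := key (j * φ.natDegree + P'.natDegree) (j * φ.natDegree + Q'.natDegree) ((k + 1) * φ.natDegree)
    (by positivity) (by linarith)
  have e3 : ∀ z, j * φ.natDegree + z + (k + 1) * φ.natDegree = (j + k + 1) * φ.natDegree + z := fun z => by ring
  rw [e3, e3] at key
  by_cases h0 : (φ ^ j * P').natDegree = 0
  · rw [((m1.pow j).mul mP').natDegree_eq_zero.1 h0] at h8
    have := h9 _ (by simpa using h8.merge isCoprime_one_left) p0
    simp only [← h3, Multiset.map_cons, Multiset.sum_cons, d1 _ _ mP', d1 _ _ mQ'] at this h0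
    rw [h0] at key
    omega
  · have := h9 _ h8 fun P hP => (Multiset.mem_cons.1 hP).elim (fun e => e ▸ Nat.pos_of_ne_zero h0) (p0 P)
    simp only [← h3, Multiset.map_cons, Multiset.sum_cons, d1 _ _ mP', d1 _ _ mQ'] at this h0
    omega

end Cfsg.Lib.Lev
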