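import Cfsg.Agent.Lib.Lev.Basic

/-!
# Products of classes in `GL_n`, II: cyclic triangularizable maps
-/

set_option autoImplicit false

namespace Cfsg.Lib.Lev

open Module Polynomial LinearMap Cfsg.Lib.GLC Cfsg.Lib.Ore Submodule

variable {F V W U : Type*} [Field F] [AddCommGroup V] [Module F V] [AddCommGroup W] [Module F W]
  [AddCommGroup U] [Module F U]

/-- Eigenspaces are at most lines. -/
def E1 (T : End F V) : Prop :=
  ∀ (μ : F) (u w : V), u ≠ 0 → T u = μ • u → T w = μ • w → ∃ c : F, w = c • u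

/-- Cyclic with the characteristic roots `s`. -/
structure CT (T : End F V) (s : Multiset F) : Prop where
  card : s.card = finrank F V
  ann : aeval T (lt s).prod = 0
  e1 : E1 T

variable {T : End F V} {s t : Multiset F}

theorem aeval_X_sub (T : End F V) (μ : F) (z : V) : aeval T (X - C μ) z = T z - μ • z := by
  simp [Algebra.algebraMap_eq_smul_one]

theorem E1.kd_le [Module.Finite F V] (h : E1 T) (μ : F) : kd T (X - C μ) ≤ 1 := by
  by_cases h0 : ∃ u, u ≠ 0 ∧ T u = μ • u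
  · obtain ⟨u, h1, h2⟩ := h0
    refine (Submodule.finrank_mono (t := span F {u}) fun w hw => ?_).trans (finrank_span_singleton h1).le
    obtain ⟨c, rfl⟩ := h μ u w h1 h2 (sub_eq_zero.1 ((aeval_X_sub T μ w).symm.trans hw))
    exact smul_mem _ _ (mem_span_singleton_self u)
  · have : ker (aeval T (X - C μ)) = ⊥ := ker_eq_bot'.2 fun w hw => by_contra fun e =>
      h0 ⟨w, e, sub_eq_zero.1 ((aeval_X_sub T μ w).symm.trans hw)⟩
    rw [kd, this, finrank_bot]
    exact Nat.zero_le _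

theorem E1.exists_eq [Module.Finite F V] (h : E1 T) {μ : F} {x : V} (hx : ∀ u, T u - μ • u ≠ x) (z : V) :
    ∃ (c : F) (u : V), z = c • x + (T u - μ • u) := by
  have h1 := h.kd_le μ
  have h2 := (aeval T (X - C μ)).finrank_range_add_finrank_ker
  have h3 : range (aeval T (X - C μ)) < span F {x} ⊔ range (aeval T (X - C μ)) :=
    lt_of_le_of_ne le_sup_right fun e => by
      obtain ⟨u, hu⟩ := e.ge (mem_sup_left (mem_span_singleton_self x))
      exact hx u ((aeval_X_sub T μ u).symm.trans hu)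
  have h4 := Submodule.finrank_lt_finrank_of_lt h3
  have h5 := Submodule.eq_top_of_finrank_eq (le_antisymm (Submodule.finrank_le _) (by unfold kd at h1; omega) :
    finrank F (span F {x} ⊔ range (aeval T (X - C μ)) : Submodule F V) = finrank F V)
  obtain ⟨_, h6, _, ⟨u, rfl⟩, rfl⟩ := mem_sup.1 (h5.ge (mem_top (x := z)))
  obtain ⟨c, rfl⟩ := mem_span_singleton.1 h6
  exact ⟨c, u, by rw [aeval_X_sub]⟩

theorem eval_lt_prod_eq_zero {μ : F} : eval μ (lt s).prod = 0 ↔ μ ∈ s := by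
  simp [lt, eval_multiset_prod, sub_eq_zero, eq_comm]

theorem monic_lt_prod (s : Multiset F) : (lt s).prod.Monic := by
  simpa using monic_multiset_prod_of_monic _ id (lt_monic s)

theorem natDegree_lt_prod (s : Multiset F) : (lt s).prod.natDegree = s.card := by
  rw [natDegree_multiset_prod_of_monic _ (lt_monic s), lt_sum]

theorem lt_prod_cons (μ : F) (s : Multiset F) : (lt (μ ::ₘ s)).prod = (X - C μ) * (lt s).prod := by simp [lt]

theorem aeval_eigen {u : V} {μ : F} (h : T u = μ • u) (R : F[X]) : aeval T R u = R.eval μ • u := by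
  have := aeval_intertwine (a := T) (b := (μ • 1 : End F F)) (ι := toSpanSingleton F V u)
    (fun c => by simp [h, smul_smul, mul_comm]) R 1
  rw [← Algebra.algebraMap_eq_smul_one, aeval_algebraMap_apply] at this
  simpa using this

theorem aeval_eigen' {ψ : V →ₗ[F] F} {μ : F} (h : ∀ u, ψ (T u) = μ * ψ u) (R : F[X]) (u : V) :
    ψ (aeval T R u) = R.eval μ * ψ u := by
  have := aeval_intertwine (a := (μ • 1 : End F F)) (b := T) (ι := ψ) (fun c => by simp [h]) R u
  rw [← Algebra.algebraMap_eq_smul_one, aeval_algebraMap_apply] at this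
  simpa using this.symm

namespace CT

theorem mem (h : CT T s) {u : V} {μ : F} (hu : u ≠ 0) (e : T u = μ • u) : μ ∈ s := by
  have := aeval_eigen e (lt s).prod
  rw [h.ann, LinearMap.zero_apply, eq_comm, smul_eq_zero, or_iff_left hu] at this
  exact eval_lt_prod_eq_zero.1 this

theorem mem' (h : CT T s) {ψ : V →ₗ[F] F} {μ : F} (hψ : ψ ≠ 0) (e : ∀ u, ψ (T u) = μ * ψ u) : μ ∈ s := by
  obtain ⟨u, hu⟩ := exists_eq_one hψ
  have := aeval_eigen' e (lt s).prod u
  rw [h.ann, hu, mul_one] at this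
  exact eval_lt_prod_eq_zero.1 (by simpa using this.symm)

theorem of_sim {T' : End F W} (h : CT T s) (e : Sim T T') : CT T' s := by
  refine ⟨h.card.trans e.finrank_eq, (e.aeval _).eq_zero_iff.1 h.ann, fun μ u w hu h1 h2 => ?_⟩
  obtain ⟨e, he⟩ := e.symm
  obtain ⟨c, hc⟩ := h.e1 μ (e u) (e w) (by simpa using hu) (by simp [← he, h1]) (by simp [← he, h2])
  exact ⟨c, e.injective (by simpa using hc)⟩

variable [Module.Finite F V]

theorem blocks (h : CT T s) : Blocks T {(lt s).prod} := by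
  obtain ⟨μ, h1, h2, h3⟩ := exists_inv T
  have h4 := h1.aeval_eq_zero_iff.1 h.ann
  have h5 := h1.finrank_eq
  rcases μ.empty_or_exists_mem with rfl | ⟨P, hP⟩
  · have h6 : s = 0 := Multiset.card_eq_zero.1 (h.card.trans (by simpa using h5))
    haveI : Subsingleton V := finrank_zero_iff.1 (by simpa using h5 : finrank F V = 0)
    haveI := (monic_one (R := F)).finite_adjoinRoot
    haveI : Subsingleton (AdjoinRoot (1 : F[X])) := finrank_zero_iff.1 ((finrank_adjoinRoot _).trans natDegree_one)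
    subst h6
    simpa [lt] using (sim_of_subsingleton (f := T) (g := cyc 1)).blocks (blocks_cyc (monic_one (R := F)))
  obtain ⟨ν, rfl⟩ := Multiset.exists_cons_of_mem hP
  rcases ν.empty_or_exists_mem with rfl | ⟨Q, hQ⟩
  · have : P = (lt s).prod := (eq_of_monic_of_dvd_of_natDegree_le (h1.monic P hP) (monic_lt_prod s) (h4 P hP)
      (by rw [natDegree_lt_prod, h.card, h5]; simp)).symm
    exact this ▸ h1
  obtain ⟨ν, rfl⟩ := Multiset.exists_cons_of_mem hQ
  have key : ∀ P Q : F[X], Blocks T (P ::ₘ Q ::ₘ ν) → 0 < P.natDegree → P ∣ Q → False := fun P Q a b d => by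
    have h6 : P.Splits := (Splits.multisetProd (fun R hR => by
      obtain ⟨c, -, rfl⟩ := Multiset.mem_map.1 hR
      exact Splits.X_sub_C c)).of_dvd (monic_lt_prod s).ne_zero (a.aeval_eq_zero_iff.1 h.ann P (by simp))
    obtain ⟨c, hc⟩ := h6.exists_eval_eq_zero (natDegree_pos_iff_degree_pos.1 b).ne'
    have h7 := h.e1.kd_le c
    rw [a.kd_eq, Multiset.map_cons, Multiset.map_cons, Multiset.sum_cons, Multiset.sum_cons,
      kd_cyc_of_dvd' (a.monic P (by simp)).ne_zero (dvd_iff_isRoot.2 hc),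
      kd_cyc_of_dvd' (a.monic Q (by simp)).ne_zero ((dvd_iff_isRoot.2 hc).trans d), natDegree_X_sub_C] at h7
    omega
  rcases le_total P.natDegree Q.natDegree with h6 | h6
  · exact (key P Q h1 (h2 P hP) (h3 P hP Q (by simp) h6)).elim
  · exact (key Q P (Multiset.cons_swap P Q ν ▸ h1) (h2 Q (by simp)) (h3 Q (by simp) P hP h6)).elim

theorem sim [Module.Finite F W] {T' : End F W} (h : CT T s) (h' : CT T' s) : Sim T T' :=
  h.blocks.sim h'.blocks

theorem det (h : CT T s) : LinearMap.det T = s.prod := by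
  rw [h.blocks.det_eq, ← h.card]
  simp only [Multiset.map_singleton, Multiset.prod_singleton, coeff_zero_eq_eval_zero, eval_multiset_prod, lt,
    Multiset.map_map, Function.comp_def, eval_sub, eval_X, eval_C, zero_sub]
  rw [Multiset.prod_map_neg, ← mul_assoc, ← mul_pow]
  simp

theorem exists_eigen (h : CT T s) {μ : F} (hμ : μ ∈ s) : ∃ u, u ≠ 0 ∧ T u = μ • u := by
  have h1 := h.blocks.kd_eq (X - C μ)
  rw [Multiset.map_singleton, Multiset.sum_singleton, kd_cyc_of_dvd' (monic_lt_prod s).ne_zero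
    (dvd_iff_isRoot.2 (eval_lt_prod_eq_zero.2 hμ)), natDegree_X_sub_C] at h1
  obtain ⟨⟨u, h2⟩, h3, -⟩ := finrank_eq_one_iff'.1 h1
  exact ⟨u, fun e => h3 (Subtype.ext e), sub_eq_zero.1 ((aeval_X_sub T μ u).symm.trans h2)⟩

theorem pow_mem {k : ℕ} {μ : F} (h : CT T (.replicate k μ + t)) (hμ : μ ∉ t) (c : Fˣ) : c ^ k ∈ detC T := by
  have h1 := h.blocks
  rw [lt_add, Multiset.prod_add, lt_replicate, Multiset.prod_replicate] at h1
  exact pow_mem_detC_of_X_sub_C (h1.split ((monic_X_sub_C μ).pow k) (monic_lt_prod t)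
    ((irreducible_X_sub_C μ).coprime_iff_not_dvd.2 fun e =>
      hμ (eval_lt_prod_eq_zero.1 (dvd_iff_isRoot.1 e))).pow_left) (Multiset.mem_cons_self _ _) c

theorem isUnit (h : CT T s) (h0 : (0 : F) ∉ s) : IsUnit T :=
  (isUnit_iff_isUnit_det T).2 (h.det ▸ (Multiset.prod_ne_zero h0).isUnit)

omit [Module.Finite F V]

theorem map (h : CT T s) {Y : End F V} (hY : E1 Y) (f : F → F) (hc : Commute Y T)
    (hf : ∀ μ ∈ s, ∃ u, aeval Y (X - C (f μ)) = u * aeval T (X - C μ)) : CT Y (s.map f) := by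
  refine ⟨by simpa using h.card, ?_, hY⟩
  suffices H : ∀ r ≤ s, ∃ u, aeval Y (lt (r.map f)).prod = u * aeval T (lt r).prod by
    obtain ⟨u, hu⟩ := H s le_rfl
    rw [hu, h.ann, mul_zero]
  intro r
  induction r using Multiset.induction_on with
  | empty => exact fun _ => ⟨1, by simp [lt]⟩
  | cons μ r ih =>
    intro hr
    obtain ⟨u, hu⟩ := ih ((Multiset.le_cons_self r μ).trans hr)
    obtain ⟨u', hu'⟩ := hf μ (Multiset.mem_of_le hr (Multiset.mem_cons_self _ _))
    refine ⟨u * u', ?_⟩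
    rw [Multiset.map_cons, lt_prod_cons, lt_prod_cons, mul_comm, map_mul, hu, mul_assoc,
      (commute_aeval (commute_aeval hc _).symm _).eq, hu', map_mul, mul_assoc, mul_assoc]

theorem smul (h : CT T s) {c : F} (hc : c ≠ 0) : CT (c • T) (s.map (c * ·)) :=
  h.map (fun μ u w hu h1 h2 => h.e1 (c⁻¹ * μ) u w hu (by rw [mul_smul, ← h1]; simp [hc])
    (by rw [mul_smul, ← h2]; simp [hc])) _ ((Commute.refl T).smul_left c) fun μ _ =>
    ⟨c • 1, by ext z; simp only [aeval_X_sub, End.mul_apply, LinearMap.smul_apply, End.one_apply]; module⟩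

theorem inv (h : CT T s) {Y : End F V} {c : F} (hc : c ≠ 0) (h1 : Y * T = c • 1) (h2 : T * Y = c • 1)
    (h0 : (0 : F) ∉ s) : CT Y (s.map (c / ·)) := by
  have h3 : ∀ z, T (Y z) = c • z := fun z => LinearMap.congr_fun h2 z
  have h4 : ∀ z, Y (T z) = c • z := fun z => LinearMap.congr_fun h1 z
  refine h.map (fun μ u w hu e1 e2 => ?_) _ (h1.trans h2.symm) fun μ hμ => ⟨(-μ⁻¹) • Y, ?_⟩
  · have h5 : μ ≠ 0 := fun e => hu (by simpa [e1, e, hc] using (h3 u).symm)
    refine h.e1 (μ⁻¹ * c) u w hu ?_ ?_ <;> rw [mul_smul, ← h3]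
    · simp [e1, h5]
    · simp [e2, h5]
  · have h5 : μ ≠ 0 := fun e => h0 (e ▸ hμ)
    ext z
    rw [End.mul_apply, aeval_X_sub, aeval_X_sub, LinearMap.smul_apply, map_sub, map_smul, h4]
    match_scalars <;> field_simp

end CT

theorem ct_point (c : F) : CT (c • 1 : End F F) {c} :=
  ⟨by simp, by ext; simp [lt, Algebra.algebraMap_eq_smul_one], fun _ u w hu _ _ => ⟨w / u, by simp [hu]⟩⟩

/-- Block triangular maps. -/
def tri (a : End F U) (n : W →ₗ[F] U) (b : End F W) : End F (U × W) := (a.coprod n).prod (b ∘ₗ snd F U W)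

variable {a a' : End F U} {n n' : W →ₗ[F] U} {b b' : End F W}

@[simp] theorem tri_apply (x : U × W) : tri a n b x = (a x.1 + n x.2, b x.2) := rfl

theorem tri_mul : tri a n b * tri a' n' b' = tri (a * a') (a ∘ₗ n' + n ∘ₗ b') (b * b') :=
  LinearMap.ext fun x => by simp [add_assoc]

theorem tri_zero : tri a 0 b = a.prodMap b := LinearMap.ext fun x => by simp [Prod.ext_iff]

theorem det_tri [Module.Finite F U] [Module.Finite F W] :
    LinearMap.det (tri a n b) = LinearMap.det a * LinearMap.det b :=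
  det_eq_of_exact (ι := inl F U W) (π := snd F U W) inl_injective Prod.snd_surjective (range_inl F U W)
    (fun u => by simp) fun v => rfl

theorem CT.tri [Module.Finite F U] [Module.Finite F W] (ha : CT a s) (hb : CT b t)
    (h : ∀ (μ : F) u w u', u ≠ 0 → a u = μ • u → w ≠ 0 → b w = μ • w → a u' + n w ≠ μ • u') :
    CT (tri a n b) (s + t) := by
  refine ⟨by simp [ha.card, hb.card], LinearMap.ext fun x => ?_, fun μ x y hx h1 h2 => ?_⟩
  · have h1 := aeval_intertwine (a := b) (b := Lev.tri a n b) (ι := snd F U W) (fun _ => rfl) (lt t).prod x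
    have h2 := aeval_intertwine (a := Lev.tri a n b) (b := a) (ι := inl F U W) (fun _ => by simp) (lt s).prod
      (aeval (Lev.tri a n b) (lt t).prod x).1
    rw [hb.ann] at h1
    rw [ha.ann, inl_apply, show (0 : W) = (aeval (Lev.tri a n b) (lt t).prod x).2 from h1] at h2
    rw [lt_add, Multiset.prod_add, map_mul, End.mul_apply, h2]
    simp
  · obtain ⟨u, w⟩ := x
    obtain ⟨u', w'⟩ := y
    simp only [tri_apply, Prod.smul_mk, Prod.mk.injEq] at h1 h2 ⊢
    by_cases hw : w = 0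
    · have hu : u ≠ 0 := fun e => hx (by simp [e, hw])
      have h3 : a u = μ • u := by simpa [hw] using h1.1
      have h4 : w' = 0 := by_contra fun e => h μ u w' u' hu h3 e h2.2 h2.1
      obtain ⟨c, hc⟩ := ha.e1 μ u u' hu h3 (by simpa [h4] using h2.1)
      exact ⟨c, hc, by simp [hw, h4]⟩
    · obtain ⟨c, rfl⟩ := hb.e1 μ w w' hw h1.2 h2.2
      refine ⟨c, by_contra (fun e => h μ (u' - c • u) w u (sub_ne_zero.2 e) ?_ hw h1.2 h1.1), rfl⟩
      rw [map_smul] at h2
      rw [map_sub, map_smul]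
      linear_combination (norm := module) h2.1 - c • h1.1

theorem sim_tri {U' W' : Type*} [AddCommGroup U'] [Module F U'] [AddCommGroup W'] [Module F W']
    {c : End F U'} {d : End F W'} (h1 : Sim a c) (h2 : Sim b d) (n : W →ₗ[F] U) :
    ∃ m, Sim (tri a n b) (tri c m d) := by
  obtain ⟨e, he⟩ := h1
  obtain ⟨f, hf⟩ := h2
  exact ⟨e.toLinearMap ∘ₗ n ∘ₗ f.symm.toLinearMap, e.prodCongr f, fun x => by simp [he, hf]⟩

theorem sim_tri_of_exact {ι : U →ₗ[F] V} {π : V →ₗ[F] W} (hι : Function.Injective ι)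
    (hπ : Function.Surjective π) (h : range ι = ker π) (h1 : ∀ u, ι (a u) = T (ι u))
    (h2 : ∀ v, π (T v) = b (π v)) : ∃ n, Sim (tri a n b) T := by
  obtain ⟨σ, hσ⟩ := π.exists_rightInverse_of_surjective (range_eq_top.2 hπ)
  obtain ⟨ρ, hρ⟩ := ι.exists_leftInverse_of_injective (ker_eq_bot.2 hι)
  have h3 : ∀ w, π (σ w) = w := LinearMap.congr_fun hσ
  have h4 : ∀ z, π z = 0 → ι (ρ z) = z := fun z hz => by
    obtain ⟨u, rfl⟩ := h.ge hz
    exact congrArg ι (LinearMap.congr_fun hρ u)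
  have h5 : ∀ u, π (ι u) = 0 := fun u => h.le ⟨u, rfl⟩
  refine ⟨ρ ∘ₗ (T ∘ₗ σ - σ ∘ₗ b), .ofBijective (ι.coprod σ) ⟨ker_eq_bot.1 (ker_eq_bot'.2 fun x hx => ?_),
    fun z => ⟨(ρ (z - σ (π z)), π z), ?_⟩⟩, fun x => ?_⟩
  · have h6 : x.2 = 0 := by simpa [h3, h5] using congrArg π hx
    exact Prod.ext (hι (by simpa [h6] using hx)) h6
  · simp [-map_sub, h4 (z - σ (π z)) (by simp [h3])]
  · change (ι.coprod σ) _ = T ((ι.coprod σ) x)
    simp [-map_sub, h4 (T (σ x.2) - σ (b x.2)) (by simp [h2, h3]), h1]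
    abel

theorem exists_tri_cyc {P Q : F[X]} (hP : P.Monic) (hQ : Q.Monic) :
    ∃ n, Blocks (tri (cyc P) n (cyc Q)) {P * Q} := by
  let ι : AdjoinRoot P →ₗ[F] AdjoinRoot (P * Q) := ((Ideal.span {P}).liftQ
    ((Ideal.Quotient.mkₐ F[X] (Ideal.span {P * Q})).toLinearMap ∘ₗ mulLeft F[X] Q) fun S hS => by
      obtain ⟨T, rfl⟩ := Ideal.mem_span_singleton.1 hS
      exact AdjoinRoot.mk_eq_zero.2 ⟨T, by simp only [mulLeft_apply]; ring⟩).restrictScalars F
  have hι : ∀ S, ι (AdjoinRoot.mk P S) = AdjoinRoot.mk _ (Q * S) := fun _ => rfl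
  set π := (AdjoinRoot.algHomOfDvd F (P * Q) Q (dvd_mul_left Q P)).toLinearMap
  have hπ : ∀ R, π (AdjoinRoot.mk _ R) = AdjoinRoot.mk Q R := fun R => by
    rw [← AdjoinRoot.aeval_eq, ← AdjoinRoot.aeval_eq, AlgHom.toLinearMap_apply, ← aeval_algHom_apply,
      AdjoinRoot.algHomOfDvd_root]
  suffices H : ∃ n, Sim (tri (cyc P) n (cyc Q)) (cyc (P * Q)) from
    H.imp fun n hn => hn.blocks (blocks_cyc (hP.mul hQ))
  refine sim_tri_of_exact (ι := ι) (π := π) (ker_eq_bot.1 (ker_eq_bot'.2 fun x hx => ?_))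
    (fun x => let ⟨R, hR⟩ := AdjoinRoot.mk_surjective x; ⟨_, (hπ R).trans hR⟩) (Submodule.ext fun x => ?_)
    (fun x => ?_) fun x => ?_ <;> obtain ⟨S, rfl⟩ := AdjoinRoot.mk_surjective x
  · rw [hι, AdjoinRoot.mk_eq_zero, mul_comm P, mul_dvd_mul_iff_left hQ.ne_zero] at hx
    exact AdjoinRoot.mk_eq_zero.2 hx
  · rw [mem_ker, hπ, AdjoinRoot.mk_eq_zero]
    refine ⟨fun ⟨y, hy⟩ => ?_, fun ⟨T, hT⟩ => ⟨AdjoinRoot.mk P T, hT ▸ hι T⟩⟩
    obtain ⟨T, rfl⟩ := AdjoinRoot.mk_surjective y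
    exact (dvd_sub_right (dvd_mul_right Q T)).1 ((dvd_mul_left Q P).trans (AdjoinRoot.mk_eq_mk.1 ((hι T).symm.trans hy)))
  · simp only [cyc, Algebra.coe_lmul_eq_mul, mul_apply', ← AdjoinRoot.mk_X, ← map_mul, hι, mul_left_comm]
  · simp only [cyc, Algebra.coe_lmul_eq_mul, mul_apply', ← AdjoinRoot.mk_X, ← map_mul, hπ]

/-- Splitting off a factor of one block as a quotient. -/
theorem exists_tri_blocks {P Q : F[X]} {ν : Multiset F[X]} (ha : Blocks a (P ::ₘ ν)) (hb : Blocks b {Q}) :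
    ∃ n, Blocks (tri a n b) ((P * Q) ::ₘ ν) := by
  obtain ⟨A, B, hA, hB, h1, h2, h3⟩ := Blocks.exists_isCompl (μ := {P}) (ν := ν) ha
  have hP := ha.monic P (by simp)
  have hQ := hb.monic Q (by simp)
  obtain ⟨n, hn⟩ := exists_tri_cyc hP hQ
  have h4 : Sim (tri ((cyc P).prodMap (a.restrict hB)) (inl F _ _ ∘ₗ n) (cyc Q))
      ((tri (cyc P) n (cyc Q)).prodMap (a.restrict hB)) :=
    ⟨(LinearEquiv.prodAssoc F _ _ _).trans (((LinearEquiv.refl F _).prodCongr (.prodComm F _ _)).trans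
      (LinearEquiv.prodAssoc F _ _ _).symm), fun x => by simp [LinearEquiv.prodAssoc, Equiv.prodAssoc]⟩
  obtain ⟨m, hm⟩ := sim_tri (((blocks_cyc hP).prodMap h3).sim ha) ((blocks_cyc hQ).sim hb) (inl F _ _ ∘ₗ n)
  exact ⟨m, (hm.symm.trans h4).blocks (hn.prodMap h3)⟩

/-- Avoiding fewer than `q` affine hyperplanes. -/
theorem exists_avoid [Finite F] (l : List ((V →ₗ[F] F) × F)) (hl : l.length < Nat.card F)
    (h : ∀ p ∈ l, p.1 ≠ 0) : ∃ z, ∀ p ∈ l, p.1 z ≠ p.2 := by
  induction l with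
  | nil => exact ⟨0, by simp⟩
  | cons p l ih =>
    obtain ⟨z, hz⟩ := ih (by simp at hl; omega) fun p hp => h p (by simp [hp])
    obtain ⟨d, hd⟩ := exists_eq_one (h p (by simp))
    obtain ⟨x, hx⟩ := ex_notMem hl ((p :: l).map fun p => (p.2 - p.1 z) / p.1 d) (by simp)
    refine ⟨z + x • d, fun r hr e => ?_⟩
    by_cases h0 : r.1 d = 0
    · rcases List.mem_cons.1 hr with rfl | hr
      · simp [hd] at h0
      · exact hz r hr (by simpa [h0] using e)
    · exact hx (List.mem_map.2 ⟨r, hr, by rw [← e]; simp [h0]⟩)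

end Cfsg.Lib.Lev
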