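import Cfsg.Agent.Lib.Lev.Pc

/-!
# Products of classes in `GL_n`, IV: powers of an `SL`-class; gluing
-/

set_option autoImplicit false

namespace Cfsg.Lib.Lev

open Module Polynomial LinearMap Cfsg.Lib.GLC Cfsg.Lib.Ore Submodule

variable {F V W U : Type*} [Field F] [AddCommGroup V] [Module F V] [AddCommGroup W] [Module F W]
  [AddCommGroup U] [Module F U]

/-- Conjugate under the special linear group. -/
def Cj (A B : End F V) : Prop := ∃ g : (End F V)ˣ, LinearMap.det g.1 = 1 ∧ g * A * g⁻¹ = B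

/-- A product of `k` conjugates. -/
def Pw (k : ℕ) (A G : End F V) : Prop := ∃ l : List (End F V), l.length = k ∧ (∀ B ∈ l, Cj A B) ∧ l.prod = G

variable {A B D G H : End F V} {k j : ℕ} {s t : Multiset F}

theorem det_inv_eq_one {g : (End F V)ˣ} (h : LinearMap.det g.1 = 1) : LinearMap.det (g⁻¹).1 = 1 := by
  have := congrArg LinearMap.det g.mul_inv
  rwa [map_mul, h, one_mul, map_one] at this

theorem det_conj_unit (g : (End F V)ˣ) (A : End F V) : LinearMap.det (g * A * g⁻¹ : End F V) = LinearMap.det A := by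
  rw [map_mul, map_mul, mul_right_comm, ← map_mul, g.mul_inv, map_one, one_mul]

theorem sim_unit (g : (End F V)ˣ) (A : End F V) : Sim A (g * A * g⁻¹ : End F V) :=
  sim_iff_isConj.2 ⟨g, by simp [SemiconjBy]⟩

theorem exists_unit (h : Sim A B) : ∃ g : (End F V)ˣ, g * A * g⁻¹ = B :=
  let ⟨g, hg⟩ := sim_iff_isConj.1 h; ⟨g, by rw [hg.eq]; simp⟩

namespace Cj

theorem refl (A : End F V) : Cj A A := ⟨1, by simp, by simp⟩

theorem symm (h : Cj A B) : Cj B A :=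
  let ⟨g, h1, h2⟩ := h; ⟨g⁻¹, det_inv_eq_one h1, by simp [← h2, mul_assoc]⟩

theorem trans (h : Cj A B) (h' : Cj B D) : Cj A D :=
  let ⟨g, h1, h2⟩ := h; let ⟨g', h3, h4⟩ := h'
  ⟨g' * g, by simp [h1, h3], by simp [← h2, ← h4, mul_assoc]⟩

theorem sim (h : Cj A B) : Sim A B := let ⟨g, _, h2⟩ := h; h2 ▸ sim_unit g A

theorem map (h : Cj A B) (Φ : End F V →* End F W) (hΦ : ∀ f, LinearMap.det (Φ f) = LinearMap.det f) :
    Cj (Φ A) (Φ B) :=
  let ⟨g, h1, h2⟩ := h; ⟨Units.map Φ g, by simp [hΦ, h1], by simp [← h2]⟩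

theorem smul (h : Cj A B) (c : F) : Cj (c • A) (c • B) :=
  let ⟨g, h1, h2⟩ := h; ⟨g, h1, by simp [← h2]⟩

variable [Module.Finite F V]

theorem of_semi {g : End F V} (h1 : LinearMap.det g = 1) (h2 : g * A = B * g) : Cj A B := by
  obtain ⟨u, rfl⟩ := (isUnit_iff_isUnit_det g).2 (h1 ▸ isUnit_one)
  exact ⟨u, h1, by simp [h2]⟩

theorem of_det {g : (End F V)ˣ} (h : Units.map (LinearMap.det : End F V →* F) g ∈ detC A) :
    Cj A (g * A * g⁻¹) := by
  obtain ⟨a, h1, h2⟩ := inv_mem h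
  refine of_semi (g := g * a) ?_ (by simp [mul_assoc, h1.eq])
  rw [map_mul, h2]
  exact (Units.map (LinearMap.det : End F V →* F) g).mul_inv

theorem of_sim (h : Sim A B) (hA : detC A = ⊤) : Cj A B :=
  let ⟨_, hg⟩ := exists_unit h; hg ▸ of_det (hA ▸ Subgroup.mem_top _)

end Cj

/-- Conjugation by a unit. -/
def cjHom (g : (End F V)ˣ) : End F V →* End F V where
  toFun f := g * f * g⁻¹
  map_one' := by simp
  map_mul' _ _ := by simp [mul_assoc]

namespace Pw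

theorem one (h : Cj A B) : Pw 1 A B := ⟨[B], rfl, by simpa, by simp⟩

theorem zero (A : End F V) : Pw 0 A 1 := ⟨[], rfl, by simp, rfl⟩

theorem mul (h : Pw k A G) (h' : Pw j A H) : Pw (k + j) A (G * H) :=
  let ⟨l, h1, h2, h3⟩ := h; let ⟨l', h4, h5, h6⟩ := h'
  ⟨l ++ l', by simp [h1, h4], fun B hB => (List.mem_append.1 hB).elim (h2 B) (h5 B), by simp [h3, h6]⟩

theorem cons (h : Cj A B) (h' : Pw k A G) : Pw (k + 1) A (B * G) := add_comm k 1 ▸ (one h).mul h'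

theorem of_cj (h : Pw k A G) (h' : Cj B A) : Pw k B G :=
  let ⟨l, h1, h2, h3⟩ := h; ⟨l, h1, fun D hD => h'.trans (h2 D hD), h3⟩

theorem map (h : Pw k A G) (Φ : End F V →* End F W) (hΦ : ∀ f, LinearMap.det (Φ f) = LinearMap.det f) :
    Pw k (Φ A) (Φ G) :=
  let ⟨l, h1, h2, h3⟩ := h
  ⟨l.map Φ, by simp [h1], List.forall_mem_map.2 fun B hB => (h2 B hB).map Φ hΦ, by rw [← h3, map_list_prod]⟩

theorem conj (h : Pw k A G) (g : (End F V)ˣ) : Pw k (g * A * g⁻¹ : End F V) (g * G * g⁻¹) :=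
  h.map (cjHom g) (det_conj_unit g)

theorem cj (h : Pw k A G) (h' : Cj G H) : Pw k A H :=
  let ⟨g, h1, h2⟩ := h'; h2 ▸ (h.conj g).of_cj ⟨g, h1, rfl⟩

theorem induction {p : ℕ → End F V → Prop} (h : Pw k A G) (h0 : p 0 1)
    (h1 : ∀ k B G, Cj A B → p k G → p (k + 1) (B * G)) : p k G := by
  obtain ⟨l, rfl, h2, rfl⟩ := h
  induction l with
  | nil => exact h0
  | cons B l ih => rw [List.prod_cons]; exact h1 _ _ _ (h2 B (by simp)) (ih fun D hD => h2 D (by simp [hD]))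

theorem bind (h : Pw k D G) (h' : Pw j A D) : Pw (k * j) A G :=
  h.induction (p := fun k G => Pw (k * j) A G) (by simpa using zero A) fun k B G h1 h2 => by
    simpa [add_mul, add_comm] using (h'.cj h1).mul h2

theorem smul (h : Pw k A G) (c : F) : Pw k (c • A) (c ^ k • G) :=
  h.induction (p := fun k G => Pw k (c • A) (c ^ k • G)) (by simpa using zero _) fun k B G h1 h2 => by
    simpa [smul_smul, pow_succ] using cons (h1.smul c) h2

theorem det (h : Pw k A G) : LinearMap.det G = LinearMap.det A ^ k :=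
  h.induction (p := fun k G => LinearMap.det G = LinearMap.det A ^ k) (by simp) fun k B G h1 h2 => by
    rw [map_mul, h2, ← h1.sim.det_eq, pow_succ']

end Pw

/-- Not a scalar. -/
def NS (A : End F V) : Prop := ∀ c : F, A ≠ c • 1

/-- The `k`-th power of the class covers the nonscalar maps. -/
def Cov (k : ℕ) (A : End F V) : Prop := ∀ G, NS G → LinearMap.det G = LinearMap.det A ^ k → Pw k A G

/-- The `k`-th power of the class covers everything, up to scalars. -/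
def Fn (k : ℕ) (A : End F V) : Prop := ∀ G, LinearMap.det G = LinearMap.det A ^ k → ∃ z : F, Pw k A (z • G)

theorem NS.of_sim {B : End F W} (h : NS A) (e : Sim A B) : NS B := fun c hc => h c ((e.eq_smul_one_iff c).2 hc)

theorem NS.smul (h : NS A) {c : F} (hc : c ≠ 0) : NS (c • A) := fun d hd =>
  h (c⁻¹ * d) (by rw [mul_smul, ← hd, inv_smul_smul₀ hc])

theorem exists_ann [Module.Finite F V] (h3 : 3 ≤ finrank F V) (u v : V) :
    ∃ f : V →ₗ[F] F, f ≠ 0 ∧ f u = 0 ∧ f v = 0 := by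
  obtain ⟨f, h1, h2⟩ := (span F (Set.range ![u, v])).exists_le_ker_of_lt_top (lt_top_iff_ne_top.2 fun e => by
    have h4 := finrank_range_le_card (R := F) ![u, v]
    rw [Set.finrank, e, finrank_top, Fintype.card_fin] at h4
    omega)
  exact ⟨f, h1, h2 (subset_span ⟨0, rfl⟩), h2 (subset_span ⟨1, rfl⟩)⟩

variable [Module.Finite F V]

/-- The conjugate of `A` by the transvection with centre `v`. -/
theorem exists_cj_tv {v : V} {f : V →ₗ[F] F} (h1 : f v = 0) (h2 : f (A v) = 0) :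
    ∃ B, Cj A B ∧ ∀ z, B z = A z - f z • A v + f (A z) • v :=
  ⟨transvection f v * A * transvection (-f) v, .of_semi (g := transvection f v) (by simp [h1])
    (LinearMap.ext fun z => by simp [transvection.apply, h1]), fun z => by
    simp [transvection.apply, h2, sub_eq_add_neg]⟩

theorem det_of_mul {A' : (End F V)ˣ} (hB : LinearMap.det A'.1 = LinearMap.det A)
    (h : LinearMap.det G = LinearMap.det A ^ (k + 1)) : LinearMap.det ((A'⁻¹).1 * G) = LinearMap.det A ^ k := by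
  refine mul_left_cancel₀ ((isUnit_iff_isUnit_det _).1 A'.isUnit).ne_zero ?_
  rw [← map_mul, A'.mul_inv_cancel_left, h, hB, pow_succ']

theorem Cov.pw (h : Cov k A) (h3 : 3 ≤ finrank F V) (hA : IsUnit A) (hn : NS A)
    (hG : LinearMap.det G = LinearMap.det A ^ (k + 1)) : Pw (k + 1) A G := by
  have key : ∀ B, Cj A B → (∀ c : F, G ≠ c • B) → Pw (k + 1) A G := fun B h1 h2 => by
    obtain ⟨B', rfl⟩ := h1.sim.isUnit_iff.1 hA
    simpa using Pw.cons h1 (h ((B'⁻¹).1 * G) (fun c hc => h2 c (by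
      rw [← B'.mul_inv_cancel_left G, hc]; simp)) (det_of_mul h1.sim.det_eq.symm hG))
  by_contra hc
  obtain ⟨v, hv⟩ := exists_not_eigen hn
  obtain ⟨f, f0, f1, f2⟩ := exists_ann h3 v (A v)
  obtain ⟨B, h1, h2⟩ := exists_cj_tv f1 f2
  obtain ⟨c, h4⟩ : ∃ c : F, G = c • A := by simpa using mt (key A (.refl A)) hc
  obtain ⟨d, h5⟩ : ∃ c : F, G = c • B := by simpa using mt (key B h1) hc
  have h6 : c ≠ 0 := fun e => by
    haveI : Nontrivial V := nontrivial_of_finrank_pos (R := F) (by omega)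
    have := (isUnit_iff_isUnit_det G).2 (hG ▸ ((isUnit_iff_isUnit_det A).1 hA).pow _)
    simp [h4, e] at this
  have h7 : ∀ z, c • A z = d • (A z - f z • A v + f (A z) • v) := fun z =>
    h2 z ▸ LinearMap.congr_fun (h4.symm.trans h5) z
  obtain ⟨u, hu⟩ := exists_eq_one f0
  obtain ⟨z, rfl⟩ := ((End.isUnit_iff _).1 hA).2 u
  have h8 : c = d := by simpa [hu, f1, f2] using congrArg f (h7 z)
  exact h6 ((i2_of_ne hv) c (-c * f z) (by
    have := h7 z
    rw [hu, ← h8] at this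
    linear_combination (norm := module) -this)).1

theorem Cov.fn (h : Cov k A) (h3 : 3 ≤ finrank F V) (hA : IsUnit A) (hn : NS A) : Fn (k + 1) A :=
  fun _ hG => ⟨1, by simpa using h.pw h3 hA hn hG⟩

theorem Cov.fn' (h : Cov k A) (hA : IsUnit A) {z : F} (hz : Pw k A (z • 1)) : Fn k A := fun G hG => by
  by_cases h1 : NS G
  · exact ⟨1, by simpa using h G h1 hG⟩
  · obtain ⟨c, rfl⟩ : ∃ c : F, G = c • 1 := by simpa [NS] using h1
    by_cases hc : c = 0
    · haveI : Subsingleton V := not_nontrivial_iff_subsingleton.1 fun _ => by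
        have := (isUnit_iff_isUnit_det _).2 (hG ▸ ((isUnit_iff_isUnit_det A).1 hA).pow _)
        simp [hc] at this
      exact ⟨1, by convert hz using 1; exact Subsingleton.elim _ _⟩
    · exact ⟨z * c⁻¹, by simpa [smul_smul, hc] using hz⟩

theorem Fn.mono (h : Fn k A) (hA : IsUnit A) (hk : k ≤ j) : Fn j A := by
  induction hk with
  | refl => exact h
  | step _ ih =>
    intro G hG
    obtain ⟨A', rfl⟩ := hA
    obtain ⟨z, hz⟩ := ih _ (det_of_mul rfl hG)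
    exact ⟨z, by simpa using Pw.cons (.refl _) hz⟩

theorem Fn.smul (h : Fn k A) {c : F} (hc : c ≠ 0) : Fn k (c • A) := fun G hG => by
  obtain ⟨z, hz⟩ := h ((c ^ k)⁻¹ • G) (by
    rw [det_smul, hG, det_smul, mul_pow, ← pow_mul, mul_comm _ k, pow_mul, inv_pow,
      inv_mul_cancel_left₀ (pow_ne_zero _ (pow_ne_zero _ hc))])
  exact ⟨z, by simpa [smul_comm (c ^ k) z, hc] using hz.smul c⟩

omit [Module.Finite F V] in
theorem Fn.of_sim {B : End F W} (h : Fn k A) (he : Sim A B) : Fn k B := fun G hG => by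
  obtain ⟨e, rfl⟩ := sim_iff.1 he
  obtain ⟨G, rfl⟩ := (e.conjAlgEquiv F).surjective G
  obtain ⟨z, hz⟩ := h G (by rw [(sim_conj e G).det_eq, hG, (sim_conj e A).det_eq])
  exact ⟨z, by simpa using hz.map (e.conjAlgEquiv F : End F V →* End F W) fun f => (sim_conj e f).det_eq.symm⟩

omit [Module.Finite F V] in
theorem Fn.bind (h : Fn k D) (h' : Pw j A D) : Fn (k * j) A := fun G hG =>
  let ⟨z, hz⟩ := h G (by rw [hG, h'.det, ← pow_mul, mul_comm]); ⟨z, hz.bind h'⟩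

/-- The square of the class contains a cyclic map with eigenvalues `s`. -/
def Two (A : End F V) (s : Multiset F) : Prop := ∃ B, Cj A B ∧ CT (A * B) s

/-- The square of the class contains all cyclic maps with eigenvalues `s`. -/
def Full (A : End F V) (s : Multiset F) : Prop := (∃ X : End F V, CT X s) ∧ ∀ X, CT X s → Pw 2 A X

omit [Module.Finite F V] in
theorem Two.pw (h : Two A s) : ∃ X, Pw 2 A X ∧ CT X s :=
  let ⟨_, h1, h2⟩ := h; ⟨_, (Pw.one (.refl A)).mul (.one h1), h2⟩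

theorem Two.full {i : ℕ} {μ : F} (h : Two A (.replicate i μ + t)) (hμ : μ ∉ t) (hj : ∀ c : Fˣ, c ^ j ∈ detC A)
    (hij : i.Coprime j) : Full A (.replicate i μ + t) := by
  obtain ⟨Y, h1, h2⟩ := h.pw
  refine ⟨⟨Y, h2⟩, fun Z hZ => ?_⟩
  obtain ⟨g, rfl⟩ := exists_unit (h2.sim hZ)
  obtain ⟨x, y, hxy⟩ := Nat.isCoprime_iff_coprime.2 hij
  set d := Units.map (LinearMap.det : End F V →* F) g
  obtain ⟨a, h3, h4⟩ := h2.pow_mem hμ (d ^ x)
  obtain ⟨a, rfl⟩ := (isUnit_iff_isUnit_det a).2 (h4 ▸ Units.isUnit _)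
  have h5 : (g * a⁻¹ : (End F V)ˣ) * Y * (g * a⁻¹)⁻¹ = g * Y * g⁻¹ := by
    simp [mul_assoc, ← mul_assoc Y, ← h3.eq]
  rw [← h5]
  refine (h1.conj _).of_cj (.of_det ?_)
  have h6 : Units.map (LinearMap.det : End F V →* F) a = (d ^ x) ^ i := Units.ext h4
  have h7 : d = (d ^ x) ^ i * (d ^ y) ^ j := by
    rw [← zpow_natCast, ← zpow_natCast, ← zpow_mul, ← zpow_mul, ← zpow_add, hxy, zpow_one]
  rw [map_mul, map_inv, h6, mul_inv_eq_of_eq_mul (h7.trans (mul_comm _ _))]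
  exact hj _

theorem Two.full_one {μ : F} (h : Two A (μ ::ₘ t)) (hμ : μ ∉ t) : Full A (μ ::ₘ t) :=
  Two.full (i := 1) (j := 0) h hμ (by simp) (by simp)

theorem Two.full_good (h : Two A s) (h0 : (0 : F) ∉ s) (hA : detC A = ⊤) : Full A s := by
  simpa using Two.full (i := 0) (j := 1) (μ := 0) (by simpa using h) h0 (by simp [hA]) (by simp)

theorem Full.scalar (h : Full A s) (h0 : (0 : F) ∉ s) {c : F} (hc : c ≠ 0) (hs : s.map (c / ·) = s) :
    Pw 4 A (c • 1) := by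
  obtain ⟨⟨Y, hY⟩, h⟩ := h
  obtain ⟨Y, rfl⟩ := hY.isUnit h0
  have := hY.inv (Y := c • (Y⁻¹).1) hc (by simp) (by simp) h0
  rw [hs] at this
  have h1 := (h _ hY).mul (h _ this)
  rwa [mul_smul_comm, Y.mul_inv] at h1

variable [Module.Finite F U] [Module.Finite F W] {a₁ a₂ : End F U} {b₁ b₂ : End F W}

theorem cj_tri (a : End F U) (n Z : W →ₗ[F] U) (b : End F W) : Cj (tri a n b) (tri a (n + Z ∘ₗ b - a ∘ₗ Z) b) :=
  .of_semi (g := tri 1 Z 1) (by simp [det_tri]) (LinearMap.ext fun x => by simp; abel)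

/-- Gluing two pairs. -/
theorem glue [Finite F] (hU : CT (a₁ * a₂) s) (hW : CT (b₁ * b₂) t) (h0 : (0 : F) ∉ s)
    (h : ∀ μ, CF a₁ a₂ μ → ¬ CE b₁ b₂ μ) (n₁ n₂ : W →ₗ[F] U) :
    ∃ n, Cj (tri a₂ n₂ b₂) (tri a₂ n b₂) ∧ CT (tri a₁ n₁ b₁ * tri a₂ n b₂) (s + t) ∧
      ∀ μ, CF (tri a₁ n₁ b₁) (tri a₂ n b₂) μ → CF b₁ b₂ μ ∨ CF a₁ a₂ μ ∧ μ ∉ t := by
  classical
  let N := fun Z : W →ₗ[F] U => a₁ ∘ₗ (n₂ + Z ∘ₗ b₂ - a₂ ∘ₗ Z) + n₁ ∘ₗ b₂
  have h1 : ∀ μ : F, ∃ p : ((W →ₗ[F] U) →ₗ[F] F) × F, μ ∈ s → μ ∈ t → p.1 ≠ 0 ∧ ∀ Z, p.1 Z ≠ p.2 →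
      ∀ w u, w ≠ 0 → (b₁ * b₂) w = μ • w → (a₁ * a₂) u + N Z w ≠ μ • u := fun μ => by
    by_cases hμ : μ ∈ s ∧ μ ∈ t
    swap
    · exact ⟨0, fun a b => (hμ ⟨a, b⟩).elim⟩
    have m0 : μ ≠ 0 := fun e => h0 (e ▸ hμ.1)
    obtain ⟨u₀, u1, u2⟩ := hU.exists_eigen hμ.1
    obtain ⟨w₀, w1, w2⟩ := hW.exists_eigen hμ.2
    obtain ⟨ψ, p1, p2⟩ := (range (a₁ * a₂ - μ • 1 : End F U)).exists_le_ker_of_lt_top (lt_top_iff_ne_top.2 fun e =>
      u1 (injective_iff_surjective.2 (range_eq_top.1 e) (by simp [-End.mul_apply, u2])))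
    have p3 : ∀ u, ψ (a₁ (a₂ u)) = μ * ψ u := fun u => by simpa [sub_eq_zero] using p2 ⟨u, rfl⟩
    refine ⟨(ψ ∘ₗ a₁ ∘ₗ applyₗ (b₂ w₀) - μ • ψ ∘ₗ applyₗ w₀, -ψ (a₁ (n₂ w₀) + n₁ (b₂ w₀))),
      fun _ _ => ⟨fun e => ?_, fun Z hZ w u hw e1 e2 => hZ ?_⟩⟩
    · have p4 : ∀ (f : W →ₗ[F] F) (u : U), f (b₂ w₀) * ψ (a₁ u) = μ * (f w₀ * ψ u) := fun f u => by
        simpa [sub_eq_zero] using LinearMap.congr_fun e (f.smulRight u)
      obtain ⟨u, hu⟩ := exists_eq_one p1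
      have p5 : ψ (a₁ u) • b₂ w₀ = μ • w₀ := sub_eq_zero.1 ((forall_dual_apply_eq_zero_iff F _).1 fun f => by
        simpa [hu, sub_eq_zero, mul_comm] using p4 f u)
      have p6 : ψ (a₁ u) ≠ 0 := fun e => smul_ne_zero m0 w1 (by rw [← p5, e, zero_smul])
      obtain ⟨f, hf⟩ := exists_map_one (F := F) w1 (1 : F)
      have p7 : b₂ w₀ = ((ψ (a₁ u))⁻¹ * μ) • w₀ := by rw [mul_smul, ← p5, inv_smul_smul₀ p6]
      refine h μ ⟨ψ, ψ (a₁ u), p1, fun z => ?_, p3⟩ ⟨w₀, _, w1, p7, w2⟩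
      have := p4 f z
      rw [p7, map_smul, hf] at this
      simp only [smul_eq_mul] at this
      field_simp at this
      linear_combination this
    · obtain ⟨c, rfl⟩ := hW.e1 μ w₀ w w1 w2 e1
      have p4 := congrArg ψ e2
      simp only [N, End.mul_apply, map_add, map_smul, p3, LinearMap.add_apply, comp_apply, LinearMap.sub_apply,
        map_sub, smul_eq_mul, add_eq_left, mul_eq_zero, or_iff_right (left_ne_zero_of_smul hw)] at p4
      simp only [LinearMap.sub_apply, comp_apply, applyₗ_apply_apply, LinearMap.smul_apply, smul_eq_mul, map_add]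
      linear_combination p4
  choose p hp using h1
  have := Fintype.ofFinite F
  obtain ⟨Z, hZ⟩ := exists_avoid ((Finset.univ.filter fun μ => μ ∈ s ∧ μ ∈ t).toList.map p) (by
    rw [List.length_map, Finset.length_toList, Nat.card_eq_fintype_card]
    exact Finset.card_lt_univ_of_notMem (x := 0) (by simp [h0]))
    (List.forall_mem_map.2 fun μ hμ => (hp μ (by simp_all) (by simp_all)).1)
  have h2 : ∀ μ ∈ s, μ ∈ t → ∀ w u, w ≠ 0 → (b₁ * b₂) w = μ • w → (a₁ * a₂) u + N Z w ≠ μ • u := fun μ a b =>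
    (hp μ a b).2 Z (hZ _ (List.mem_map_of_mem (by simp [a, b])))
  refine ⟨_, cj_tri a₂ n₂ Z b₂, ?_, ?_⟩
  · rw [tri_mul]
    exact hU.tri hW fun μ u w u' a b c d => h2 μ (hU.mem a b) (hW.mem c d) w u' c d
  rintro μ ⟨Ψ, x, q1, q2, q3⟩
  have q4 : ∀ u w, Ψ (u, w) = Ψ (u, 0) + Ψ (0, w) := fun u w => by rw [← map_add]; simp
  by_cases q5 : Ψ ∘ₗ inl F U W = 0
  · have q6 : ∀ u w, Ψ (u, w) = Ψ (0, w) := fun u w => by
      rw [q4, show Ψ (u, 0) = 0 from LinearMap.congr_fun q5 u, zero_add]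
    refine .inl ⟨Ψ ∘ₗ inr F U W, x, fun e => q1 (LinearMap.ext fun z => ?_), fun w => ?_, fun w => ?_⟩
    · exact (q6 z.1 z.2).trans (LinearMap.congr_fun e z.2)
    · exact (q6 _ _).symm.trans (q2 (0, w))
    · exact (q6 _ _).symm.trans (q3 (0, w))
  · have q6 : CF a₁ a₂ μ := ⟨_, x, q5, fun u => by simpa using q2 (u, 0), fun u => by simpa using q3 (u, 0)⟩
    refine .inr ⟨q6, fun hμ => q5 (LinearMap.ext fun z => ?_)⟩
    obtain ⟨w₀, w1, w2⟩ := hW.exists_eigen hμ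
    obtain ⟨c, u, rfl⟩ := hU.e1.exists_eq (μ := μ) (x := N Z w₀) (fun u e => h2 μ (hU.of_cf q6) hμ w₀ (-u) w1 w2 (by
      rw [← e, map_neg]; module)) z
    have q7 := q3 (0, w₀)
    rw [← End.mul_apply, tri_mul, tri_apply, q4, w2, map_zero, zero_add,
      show ((0 : U), μ • w₀) = μ • (0, w₀) by simp, map_smul, smul_eq_mul, add_eq_right] at q7
    have q8 := q3 (u, 0)
    simp only [tri_apply, map_zero, add_zero] at q8
    rw [map_add, map_sub, map_smul, map_smul]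
    simp [q8, show Ψ (N Z w₀, 0) = 0 from q7]

end Cfsg.Lib.Lev
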