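import Cfsg.Agent.Lib.Lev.Peel
import Cfsg.Agent.Lib.GLC.ClassNum

/-!
# Products of classes in `GL_n`, IX: classes that do not split in `SL_n`
-/

set_option autoImplicit false

namespace Cfsg.Lib.Lev

open Module Polynomial LinearMap Cfsg.Lib.GLC Cfsg.Lib.Ore Submodule Matrix

universe u

variable {F V : Type u} [Field F] [AddCommGroup V] [Module F V] {μ : Multiset F[X]} {A G : End F V} {P φ : F[X]}
  {k : ℕ}

/-- A chain of divisors. -/
def Ch (μ : Multiset F[X]) : Prop := ∀ P ∈ μ, ∀ Q ∈ μ, P.natDegree ≤ Q.natDegree → P ∣ Q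

theorem exists_nf [Module.Finite F V] (f : End F V) : ∃ (μ : Multiset F[X]) (a : ℕ) (l : F),
    Blocks f (μ + .replicate a (X - C l)) ∧ (∀ P ∈ μ, 2 ≤ P.natDegree ∧ (a ≠ 0 → X - C l ∣ P)) ∧ Ch μ := by
  obtain ⟨μ, h1, h2, h3⟩ := exists_inv f
  by_cases h : ∃ Q ∈ μ, Q.natDegree = 1
  · obtain ⟨Q, hQ, h4⟩ := h
    have h5 : Q = X - C (-Q.coeff 0) := by simpa using (h1.monic Q hQ).eq_X_add_C h4
    refine ⟨μ.filter (·.natDegree ≠ 1), (μ.filter (¬ ·.natDegree ≠ 1)).card, -Q.coeff 0, ?_, fun P hP => ?_,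
      fun P hP R hR => h3 P (Multiset.mem_of_mem_filter hP) R (Multiset.mem_of_mem_filter hR)⟩
    · rwa [← Multiset.eq_replicate_card.2, Multiset.filter_add_not]
      intro P hP
      rw [Multiset.mem_filter, not_not] at hP
      exact (eq_of_monic_of_dvd_of_natDegree_le (h1.monic Q hQ) (h1.monic P hP.1) (h3 Q hQ P hP.1 (by omega))
        (by omega)).trans h5
    · rw [Multiset.mem_filter] at hP
      have := h2 P hP.1
      exact ⟨by omega, fun _ => h5 ▸ h3 Q hQ P hP.1 (by omega)⟩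
  · push Not at h
    exact ⟨μ, 0, 0, by simpa using h1, fun P hP => ⟨by have := h2 P hP; have := h P hP; omega, by simp⟩, h3⟩

theorem eq_singleton_of_sum (hP : P ∈ μ) (h2 : ∀ Q ∈ μ, 2 ≤ Q.natDegree)
    (h : (μ.map natDegree).sum < P.natDegree + 2) : μ = {P} := by
  obtain ⟨ν, rfl⟩ := Multiset.exists_cons_of_mem hP
  obtain rfl : ν = 0 := Multiset.eq_zero_of_forall_notMem fun Q hQ => by
    have := Multiset.single_le_sum (s := ν.map natDegree) (by simp) _ (Multiset.mem_map_of_mem _ hQ)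
    have := h2 Q (by simp [hQ])
    rw [Multiset.map_cons, Multiset.sum_cons] at h
    omega
  rfl

theorem Ch.exists_start [Finite F] (hq : 4 ≤ Nat.card F) (h : Ch μ) (hm : ∀ P ∈ μ, P.Monic) (b : F) :
    ∃ a, a ≠ 0 ∧ a ≠ b ∧ ∀ P ∈ μ, P.natDegree = 2 → a * a ≠ P.coeff 0 * P.coeff 0 := by
  by_cases h1 : ∃ Q ∈ μ, Q.natDegree = 2
  · obtain ⟨Q, hQ, h1⟩ := h1
    obtain ⟨a, a0, a1, a2⟩ := ex_sq hq b (Q.coeff 0 * Q.coeff 0)
    exact ⟨a, a0, a1, fun P hP h2 => eq_of_monic_of_dvd_of_natDegree_le (hm Q hQ) (hm P hP) (h Q hQ P hP (by omega))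
      (by omega) ▸ a2⟩
  · obtain ⟨a, a0, a1, -⟩ := ex_sq hq b 0
    exact ⟨a, a0, a1, fun P hP h2 => (h1 ⟨P, hP, h2⟩).elim⟩

variable [Module.Finite F V]

theorem finrank_eq_add {a : ℕ} {l : F} (h : Blocks A (μ + .replicate a (X - C l))) :
    finrank F V = (μ.map natDegree).sum + a := by
  simp [h.finrank_eq, natDegree_X_sub_C]

theorem cyclic_or_rank_one (h3 : finrank F V = 3) (hG : NS G) : (∃ Q, Blocks G {Q}) ∨
    ∃ (l : F) (a : V) (b : Dual F V) (Q : F[X]), a ≠ 0 ∧ b ≠ 0 ∧ (∀ z, G z = l • z + b z • a) ∧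
      Blocks G {Q, X - C l} ∧ X - C l ∣ Q ∧ Q.natDegree = 2 := by
  obtain ⟨μ, a, l, h1, h2, -⟩ := exists_nf G
  have h4 := finrank_eq_add h1
  obtain ⟨Q, hQ⟩ := Multiset.exists_mem_of_ne_zero (s := μ) fun e => hG l (eq_smul_of_blocks h1 fun Q hQ => by
    simpa [e] using Multiset.eq_of_mem_replicate (by simpa [e] using hQ))
  have h5 := (h2 Q hQ).1
  obtain rfl := eq_singleton_of_sum hQ (fun Q hQ => (h2 Q hQ).1) (by omega)
  rw [Multiset.map_singleton, Multiset.sum_singleton] at h4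
  rcases a.eq_zero_or_pos with rfl | ha
  · exact .inl ⟨Q, by simpa using h1⟩
  · obtain rfl : a = 1 := by omega
    have h6 := (h2 Q hQ).2 one_ne_zero
    obtain ⟨a, b, h7, h8, h9⟩ := rank_one_of_blocks (μ := {X - C l}) h1 (by omega) (by simp) h6
    exact .inr ⟨l, a, b, Q, h7, h8, h9, h1, h6, by omega⟩

theorem blocks_of_ann (h3 : finrank F V = 3) (hG : NS G) {l : F} (hφ : φ.Monic) (h2 : φ.natDegree = 2)
    (h0 : ∀ c, φ.eval c ≠ 0) (h : aeval G ((X - C l) * φ) = 0) : Blocks G {(X - C l) * φ} := by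
  have h1 : ((X - C l) * φ).natDegree = 3 := by rw [(monic_X_sub_C l).natDegree_mul hφ, h2, natDegree_X_sub_C]
  rcases cyclic_or_rank_one h3 hG with ⟨Q, hQ⟩ | ⟨m, -, -, Q, -, -, -, h4, h5, h6⟩
  · rwa [eq_of_monic_of_dvd_of_natDegree_le (hQ.monic Q (by simp)) ((monic_X_sub_C l).mul hφ)
      (hQ.aeval_eq_zero_iff.1 h Q (by simp)) (by simpa [h1, h3] using hQ.finrank_eq.le)]
  · have h7 := h4.aeval_eq_zero_iff.1 h Q (by simp)
    obtain rfl : m = l := by simpa [h0, sub_eq_zero] using dvd_iff_isRoot.1 (h5.trans h7)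
    obtain ⟨R, rfl⟩ := h5
    have h8 := (monic_X_sub_C m).of_mul_monic_left (h4.monic _ (by simp) : ((X - C m) * R).Monic)
    rw [(monic_X_sub_C m).natDegree_mul h8, natDegree_X_sub_C] at h6
    rw [mul_dvd_mul_iff_left (X_sub_C_ne_zero m), h8.eq_X_add_C (by omega), ← sub_neg_eq_add, ← C_neg] at h7
    exact (h0 _ (dvd_iff_isRoot.1 h7)).elim

omit [Module.Finite F V] in
theorem PwB.of_sim {W : Type u} [AddCommGroup W] [Module F W] {G' : End F W} (h : PwB k μ G) (he : Sim G G') :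
    PwB k μ G' := by
  obtain ⟨e, rfl⟩ := sim_iff.1 he
  obtain ⟨l, h1, h2, rfl⟩ := h
  exact ⟨l.map (e.conjAlgEquiv F), by simp [h1], List.forall_mem_map.2 fun B hB => (sim_conj e B).symm.blocks (h2 B hB),
    (map_list_prod _ _).symm⟩

theorem pwB_irreducible [Finite F] (hP : P.Monic) (h : Irreducible P) (hV : finrank F V = P.natDegree) :
    ∃ z : F, PwB P.natDegree {P} (z • 1 : End F V) := by
  haveI := Fact.mk h
  haveI := hP.finite_adjoinRoot
  haveI : Finite (AdjoinRoot P) := Module.finite_of_finite F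
  refine ⟨Algebra.norm F (AdjoinRoot.root P), .of_sim (V := AdjoinRoot P) ⟨(Finset.univ.toList.map
    fun σ : AdjoinRoot P ≃ₐ[F] AdjoinRoot P => σ (AdjoinRoot.root P)).map (Algebra.lmul F _), ?_, ?_, ?_⟩
    (sim_smul_one ((finrank_adjoinRoot P).trans hV.symm) _)⟩
  · simp [← finrank_adjoinRoot, ← IsGalois.card_aut_eq_finrank]
  · simp only [List.forall_mem_map]
    exact fun σ _ => Sim.blocks (.symm ⟨σ.toLinearEquiv, fun x => by simp [cyc]⟩) (blocks_cyc hP)
  · rw [← map_list_prod, Finset.prod_map_toList, ← Algebra.norm_eq_prod_automorphisms, AlgHom.commutes,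
      Algebra.algebraMap_eq_smul_one]

theorem pwB_reducible (h3 : finrank F V = 3) {l : F} (hl : l ≠ 0) (hφ : φ.Monic) (h2 : φ.natDegree = 2)
    (h0 : ∀ c, φ.eval c ≠ 0) : ∃ z : F, PwB 3 {(X - C l) * φ} (z • 1 : End F V) := by
  have e := eq_of_deg_two hφ h2
  have hp : φ.coeff 0 ≠ 0 := coeff_zero_eq_eval_zero φ ▸ h0 0
  generalize φ.coeff 0 = p at *
  generalize φ.coeff 1 = r at *
  have key : ∀ M : Matrix (Fin 3) (Fin 3) F, M 0 1 ≠ 0 → (M - l • 1) * (M * M + r • M + p • 1) = 0 →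
      Blocks (toLin' M) {(X - C l) * φ} := fun M a b => blocks_of_ann (by simp)
    (fun c e => a (by simp [toLin'_eq_smul_one_iff.1 e])) hφ h2 h0
    (by rw [aeval_toLin', e]; simp [Algebra.algebraMap_eq_smul_one, b])
  refine ⟨l * p, .of_sim (V := Fin 3 → F) ⟨[toLin' !![0, -p / l, 0; l, -r, 0; 0, 0, l],
    toLin' !![l, p / l, -p * r / l ^ 2 - p / l; 0, 0, -p / l; 0, l, -r],
    toLin' !![l - r, p / l, -p ^ 2 / l ^ 3; r * l ^ 2 / p, 0, p / l; l ^ 3 / p, 0, 0]], rfl, ?_, ?_⟩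
    (sim_smul_one (by simp [h3]) _)⟩
  · simp only [List.forall_mem_cons, List.not_mem_nil, false_imp_iff, implies_true, and_true]
    refine ⟨key _ (by simp [hl, hp]) ?_, key _ (by simp [hl, hp]) ?_, key _ (by simp [hl, hp]) ?_⟩ <;>
      ext i j <;> fin_cases i <;> fin_cases j <;>
      simp [Matrix.mul_apply, Fin.sum_univ_three, -mul_eq_zero] <;> field_simp <;> ring
  · simp only [List.prod_cons, List.prod_nil, mul_one, End.mul_eq_comp, ← toLin'_mul, toLin'_eq_smul_one_iff]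
    ext i j
    fin_cases i <;> fin_cases j <;>
      simp [Matrix.mul_apply, Fin.sum_univ_three, -mul_eq_zero, -mul_eq_mul_left_iff, -mul_eq_mul_right_iff] <;>
      field_simp <;> ring

variable [Finite F]

theorem fn_cyclic_three (hq : 4 ≤ Nat.card F) (h3 : finrank F V = 3) (hA : Blocks A {P}) (hu : IsUnit A)
    (hd : detC A = ⊤) : Fn 3 A := by
  have hF := big_of_card hq
  have m1 := hA.monic P (by simp)
  have m2 : P.natDegree = 3 := by simpa [h3] using hA.finrank_eq.symm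
  have m3 := ((isUnit_iff_isUnit_det A).1 hu).ne_zero
  have m4 := ns_of_blocks hA (Multiset.mem_singleton_self P) (by omega)
  by_cases h1 : P.Splits
  · have h2 : CT A P.roots := ct_of_blocks (by rwa [lt, ← h1.eq_prod_roots_of_monic m1])
    have h4 : 0 ∉ P.roots := fun h => m3 (h2.det.trans (Multiset.prod_eq_zero h))
    refine Cov.fn (fun G a b => ?_) h3.ge hu m4
    obtain ⟨B, D, rfl, h5, h6, -⟩ := exists_ct_mul hF h3.ge a h2.card h2.card h4 h4 (by rw [b, h2.det, pow_two])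
    exact (Pw.one (.of_sim (h2.sim h5) hd)).mul (.one (.of_sim (h2.sim h6) hd))
  have m5 : LinearMap.det A = -P.coeff 0 := by simp [hA.det_eq, h3]; ring
  have m6 : P.coeff 0 ≠ 0 := by simpa [m5] using m3
  obtain ⟨e, e0, e1, e2⟩ := ex_sq hq 1 (P.coeff 0 * P.coeff 0)
  have e3 : 0 ∉ ({P.coeff 0 * P.coeff 0 / e} : Multiset F) := by simp [m6, e0, eq_comm (a := (0 : F))]
  have e4 : e ∉ ({P.coeff 0 * P.coeff 0 / e} : Multiset F) := by simpa [eq_div_iff e0] using e2
  have h2 := pair_pc m1 (t := {P.coeff 0 * P.coeff 0 / e}) m2 one_ne_zero e3 e0 e1 e4 (by simp [field])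
  have h4 := (h2.full hA hd).2
  have key : ∀ B Y G : End F V, Sim A B → CT Y (1 ::ₘ e ::ₘ {P.coeff 0 * P.coeff 0 / e}) → Sim (B * Y) G → Pw 3 A G :=
    fun B Y G a b c => by
    obtain ⟨g, rfl⟩ := exists_unit c
    exact ((Pw.cons (.of_sim a hd) (h4 Y b)).conj g).of_cj (.of_sim (sim_unit g A) hd)
  obtain ⟨A, rfl⟩ := hu
  suffices H : ∃ z : F, PwB 3 {P} (z • 1 : End F V) by
    obtain ⟨z, hz⟩ := H
    refine Cov.fn' (fun G a b => ?_) A.isUnit (hz.pw hA hd)
    rcases cyclic_or_rank_one h3 a with ⟨Q, hQ⟩ | ⟨l, x, f, Q, q1, q2, q3, q4, -⟩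
    · have h5 := blocks_inv_cyc hA one_ne_zero (A.mul_inv.trans (one_smul _ _).symm)
      obtain ⟨B, h6, h7, -⟩ := exists_pc h5 (hQ.monic Q (by simp)) (t := {P.coeff 0 * P.coeff 0 / e})
        (by simpa [h3] using hQ.finrank_eq.symm) h3 one_ne_zero e3 e0 e1 e4 (by
          have h8 := det_of_mul (k := 2) rfl b
          rw [map_mul, h5.det_eq, hQ.det_eq, m5, mul_mul_mul_comm, ← mul_pow] at h8
          simp only [Multiset.map_singleton, Multiset.prod_singleton] at h8 ⊢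
          field_simp
          linear_combination -h8)
      exact key A _ G (.refl _) h7 (by simpa using h6.sim hQ)
    · have l0 : l ≠ 0 := fun e => q4.isUnit_iff.1 ((isUnit_iff_isUnit_det G).2 (b ▸ (pow_ne_zero 3 m3).isUnit))
        (X - C l) (by simp) (by simp [e])
      have h5 := blocks_inv_cyc hA l0 (M := l • (A⁻¹).1) (by simp)
      obtain ⟨B, D, d, p1, p2, p3, p4, -⟩ := exists_levelt (finBasisOfFinrankEq F V h3) (LinearMap.charpoly_monic _)
        (monic_lt_prod (1 ::ₘ e ::ₘ {P.coeff 0 * P.coeff 0 / e})) ((LinearMap.charpoly_natDegree _).trans h3)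
        (natDegree_lt_prod _) fun h => h1 (by
          have := (ct_of_blocks (h ▸ h5)).inv (Y := A.1) l0 (by simp) (by simp) h2.nz
          rw [show P = _ by simpa using hA.charpoly_eq.symm.trans this.blocks.charpoly_eq]
          exact Splits.multisetProd fun R hR => by
            obtain ⟨c, -, rfl⟩ := Multiset.mem_map.1 hR
            exact Splits.X_sub_C c)
      obtain ⟨g, rfl⟩ := exists_unit (h5.sim p1)
      refine key _ D G (sim_unit g _) (ct_of_blocks p2) (levelt_core rfl l0 q1 q2 q3 (by simp [mul_assoc]) p3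
        (fun h => by simpa using LinearMap.congr_fun h (finBasisOfFinrankEq F V h3 (.last 2))) p4 ?_)
      rw [det_conj_unit, (ct_of_blocks p2).det, b, m5]
      simp [field]
  by_cases h5 : ∃ l, P.eval l = 0
  · obtain ⟨l, h5⟩ := h5
    obtain ⟨φ, rfl⟩ := dvd_iff_isRoot.2 h5
    have h6 := (monic_X_sub_C l).of_mul_monic_left m1
    rw [(monic_X_sub_C l).natDegree_mul h6, natDegree_X_sub_C] at m2
    exact pwB_reducible h3 (fun e => by simp [e] at m6) h6 (by omega) fun c hc =>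
      h1 ((Splits.X_sub_C l).mul (.of_natDegree_eq_two (by omega) hc))
  · exact m2 ▸ pwB_irreducible m1 ((m1.irreducible_iff_roots_eq_zero_of_degree_le_three (by omega) m2.le).2
      (Multiset.eq_zero_of_forall_notMem fun c hc => h5 ⟨c, (mem_roots'.1 hc).2⟩)) (h3.trans m2.symm)

theorem Full.fn_of_five {s : Multiset F} (hq : 4 ≤ Nat.card F) (h5 : 5 ≤ finrank F V) (hA : IsUnit A) (hn : NS A)
    (h : Full A s) (h0 : 0 ∉ s) : Fn (finrank F V) A :=
  ((h.cov (big_of_card hq) (by omega) h0).fn (by omega) hA hn).mono hA h5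

theorem fn_good_free (hq : 4 ≤ Nat.card F) (h3 : 3 ≤ finrank F V) (hA : Blocks A μ) (hu : IsUnit A) (hn : NS A)
    (hd : detC A = ⊤) (h2 : ∀ P ∈ μ, 2 ≤ P.natDegree) (hc : Ch μ) : Fn (finrank F V) A := by
  have hF := big_of_card hq
  have h0 := hA.isUnit_iff.1 hu
  by_cases h5 : 5 ≤ finrank F V
  · obtain ⟨a, a0, -, a1⟩ := hc.exists_start hq hA.monic 0
    obtain ⟨s, hs, -⟩ := pair_chain hq a0 fun P hP => ⟨hA.monic P hP, h0 P hP, h2 P hP, a1 P hP⟩
    exact (hs.full hA hd).fn_of_five hq h5 hu hn hs.nz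
  have h6 := hA.finrank_eq
  obtain ⟨P, hP⟩ := Multiset.exists_mem_of_ne_zero (s := μ) fun e => by simp [h6, e] at h3
  have := h2 P hP
  have p0 := h0 P hP
  have p1 := hA.monic P hP
  by_cases h7 : finrank F V < P.natDegree + 2
  · obtain rfl := eq_singleton_of_sum hP h2 (h6 ▸ h7)
    rcases h3.eq_or_lt with h3 | h4
    · exact h3 ▸ fn_cyclic_three hq h3.symm hA hu hd
    replace h4 : finrank F V = 4 := by omega
    obtain ⟨x, y, x0, y0, h8, h9, h10⟩ : ∃ x y : F, x ≠ 0 ∧ y ≠ 0 ∧ y ≠ x ∧ y ≠ P.coeff 0 / x ∧ y ≠ P.coeff 0 / y := by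
      by_cases h : ∃ x, x * x = P.coeff 0
      · obtain ⟨x, hx⟩ := h
        have x0 : x ≠ 0 := fun e => p0 (by simp [← hx, e])
        obtain ⟨y, y0, y1, y2⟩ := ex_sq hq x (P.coeff 0)
        exact ⟨x, y, x0, y0, y1, by simpa [← hx, x0] using y1, by simpa [eq_div_iff y0] using y2⟩
      · obtain ⟨y, y0, y1, y2⟩ := hF 0 1 (P.coeff 0)
        exact ⟨1, y, one_ne_zero, y0, y1, by simpa using y2, fun e => h ⟨y, (eq_div_iff y0).1 e⟩⟩
    have h11 := pair_pc p1 (t := {P.coeff 0 / x, P.coeff 0 / y}) (by simpa [h4] using h6.symm) x0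
      (by simp [p0, x0, y0, eq_comm (a := (0 : F))]) y0 h8 (by simp [h9, h10]) (by simp [field])
    exact h4 ▸ (h11.full hA hd).fn hF h3 hu h11.nz p0 (by
      simp only [Multiset.insert_eq_cons, ← Multiset.singleton_add, Multiset.map_add, Multiset.map_singleton,
        Multiset.map_zero, div_div_cancel₀ p0]
      abel)
  · obtain ⟨ν, rfl⟩ := Multiset.exists_cons_of_mem hP
    rw [Multiset.map_cons, Multiset.sum_cons] at h6
    obtain ⟨Q, hQ⟩ := Multiset.exists_mem_of_ne_zero (s := ν) fun e => by simp [h6, e] at h7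
    have := h2 Q (by simp [hQ])
    obtain rfl := eq_singleton_of_sum hQ (fun R hR => h2 R (by simp [hR])) (by omega)
    rw [Multiset.map_singleton, Multiset.sum_singleton] at h6
    obtain rfl := eq_of_monic_of_dvd_of_natDegree_le p1 (hA.monic Q (by simp)) (hc P hP Q (by simp) (by omega))
      (by omega)
    obtain ⟨a, a0, -, a1⟩ := ex_sq hq 0 (Q.coeff 0 * Q.coeff 0)
    have a2 : Q.coeff 0 * Q.coeff 0 / a ≠ a := fun e => a1 ((div_eq_iff a0).1 e).symm
    have h8 := pair_pc p1 (t := 0) (by simp; omega) a0 (by simp) (by simp [p0, a0]) a2 (by simp) (by simp [field])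
    have h9 := h8.glue h8 fun l a b => a2 (b.symm.trans a.1)
    exact (show finrank F V = 4 by omega) ▸ (h9.full hA hd).fn hF h3 hu h9.nz (mul_ne_zero p0 p0) (by
      simp only [Multiset.insert_eq_cons, ← Multiset.singleton_add, Multiset.map_add, Multiset.map_singleton,
        Multiset.map_zero, div_div_cancel₀ (mul_ne_zero p0 p0)]
      abel)

theorem fn_good_point (hq : 4 ≤ Nat.card F) (h3 : 3 ≤ finrank F V) {a : ℕ}
    (hA : Blocks A (μ + .replicate (a + 1) (X - C 1))) (hu : IsUnit A) (hn : NS A)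
    (h2 : ∀ P ∈ μ, 2 ≤ P.natDegree ∧ X - C 1 ∣ P) (hc : Ch μ) : Fn (finrank F V) A := by
  have hF := big_of_card hq
  have hd := detC_eq_top hA (irreducible_X_sub_C 1) (by simp [-map_one])
  have h0 : ∀ P ∈ μ, P.Monic ∧ P.coeff 0 ≠ 0 := fun P hP =>
    ⟨hA.monic P (by simp [hP]), hA.isUnit_iff.1 hu P (by simp [hP])⟩
  have h1 : ∀ j, ∀ P ∈ μ + .replicate j (X - C 1), P.Monic ∧ P.coeff 0 ≠ 0 := fun j P hP =>
    (Multiset.mem_add.1 hP).elim (h0 P) fun h => by simp [Multiset.eq_of_mem_replicate h, monic_X_sub_C, -map_one]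
  have h6 := finrank_eq_add hA
  obtain ⟨P, hP⟩ := Multiset.exists_mem_of_ne_zero (s := μ) fun e => hn 1 (eq_smul_of_blocks hA fun Q hQ =>
    Multiset.eq_of_mem_replicate (by simpa only [e, zero_add] using hQ))
  obtain ⟨p2, p3⟩ := h2 P hP
  obtain ⟨p1, p0⟩ := h0 P hP
  by_cases h4 : 4 ≤ (μ.map natDegree).sum
  · obtain ⟨x, x0, x1, x2⟩ := hc.exists_start hq (fun P hP => (h0 P hP).1) 1
    obtain ⟨s, hs, hx⟩ := pair_chain hq x0 fun P hP => ⟨(h0 P hP).1, (h0 P hP).2, (h2 P hP).1, x2 P hP⟩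
    have h7 := ((hs.glue pair_one fun l a b => x1 (a.symm.trans b)).lift hF (h1 1) (by simp [-map_one])
      (by simp only [Multiset.map_add, Multiset.sum_add]; omega) ⟨x, by simp [hx (fun e => by simp [e] at hP)], x1⟩).add (h1 1) (by simp [hP]) p2 a
    rw [add_assoc, ← Multiset.replicate_one, ← Multiset.replicate_add, add_comm 1] at h7
    exact ((h7.cov hA hd).fn h3 hu hn).mono hu (by omega)
  obtain rfl := eq_singleton_of_sum hP (fun Q hQ => (h2 Q hQ).1) (by omega)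
  rw [Multiset.map_singleton, Multiset.sum_singleton] at h4 h6
  rcases p2.eq_or_lt with p2 | p2
  · obtain ⟨R, rfl⟩ := p3
    have h8 := (monic_X_sub_C 1).of_mul_monic_left p1
    obtain ⟨δ, rfl⟩ : ∃ δ, R = X - C δ := ⟨-R.coeff 0, by
      rw [(monic_X_sub_C 1).natDegree_mul h8, natDegree_X_sub_C] at p2
      simpa using h8.eq_X_add_C (by omega)⟩
    rw [← p2, add_comm] at h6
    have h7 := (lift_two hF (δ := δ) (by simpa using p0)).add h0 hP p2.le (a + 1)
    rw [add_comm] at h7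
    exact h6 ▸ (h7.cov hA hd).fn' hu ((pwB_scalar hF h6 δ).pw hA hd)
  replace p2 : P.natDegree = 3 := by omega
  rcases a with _ | a
  · obtain ⟨δ, d0, d1⟩ : ∃ δ, δ ≠ 0 ∧ δ * δ = P.coeff 0 * P.coeff 0 := ⟨_, p0, rfl⟩
    rw [add_comm] at hA
    rw [show finrank F V = 4 by omega]
    by_cases hδ : δ = 1
    · obtain ⟨y, y0, y1, y2⟩ := ex_sq hq 1 1
      have h7 := pair_one.glue (pair_pc p1 (t := {1 / y}) p2 one_ne_zero (by simpa using y0.symm) y0 y1
        (by simpa only [Multiset.mem_singleton, eq_div_iff y0] using y2) (by simp [y0, ← d1, hδ]))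
        fun l a b => y1 (b.symm.trans a)
      exact (h7.full hA hd).fn hF h3 hu h7.nz one_ne_zero (by
        simp only [Multiset.insert_eq_cons, ← Multiset.singleton_add, Multiset.map_add, Multiset.map_singleton,
          Multiset.map_zero, one_div_one_div, div_one]
        abel)
    · obtain ⟨y, y0, y1, y2⟩ := hF 0 1 δ
      have h7 := pair_one.glue (pair_pc p1 (t := {δ / y}) p2 y0 (by simp [d0, y0, eq_comm (a := (0 : F))]) d0 y2.symm
        (by simpa [eq_div_iff y0, d0] using y1) (by simp [← d1, field])) fun l a b => hδ (b.symm.trans a)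
      exact (h7.full hA hd).fn hF h3 hu h7.nz d0 (by
        simp only [Multiset.insert_eq_cons, ← Multiset.singleton_add, Multiset.map_add, Multiset.map_singleton,
          Multiset.map_zero, div_div_cancel₀ d0, div_one, div_self d0]
        abel)
  · obtain ⟨e, e0, e1, e2⟩ := ex_sq hq 1 (P.coeff 0 * P.coeff 0)
    have h7 := ((pair_one.glue (pair_pc p1 (x := P.coeff 0 * P.coeff 0 / e) (t := {1}) p2 (by simp [p0, e0])
      (by simp) e0 (by simpa [eq_div_iff e0] using e2) (by simpa using e1) (by simp [e0]))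
      fun l a b => e1 (b.symm.trans a)).glue pair_one fun l a b => by simp_all)
    rw [add_comm {X - C 1}, add_assoc] at h7
    have h8 := (h7.lift hF (h1 2) (by simp [-map_one]) (by simp [p2, natDegree_X_sub_C, -map_one])
      ⟨e, by simp, e1⟩).add (h1 2) (P := P) (by simp) (by omega) a
    rw [add_assoc, show {X - C 1} + {X - C 1} = Multiset.replicate 2 (X - C (1 : F)) from rfl,
      ← Multiset.replicate_add, add_comm 2] at h8
    exact ((h8.cov hA hd).fn h3 hu hn).mono hu (by omega)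

theorem fn_good (hq : 4 ≤ Nat.card F) (h3 : 3 ≤ finrank F V) (hu : IsUnit A) (hn : NS A) (hd : detC A = ⊤) :
    Fn (finrank F V) A := by
  obtain ⟨μ, a, l, h1, h2, h4⟩ := exists_nf A
  rcases a with _ | a
  · exact fn_good_free hq h3 (by simpa using h1) hu hn hd (fun P hP => (h2 P hP).1) h4
  have l0 : l ≠ 0 := fun e => h1.isUnit_iff.1 hu (X - C l) (by simp) (by simp [e])
  have h5 : scl l⁻¹ (X - C l) = X - C 1 := by
    rw [sub_eq_add_neg, ← C_neg, scl, MonoidHom.coe_mk, OneHom.coe_mk, X_add_C_scaleRoots]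
    simp [l0, sub_eq_add_neg]
  have h6 := h1.smul (inv_ne_zero l0)
  rw [Multiset.map_add, Multiset.map_replicate, h5] at h6
  have h7 : ∀ P : F[X], (scl l⁻¹ P).natDegree = P.natDegree := fun P => natDegree_scaleRoots _ _
  have h9 : IsUnit (l⁻¹ • A) := IsUnit.smul (Units.mk0 _ (inv_ne_zero l0)) hu
  have h10 : ∀ P ∈ μ.map (scl l⁻¹), 2 ≤ P.natDegree ∧ X - C 1 ∣ P := fun _ hP' => by
    obtain ⟨P, hP, rfl⟩ := Multiset.mem_map.1 hP'
    rw [h7, ← h5]
    exact ⟨(h2 P hP).1, _root_.map_dvd _ ((h2 P hP).2 (by simp))⟩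
  have h11 : Ch (μ.map (scl l⁻¹)) := fun _ hP' _ hQ' h => by
    obtain ⟨P, hP, rfl⟩ := Multiset.mem_map.1 hP'
    obtain ⟨Q, hQ, rfl⟩ := Multiset.mem_map.1 hQ'
    rw [h7, h7] at h
    exact _root_.map_dvd _ (h4 P hP Q hQ h)
  have h8 := (fn_good_point hq h3 h6 h9 (hn.smul (inv_ne_zero l0)) h10 h11).smul l0
  rwa [smul_inv_smul₀ l0] at h8

end Cfsg.Lib.Lev
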