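import Cfsg.Agent.Lib.Lev.Bad

/-!
# Products of classes in `GL_n`, XI: the covering number of `PSL_n(q)` (Lev)
-/

set_option autoImplicit false

namespace Cfsg.Lib.Lev

open Module Polynomial LinearMap Cfsg.Lib.GLC Cfsg.Lib.Ore Submodule Matrix

universe u

variable {F V : Type u} [Field F] [AddCommGroup V] [Module F V] {μ : Multiset F[X]} {A G : End F V} {P Q φ : F[X]}
  [Module.Finite F V] [Finite F]

theorem fn_irr_sq (hq : 4 ≤ Nat.card F) (h1 : φ.Monic) (h2 : Irreducible φ) (h3 : 2 ≤ φ.natDegree)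
    (h4 : φ.natDegree ≤ 3) (hA : Blocks A {φ * φ}) (hd : LinearMap.det A = 1) (hb : detC A ≠ ⊤) :
    Fn (finrank F V) A := by
  have hu := (isUnit_iff_isUnit_det A).2 (hd ▸ isUnit_one)
  have h5 := two_ne_zero_of_sq (pow_mem_detC hA h2 (e := 2) (by simp [pow_two])) hb
  have h6 : finrank F V = 2 * φ.natDegree := by simp [hA.finrank_eq, h1.natDegree_mul h1, two_mul]
  have h7 : φ.coeff 0 * φ.coeff 0 = 1 := by simpa [h6, pow_mul] using hA.det_eq.symm.trans hd
  have h8 : ∀ c, φ.eval c ≠ 0 := fun c => h2.not_isRoot_of_natDegree_ne_one (by omega)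
  have h9 : (1 : F) ≠ -1 := fun e => h5 (by linear_combination e)
  obtain ⟨y, y0, -, y1⟩ := ex_sq hq 0 (1 : F)
  have y2 : ∀ c, c * c = 1 → y ≠ c := fun c hc e => y1 (e ▸ hc)
  have y3 : 1 / y ≠ y := fun e => y1 ((div_eq_iff y0).1 e).symm
  rcases h3.eq_or_lt with h3 | h3
  · have p1 := pair_pc h1 (t := 0) h3.symm y0 (by simp) (by simp [y0]) y3 (by simp) (by simp [y0, h7])
    rw [h6, ← h3]
    by_cases h10 : φ.coeff 1 = 0
    · have y4 : -y ≠ y := fun e => mul_ne_zero h5 y0 (by linear_combination -e)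
      have y5 : y * y ≠ -1 := fun e => by
        rcases mul_self_eq_one_iff.1 h7 with h | h
        · exact h8 y (by rw [eq_of_deg_two h1 h3.symm]; simp [h, h10, e])
        · exact h8 1 (by rw [eq_of_deg_two h1 h3.symm]; simp [h, h10])
      have p2 := pair_pc h1 (t := 0) (x := -y) (e := 1 / -y) h3.symm (neg_ne_zero.2 y0) (by simp) (by simp [y0])
        (fun e => y1 (by simpa using ((div_eq_iff (neg_ne_zero.2 y0)).1 e).symm)) (by simp) (by simp [y0, h7])
      have p3 := p1.two_quot (p2.no_ce h8) h2 (by simp) hA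
      rw [Multiset.cons_add] at p3
      refine (p3.full_one ?_).fn (big_of_card hq) (by omega) hu (by simp [y0, y0.symm]) one_ne_zero ?_
      · simpa [-one_div, y3.symm, y4.symm, eq_div_iff (neg_ne_zero.2 y0)] using
          fun e => y5 (by linear_combination -e)
      · simp only [← Multiset.singleton_add, Multiset.map_add, Multiset.map_singleton, Multiset.map_zero,
          one_div_one_div]
        abel
    · have p3 := p1.two_quot ((pair_neg h1 h3.symm (left_ne_zero_of_mul_eq_one h7) h10 h5).no_ce h8) h2 (by simp) hA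
      rw [Multiset.cons_add] at p3
      refine (p3.full_one (by simp [-one_div, y3.symm, y2 (-φ.coeff 0) (by simpa using h7)])).fn (big_of_card hq)
        (by omega) hu (by simp [y0, y0.symm, left_ne_zero_of_mul_eq_one h7]) one_ne_zero ?_
      simp only [← Multiset.singleton_add, Multiset.map_add, Multiset.map_singleton, Multiset.map_zero,
        one_div_one_div, Multiset.insert_eq_cons, (div_eq_iff (neg_ne_zero.2 (left_ne_zero_of_mul_eq_one h7))).2
          (show 1 = -φ.coeff 0 * -φ.coeff 0 by simp [h7])]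
      abel
  · have p1 := pair_pc h1 (t := {1}) (by simp; omega) y0 (by simp) (by simp [y0]) y3 (by simpa using y2 1 (by simp))
      (by simp [y0, h7])
    have p2 := pair_pc h1 (x := -1) (e := 1) (t := {-1}) (by simp; omega) (by simp) (by simp) one_ne_zero h9
      (by simpa using h9) (by simp [h7])
    have p3 := p1.two_quot (p2.no_ce h8) h2 (by simp) hA
    rw [Multiset.cons_add] at p3
    exact (p3.full_one (by simp [-one_div, y3.symm, y2 1 (by simp), y2 (-1) (by simp)])).fn_of_five hq (by omega) hu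
      (ns_of_blocks hA (Multiset.mem_singleton_self _) (by rw [h1.natDegree_mul h1]; omega)) (by simp [y0, y0.symm])

theorem fn_irr_cube (hq : 4 ≤ Nat.card F) (h1 : φ.Monic) (h2 : Irreducible φ) (h3 : φ.natDegree = 2)
    (hA : Blocks A {φ * φ * φ}) (hu : IsUnit A) : Fn (finrank F V) A := by
  have h4 : (φ * φ).natDegree = 4 := by rw [h1.natDegree_mul h1, h3]
  have h5 : (φ * φ * φ).natDegree = 6 := by rw [(h1.mul h1).natDegree_mul h1, h3, h4]
  have h8 : ∀ c, φ.eval c ≠ 0 := fun c => h2.not_isRoot_of_natDegree_ne_one (by omega)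
  have p0 : φ.coeff 0 ≠ 0 := coeff_zero_eq_eval_zero φ ▸ h8 0
  have h6 := mul_coeff_zero φ φ
  generalize hp : φ.coeff 0 = p at p0 h6
  obtain ⟨y, y0, -, y1⟩ := ex_sq hq 0 (1 : F)
  have y2 : y ≠ 1 := fun e => y1 (by simp [e])
  have p2 := (pair_pc h1 (t := 0) (x := y * p) (e := p / y) h3 (mul_ne_zero y0 p0) (by simp) (by simp [y0, p0])
    (fun e => y1 (by field_simp at e; linear_combination -e)) (by simp) (by simp [hp, field])).no_ce h8
  obtain ⟨s, cf, ce, p1, p3⟩ : ∃ s cf ce, Pair {φ * φ} (p ::ₘ s) cf ce ∧ p ∉ s + y * p ::ₘ (p / y) ::ₘ 0 := by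
    by_cases h : y * y * y = 1
    · refine ⟨_, _, _, Multiset.cons_swap (y * p) p _ ▸ pair_pc (h1.mul h1) (t := {y * p, y * p}) h4 (mul_ne_zero y0 p0)
        (by simp [y0, p0]) p0 (by simp [p0, y2]) (by simp [p0, y2])
        (by simp [h6]; linear_combination p ^ 4 * h), by simp [p0, y2, eq_div_iff y0]⟩
    · exact ⟨_, _, _, pair_pc (h1.mul h1) (e := p / (y * y)) (t := {y * p, y * p}) h4 p0 (by simp [y0, p0])
        (by simp [y0, p0]) (by simpa [div_eq_iff, y0, p0] using y1)
        (by simpa [div_eq_iff, y0] using fun e => h (mul_right_cancel₀ p0 (by linear_combination -e)))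
        (by simp [h6, field]), by simpa [p0, y2, eq_div_iff, y0] using y1⟩
  have p4 := p1.two_quot p2 h2 (by simp) hA
  rw [Multiset.cons_add] at p4
  exact (p4.full_one p3).fn_of_five hq (by simp [hA.finrank_eq, h5]) hu
    (ns_of_blocks hA (Multiset.mem_singleton_self _) (by omega))
    (by rw [← Multiset.cons_add, Multiset.mem_add]; exact not_or.2 ⟨p1.nz, p2.nz⟩)

theorem fn_bad_single (hq : 4 ≤ Nat.card F) (h3 : 3 ≤ finrank F V) (h7 : finrank F V ≤ 7) (hA : Blocks A {P})
    (hd : LinearMap.det A = 1) (hb : detC A ≠ ⊤) : Fn (finrank F V) A := by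
  have hu := (isUnit_iff_isUnit_det A).2 (hd ▸ isUnit_one)
  have h1 : finrank F V = P.natDegree := by simp [hA.finrank_eq]
  have m0 := Multiset.mem_singleton_self P
  have m1 := hA.monic P m0
  rcases h3.eq_or_lt with h3 | h4
  · obtain ⟨α, hα⟩ := pow_of_bad hb hA m0 (by omega) (by omega)
    rw [hα, ← h1, ← h3] at hA
    have a0 : α ≠ 0 := fun e => hA.isUnit_iff.1 hu _ (Multiset.mem_singleton_self _) (by simp [e])
    exact h3 ▸ ((fn_uT hq).smul a0).of_sim ((blocks_uT a0).sim hA)
  by_cases h5 : ∃ α, P.eval α = 0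
  · exact let ⟨α, hα⟩ := h5; (fn_single_root hq h4 hA hd hα).mono hu h4
  push Not at h5
  have key : ∀ R : F[X], R ∣ P → R.natDegree ≠ 1 := fun R hR e => by
    obtain ⟨c, hc⟩ := exists_root_of_degree_eq_one ((degree_eq_iff_natDegree_eq_of_pos one_pos).2 e)
    exact h5 c (hc.dvd hR)
  obtain ⟨φ, f1, f2, R, rfl⟩ := exists_monic_irreducible_factor P fun e => by
    have := natDegree_eq_zero_of_isUnit e; omega
  obtain ⟨R, rfl⟩ := dvd_of_bad hb hA m0 f1 f2
  have m2 := f1.of_mul_monic_left (f1.of_mul_monic_left m1)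
  have := f2.natDegree_pos
  have := key φ (dvd_mul_right _ _)
  have := key R ((dvd_mul_left _ _).mul_left _)
  rw [f1.natDegree_mul (f1.mul m2), f1.natDegree_mul m2] at h1
  by_cases h6 : R.natDegree = 0
  · rw [m2.natDegree_eq_zero.1 h6, mul_one] at hA
    exact fn_irr_sq hq f1 f2 (by omega) (by omega) hA hd hb
  · have h8 := irreducible_of_no_root m2 (by omega) (by omega) fun c hc => h5 c (by simp [hc])
    have h9 := dvd_of_bad hb hA (φ := R) (R := φ * φ) (by simp [mul_comm, mul_left_comm]) m2 h8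
    obtain rfl : φ = R := eq_of_monic_of_dvd_of_natDegree_le m2 f1 ((h8.prime.dvd_or_dvd h9).elim _root_.id _root_.id)
      (by omega)
    exact fn_irr_cube hq f1 f2 (by omega) (mul_assoc φ φ φ ▸ hA) hu

theorem fn_bad (hq : 4 ≤ Nat.card F) (h3 : 3 ≤ finrank F V) (hn : NS A) (hd : LinearMap.det A = 1)
    (hb : detC A ≠ ⊤) : Fn (finrank F V) A := by
  have hu := (isUnit_iff_isUnit_det A).2 (hd ▸ isUnit_one)
  obtain ⟨μ, a, l, hA, h2, hc⟩ := exists_nf A
  obtain rfl : a = 0 := by_contra fun e =>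
    hb (detC_eq_top hA (irreducible_X_sub_C l) (by simp [Multiset.mem_replicate, e]))
  rw [Multiset.replicate_zero, add_zero] at hA
  replace h2 := fun P hP => (h2 P hP).1
  have h6 := hA.finrank_eq
  have h0 : μ ≠ 0 := fun e => by simp [h6, e] at h3
  by_cases h8 : 8 ≤ finrank F V
  · exact let ⟨_, hs⟩ := two_bad hq hA hu hb h0 h2 hc; fn_bad_large h8 hq hd hs
  have h1 := hA.isUnit_iff.1 hu
  have h4 : ∀ P ∈ μ, ∀ Q ∈ μ, ¬ P.natDegree.Coprime Q.natDegree := fun P hP Q hQ h =>
    hb (eq_top_of_coprime (pow_deg_mem hA hP) (pow_deg_mem hA hQ) h)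
  by_cases h : ∃ Q ∈ μ, Q.natDegree = 2
  · obtain ⟨Q, hQ, h⟩ := h
    obtain ⟨α, hα⟩ := pow_of_bad hb hA hQ h.ge (by omega)
    have h5 := two_ne_zero_of_sq (h ▸ pow_deg_mem hA hQ) hb
    have h7 : ∀ P ∈ μ, P.natDegree = 2 → P = Q := fun P hP e =>
      eq_of_monic_of_dvd_of_natDegree_le (hA.monic Q hQ) (hA.monic P hP) (hc Q hQ P hP (by omega)) (by omega)
    have h9 : ∀ P ∈ μ, P.natDegree ≠ 3 ∧ P.natDegree ≠ 5 := fun P hP =>
      ⟨fun e => h4 P hP Q hQ (by rw [e, h]; decide), fun e => h4 P hP Q hQ (by rw [e, h]; decide)⟩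
    rw [h] at hα
    subst hα
    have a0 : α ≠ 0 := fun e => h1 _ hQ (by simp [e])
    have a1 := mul_ne_zero a0 a0
    have q0 : ((X - C α) ^ 2).coeff 0 = α * α := by simp [pow_two]
    obtain ⟨a, a2, -, a3⟩ := ex_sq hq 0 (α * α * (α * α))
    have a4 : α * α * (α * α) / a ≠ a := fun e => a3 ((div_eq_iff a2).1 e).symm
    have a5 : a ≠ α * α := fun e => a3 (by rw [e])
    have a6 : a ≠ -(α * α) := fun e => a3 (by simp [e])
    have p1 := pair_pc (t := 0) (hA.monic _ hQ) h a2 (by simp) (by simp [a0, a2]) a4 (by simp) (by simp [q0, field])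
    obtain ⟨ν, rfl⟩ := Multiset.exists_cons_of_mem hQ
    rw [Multiset.map_cons, Multiset.sum_cons, h] at h6
    rw [← Multiset.singleton_add, add_comm] at hA
    obtain ⟨P, hP⟩ := Multiset.exists_mem_of_ne_zero (s := ν) fun e => by simp [h6, e] at h3
    have hP' := Multiset.mem_cons_of_mem (b := (X - C α) ^ 2) hP
    have := h2 P hP'
    have := h9 P hP'
    by_cases h10 : (ν.map natDegree).sum < P.natDegree + 2
    · obtain rfl := eq_singleton_of_sum hP (fun R hR => h2 R (by simp [hR])) h10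
      rw [Multiset.map_singleton, Multiset.sum_singleton] at h6
      by_cases h11 : P.natDegree = 2
      · obtain rfl := h7 P hP' h11
        have p2 := p1.two_jordan hq a0 (fun e => a5 e.1.symm) hA
        rw [Multiset.cons_add] at p2
        rw [h6, h]
        refine (p2.full_one (by simp [a4.symm, a5])).fn (big_of_card hq) h3 hu (by simp [a0, a2, eq_comm (a := (0 : F))])
          (mul_ne_zero a1 a1) ?_
        simp only [← Multiset.singleton_add, Multiset.map_add, Multiset.map_singleton, Multiset.map_zero,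
          Multiset.insert_eq_cons, div_div_cancel₀ (mul_ne_zero a1 a1), mul_div_cancel_right₀ _ a1]
        abel
      · have p0 := h1 P hP'
        obtain ⟨e, e0, e1, e2⟩ := ex_sq hq (α * α) (P.coeff 0 * P.coeff 0 / (α * α * (α * α)))
        have e3 : e ≠ P.coeff 0 * P.coeff 0 / (α * α * (α * α)) / e := fun h => e2 ((eq_div_iff e0).1 h)
        have p3 := pair_pc (t := {α * α, P.coeff 0 * P.coeff 0 / (α * α * (α * α)) / e}) (hA.monic P (by simp))
          (by simp; omega) a1 (by simp [a0, p0, e0, eq_comm (a := (0 : F))]) e0 e1 (by simp [e1, e3]) (by simp [field])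
        have p2 := p3.two_jordan hq a0 (by simp) hA
        rw [Multiset.cons_swap, Multiset.cons_add] at p2
        exact (p2.full_one (by simp [e1, e3])).fn_of_five hq (by omega) hu hn
          (by simp [a0, p0, e0, eq_comm (a := (0 : F))])
    · obtain ⟨ν, rfl⟩ := Multiset.exists_cons_of_mem hP
      rw [Multiset.map_cons, Multiset.sum_cons] at h6 h10
      obtain ⟨R, hR⟩ := Multiset.exists_mem_of_ne_zero (s := ν) fun e => by simp [e] at h10
      have := h2 R (by simp [hR])
      have := h9 R (by simp [hR])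
      obtain rfl := eq_singleton_of_sum hR (fun R hR => h2 R (by simp [hR])) (by omega)
      rw [Multiset.map_singleton, Multiset.sum_singleton] at h6
      obtain rfl := h7 P hP' (by omega)
      obtain rfl := h7 R (by simp) (by omega)
      have p2 := (p1.glue (pair_neg (hA.monic _ (by simp)) h (q0 ▸ a1) (by
        simpa [pow_two, mul_coeff_one, ← two_mul] using ⟨h5, a0⟩) h5) fun l b c => a6 (q0 ▸ b.1 ▸ c)).two_jordan hq a0
        (by simpa [q0, a5.symm] using fun e => mul_ne_zero h5 a1 (by linear_combination e)) hA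
      rw [Multiset.cons_add, Multiset.cons_add, q0] at p2
      exact (p2.full_one (by simp [a4.symm, a5, a6])).fn_of_five hq (by omega) hu hn (by simp [a0, a2, eq_comm (a := (0 : F))])
  push Not at h
  obtain ⟨P, hP⟩ := Multiset.exists_mem_of_ne_zero h0
  by_cases h10 : finrank F V < P.natDegree + 2
  · obtain rfl := eq_singleton_of_sum hP h2 (h6 ▸ h10)
    exact fn_bad_single hq h3 (by omega) hA hd hb
  obtain ⟨ν, rfl⟩ := Multiset.exists_cons_of_mem hP
  rw [Multiset.map_cons, Multiset.sum_cons] at h6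
  obtain ⟨Q, hQ⟩ := Multiset.exists_mem_of_ne_zero (s := ν) fun e => by simp [h6, e] at h10
  have hQ' := Multiset.mem_cons_of_mem (b := P) hQ
  have := h2 P hP
  have := h2 Q hQ'
  have := h P hP
  have := h Q hQ'
  obtain rfl := eq_singleton_of_sum hQ (fun R hR => h2 R (by simp [hR])) (by omega)
  rw [Multiset.map_singleton, Multiset.sum_singleton] at h6
  have h5 : P.natDegree = 3 ∧ Q.natDegree = 3 := by
    by_contra e
    have : P.natDegree = 3 ∧ Q.natDegree = 4 ∨ P.natDegree = 4 ∧ Q.natDegree = 3 := by omega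
    rcases this with ⟨a, b⟩ | ⟨a, b⟩ <;> exact h4 P hP Q hQ' (by rw [a, b]; decide)
  obtain rfl := eq_of_monic_of_dvd_of_natDegree_le (hA.monic P hP) (hA.monic Q hQ') (hc P hP Q hQ' (by omega))
    (by omega)
  obtain ⟨α, hα⟩ := pow_of_bad hb hA hP (by omega) h5.1.le
  rw [h5.1] at hα
  subst hα
  have a0 : α ≠ 0 := fun e => h1 _ hP (by simp [e])
  have a1 := mul_ne_zero a0 a0
  obtain ⟨a, a2, -, a3⟩ := ex_sq hq 0 (α * α * (α * α))
  have a4 : α * α * (α * α) / a ≠ a := fun e => a3 ((div_eq_iff a2).1 e).symm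
  have a5 : a ≠ α * α := fun e => a3 (by rw [e])
  have a6 : α * α * (α * α) / a ≠ α * α := fun e => a5 (mul_left_cancel₀ a1 ((div_eq_iff a2).1 e)).symm
  have p0 := (pair_pc (t := 0) ((monic_X_sub_C α).pow 2) (by simp) a2 (by simp) (by simp [a0, a2]) a4 (by simp)
    (by simp [pow_two, field])).glue (pair_pc (t := {α * α}) (hA.monic _ hP) h5.1 a2 (by simp [a0]) (by simp [a0, a2])
    a4 (by simpa using a6) (by simp [pow_succ, field])) fun l b c => a4 (c.symm.trans b.1)
  rw [Multiset.singleton_add] at p0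
  have p1 := p0.two_quot (pair_point a0) (irreducible_X_sub_C α) (fun l b c => a5 (b.elim (fun b => b.1 ▸ c) fun b => b.1.1 ▸ c))
    (pow_succ (X - C α) 2 ▸ hA)
  refine (Two.full (i := 2) (μ := α * α) (t := {a, a, α * α * (α * α) / a, α * α * (α * α) / a}) ?_
    (by simp [a5.symm, a6.symm]) (h5.1 ▸ pow_deg_mem hA hP) (by decide)).fn_of_five hq (by omega) hu hn
    (by simp [a0, a2, eq_comm (a := (0 : F)), Multiset.mem_replicate])
  convert p1 using 1
  simp only [← Multiset.singleton_add, Multiset.insert_eq_cons, Multiset.replicate_succ, Multiset.replicate_zero]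
  abel

theorem fn_all (hq : 4 ≤ Nat.card F) (h3 : 3 ≤ finrank F V) (hn : NS A) (hd : LinearMap.det A = 1) :
    Fn (finrank F V) A := by
  by_cases h : detC A = ⊤
  · exact fn_good hq h3 ((isUnit_iff_isUnit_det A).2 (hd ▸ isUnit_one)) hn h
  · exact fn_bad hq h3 hn hd h

omit [Finite F] in
theorem exists_fixed {l : List (End F V)} (hl : l.length < finrank F V)
    (h : ∀ B ∈ l, ∃ f : V →ₗ[F] F, ∀ z, f z = 0 → B z = z) : ∃ z, z ≠ 0 ∧ l.prod z = z := by
  suffices H : ∃ K : Submodule F V, finrank F V ≤ finrank F K + l.length ∧ ∀ z ∈ K, ∀ B ∈ l, B z = z by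
    obtain ⟨K, h1, h2⟩ := H
    obtain ⟨z, hz, h3⟩ := K.exists_mem_ne_zero_of_ne_bot fun e => by rw [e, finrank_bot] at h1; omega
    exact ⟨z, h3, prod_fix (h2 z hz)⟩
  clear hl
  induction l with
  | nil => exact ⟨⊤, by simp, by simp⟩
  | cons B l ih =>
    obtain ⟨K, h1, h2⟩ := ih fun D hD => h D (by simp [hD])
    obtain ⟨f, hf⟩ := h B (by simp)
    refine ⟨K ⊓ ker f, ?_, fun z hz => List.forall_mem_cons.2 ⟨hf z hz.2, h2 z hz.1⟩⟩
    have h3 := Submodule.finrank_sup_add_finrank_inf_eq K (ker f)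
    have h4 := (K ⊔ ker f).finrank_le
    have h5 := f.finrank_range_add_finrank_ker
    have h6 := (range f).finrank_le
    rw [finrank_self] at h6
    rw [List.length_cons]
    omega

open scoped MatrixGroups

/-- The natural action of the special linear group. -/
noncomputable def slHom (n : ℕ) : SL(n, F) →* End F (Fin n → F) where
  toFun B := toLin' B.1
  map_one' := toLin'_one
  map_mul' _ _ := toLin'_mul _ _

theorem covering_upper (hq : 4 ≤ Nat.card F) {n : ℕ} (hn : 3 ≤ n) (x : PSL(n, F)) (hx : x ≠ 1) (g : PSL(n, F)) :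
    ∃ f : Fin n → PSL(n, F), g = (List.ofFn fun i => f i * x * (f i)⁻¹).prod := by
  obtain ⟨A, rfl⟩ := QuotientGroup.mk_surjective x
  obtain ⟨G, rfl⟩ := QuotientGroup.mk_surjective g
  have key : ∀ (B : SL(n, F)) (c : F), slHom n B = c • 1 → (B : PSL(n, F)) = 1 := fun B c h => by
    have h := toLin'_eq_smul_one_iff.1 h
    exact (QuotientGroup.eq_one_iff B).2 (Matrix.SpecialLinearGroup.mem_center_iff.2
      ⟨c, by simpa [h] using B.2, by rw [h, scalar_apply, smul_one_eq_diagonal]⟩)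
  have hd : ∀ B : SL(n, F), LinearMap.det (slHom n B) = 1 := fun B => (det_toLin' _).trans B.2
  obtain ⟨z, hz⟩ := fn_all (V := Fin n → F) hq (by simpa using hn) (fun c h => hx (key A c h)) (hd A)
    (slHom n G) (by simp [hd])
  rw [finrank_fin_fun] at hz
  obtain ⟨f, hf⟩ := hz.induction (p := fun k H => ∃ f : Fin k → SL(n, F),
    slHom n (List.ofFn fun i => f i * A * (f i)⁻¹).prod = H) ⟨fun _ => 1, by simp⟩
    fun k B H ⟨g, h1, h2⟩ ⟨f, hf⟩ => by
      obtain ⟨s, h3⟩ : ∃ s : SL(n, F), slHom n s = g.1 := ⟨⟨toMatrix' g.1, by simp [h1]⟩, toLin'_toMatrix' _⟩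
      have h4 : slHom n s⁻¹ = (g⁻¹).1 := Units.eq_inv_of_mul_eq_one_left (by
        rw [← h3, ← map_mul, mul_inv_cancel, map_one])
      refine ⟨Fin.cons s f, ?_⟩
      simp only [List.ofFn_succ, Fin.cons_zero, Fin.cons_succ, List.prod_cons, map_mul, hf, h3, h4, h2]
  refine ⟨fun i => f i, ?_⟩
  have h1 := key ((List.ofFn fun i => f i * A * (f i)⁻¹).prod * G⁻¹) z (by
    rw [map_mul, hf, smul_mul_assoc, ← map_mul, mul_inv_cancel, map_one])
  rw [QuotientGroup.mk_mul, QuotientGroup.mk_inv, mul_inv_eq_one] at h1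
  rw [← h1, ← QuotientGroup.mk'_apply, map_list_prod, List.map_ofFn]
  rfl

omit [Finite F] in
theorem covering_lower {n : ℕ} (hn : 3 ≤ n) : ∃ x : PSL(n, F), x ≠ 1 ∧ ∃ g : PSL(n, F),
    ∀ f : Fin (n - 1) → PSL(n, F), g ≠ (List.ofFn fun i => f i * x * (f i)⁻¹).prod := by
  classical
  have hij : (⟨0, by omega⟩ : Fin n) ≠ ⟨1, by omega⟩ := by simp
  obtain ⟨c, hc⟩ : ∃ c : F, ∀ z : F, z ≠ 0 → 1 + c * z + (-1) ^ n ≠ 0 := by
    by_cases h : (1 : F) + (-1) ^ n = 0
    · exact ⟨1, fun z hz e => hz (by linear_combination e - h)⟩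
    · exact ⟨0, fun z _ => by simpa using h⟩
  have h1 : (C c * X + C ((-1) ^ n) : F[X]).natDegree < n := (natDegree_linear_le).trans_lt (by omega)
  have h2 : (X ^ n + (C c * X + C ((-1) ^ n)) : F[X]).Monic := monic_X_pow_add (degree_le_natDegree.trans_lt (by exact_mod_cast h1))
  obtain ⟨M, hM⟩ := exists_matrix_blocks (n := Fin n) (μ := {X ^ n + (C c * X + C ((-1) ^ n))}) (by simpa using h2)
    (by simp only [Multiset.map_singleton, Multiset.sum_singleton, Fintype.card_fin]
        rw [natDegree_add_eq_left_of_natDegree_lt] <;> simp only [natDegree_X_pow, h1])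
  have h3 : M.det = 1 := by
    have := hM.det_eq
    simp only [Multiset.map_singleton, Multiset.prod_singleton, coeff_add, coeff_X_pow, coeff_C_zero, mul_coeff_zero,
      coeff_X_zero, det_toLin', finrank_fin_fun, if_neg (show ¬ 0 = n by omega)] at this
    simp [this, ← mul_pow]
  obtain ⟨N, rfl⟩ : ∃ N : SL(n, F), N.1 = M := ⟨⟨M, h3⟩, rfl⟩
  refine ⟨(SpecialLinearGroup.transvection hij (1 : F) : SL(n, F)), fun e => one_ne_zero
    ((SpecialLinearGroup.transvection_mem_center_iff hij (1 : F)).1 ((QuotientGroup.eq_one_iff _).1 e)),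
    N, fun f e => ?_⟩
  choose s hs using fun i => QuotientGroup.mk_surjective (f i)
  set t := SpecialLinearGroup.transvection hij (1 : F)
  have h4 : (List.ofFn fun i => f i * t * (f i)⁻¹).prod = ((List.ofFn fun i => s i * t * (s i)⁻¹).prod : SL(n, F)) := by
    rw [← QuotientGroup.mk'_apply _ (List.prod _), map_list_prod, List.map_ofFn]
    simp only [← hs]
    rfl
  rw [h4, eq_comm, QuotientGroup.eq] at e
  obtain ⟨r, r1, r2⟩ := Matrix.SpecialLinearGroup.mem_center_iff.1 e
  let Φ := slHom (F := F) n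
  obtain ⟨z, z0, hz⟩ := exists_fixed (l := (List.ofFn fun i => s i * t * (s i)⁻¹).map Φ) (by simp; omega)
    (List.forall_mem_map.2 (List.forall_mem_ofFn_iff.2 fun i =>
      ⟨proj (⟨1, by omega⟩ : Fin n) ∘ₗ Φ (s i)⁻¹, fun z hz => by
        have h5 : Φ t (Φ (s i)⁻¹ z) = Φ (s i)⁻¹ z := by
          replace hz : Φ (s i)⁻¹ z ⟨1, by omega⟩ = 0 := hz
          change toLin' (Matrix.transvection _ _ 1) _ = _
          simp [Matrix.transvection, add_mulVec, single_mulVec, hz]
        rw [map_mul, map_mul, End.mul_apply, End.mul_apply, h5, ← End.mul_apply, ← map_mul]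
        simp⟩))
  rw [← map_list_prod] at hz
  have h5 : toLin' N.1 z = r • z := by
    have h6 : Φ ((List.ofFn fun i => s i * t * (s i)⁻¹).prod⁻¹ * N) = r • 1 :=
      toLin'_eq_smul_one_iff.2 (by rw [← r2, scalar_apply, smul_one_eq_diagonal])
    change Φ N z = _
    rw [← mul_inv_cancel_left (List.ofFn fun i => s i * t * (s i)⁻¹).prod N, map_mul, h6]
    simp [hz]
  have h6 := aeval_eigen h5 (X ^ n + (C c * X + C ((-1) ^ n)))
  rw [hM.aeval_eq_zero_iff.2 (by simp), LinearMap.zero_apply, eq_comm, smul_eq_zero, or_iff_left z0] at h6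
  rw [Fintype.card_fin] at r1
  exact hc r (fun e => by simp [e, show n ≠ 0 by omega] at r1) (by simpa [r1, add_assoc] using h6)

end Cfsg.Lib.Lev
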