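import Cfsg.Agent.Lib.Lev.Sour2
import Cfsg.Agent.Lib.Ore.Tail

/-!
# Products of classes in `GL_n`, VII: cyclic elements in the square of a class
-/

set_option autoImplicit false

namespace Cfsg.Lib.Lev

open Module Polynomial LinearMap Cfsg.Lib.GLC Cfsg.Lib.Ore Submodule

universe u

variable {F V : Type u} [Field F] [AddCommGroup V] [Module F V]

/-- Two maps of type `μ` whose product is cyclic with eigenvalues `s`. -/
def Pair (μ : Multiset F[X]) (s : Multiset F) (cf ce : F → Prop) : Prop :=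
  ∃ (U : Type u) (_ : AddCommGroup U) (_ : Module F U) (a₁ a₂ : End F U), Blocks a₁ μ ∧ Blocks a₂ μ ∧
    CT (a₁ * a₂) s ∧ 0 ∉ s ∧ (∀ l, CF a₁ a₂ l → cf l) ∧ ∀ l, CE a₁ a₂ l → ce l

variable {μ ν : Multiset F[X]} {s t : Multiset F} {cf ce cf' ce' : F → Prop} {P φ : F[X]} {A : End F V}

theorem Pair.mono (h : Pair μ s cf ce) (h1 : ∀ l, cf l → cf' l) (h2 : ∀ l, ce l → ce' l) : Pair μ s cf' ce' :=
  let ⟨U, _, _, a₁, a₂, p1, p2, p3, p4, p5, p6⟩ := h
  ⟨U, _, _, a₁, a₂, p1, p2, p3, p4, fun l e => h1 l (p5 l e), fun l e => h2 l (p6 l e)⟩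

theorem Pair.spec (h : Pair μ s cf ce) : Pair μ s (fun l => cf l ∧ l ∈ s) fun l => ce l ∧ l ∈ s :=
  let ⟨U, _, _, a₁, a₂, p1, p2, p3, p4, p5, p6⟩ := h
  ⟨U, _, _, a₁, a₂, p1, p2, p3, p4, fun l e => ⟨p5 l e, p3.of_cf e⟩, fun l e => ⟨p6 l e, p3.of_ce e⟩⟩

theorem Pair.nz (h : Pair μ s cf ce) : 0 ∉ s := let ⟨_, _, _, _, _, _, _, _, p4, _⟩ := h; p4

theorem pair_pc (hP : P.Monic) {x e : F} (hd : P.natDegree = t.card + 2) (hx : x ≠ 0) (ht : 0 ∉ t) (he0 : e ≠ 0)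
    (he : e ≠ x) (he' : e ∉ t) (hdet : x * e * t.prod = P.coeff 0 * P.coeff 0) :
    Pair {P} (x ::ₘ e ::ₘ t) (fun l => l = x ∧ l ∉ t) (· = e) := by
  haveI := hP.finite_adjoinRoot
  obtain ⟨B, h1, h2, h3, h4⟩ := exists_pc (blocks_cyc hP) hP hd ((finrank_adjoinRoot P).trans hd) hx ht he0 he he' hdet
  exact ⟨_, _, _, _, B, blocks_cyc hP, h1, h2, by simp [hx.symm, he0.symm, ht], h3, h4⟩

theorem pair_point {c : F} (hc : c ≠ 0) : Pair {X - C c} {c * c} (· = c * c) (· = c * c) := by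
  have h : CT ((c • 1 : End F F) * (c • 1)) {c * c} := by simpa [smul_smul] using ct_point (c * c)
  exact ⟨F, _, _, c • 1, c • 1, blocks_smul_one c, blocks_smul_one c, h, by simp [hc],
    fun l e => by simpa using h.of_cf e, fun l e => by simpa using h.of_ce e⟩

theorem pair_one : Pair {X - C (1 : F)} {1} (· = 1) (· = 1) := by simpa using pair_point (one_ne_zero (α := F))

theorem pair_zero : Pair (0 : Multiset F[X]) 0 (fun _ => False) fun _ => False := by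
  have h : CT ((1 : End F PUnit.{u + 1}) * 1) 0 := ⟨finrank_zero_of_subsingleton.symm, Subsingleton.elim _ _, fun _ _ _ h => (h rfl).elim⟩
  exact ⟨PUnit, _, _, 1, 1, blocks_zero, blocks_zero, h, by simp, fun l e => by simpa using h.of_cf e,
    fun l e => by simpa using h.of_ce e⟩

theorem eq_of_deg_two (hP : P.Monic) (hd : P.natDegree = 2) : P = X * X + C (P.coeff 1) * X + C (P.coeff 0) := by
  conv_lhs => rw [hP.as_sum, hd]
  simp only [Finset.sum_range_succ, Finset.sum_range_zero]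
  ring

theorem ct_two {c d : F} (hd : d ≠ 0) : CT (tri (c • 1) (d • 1) (c • 1) : End F (F × F)) {c, c} :=
  (ct_point c).tri (ct_point c) fun l u w u' a b e _ f => by
    obtain rfl : c = l := by simpa [a] using b
    simp_all

/-- A pair in dimension two with a double eigenvalue. -/
theorem pair_neg (hP : P.Monic) (hd : P.natDegree = 2) (h0 : P.coeff 0 ≠ 0) (h1 : P.coeff 1 ≠ 0) (h2 : (2 : F) ≠ 0) :
    Pair {P} {-P.coeff 0, -P.coeff 0} (· = -P.coeff 0) (· = -P.coeff 0) := by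
  have e := eq_of_deg_two hP hd
  generalize P.coeff 0 = p at *
  generalize P.coeff 1 = r at *
  let a₁ : End F (F × F) := (-r • .fst F F F - p • .snd F F F : F × F →ₗ[F] F).prod (.fst F F F)
  let a₂ : End F (F × F) := (-p • .snd F F F : F × F →ₗ[F] F).prod (.fst F F F - r • .snd F F F)
  have h : CT (a₁ * a₂) {-p, -p} := by
    convert ct_two (c := -p) (mul_ne_zero h2 (mul_ne_zero h0 h1)) using 1
    ext <;> simp [a₁, a₂]
    ring
  refine ⟨F × F, _, _, a₁, a₂, blocks_of_two (by simp) (fun c e => ?_) hP hd ?_,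
    blocks_of_two (by simp) (fun c e => ?_) hP hd ?_, h, by simp [h0], fun l e => by simpa using h.of_cf e,
    fun l e => by simpa using h.of_ce e⟩
  · simpa [a₁] using LinearMap.congr_fun e (1, 0)
  · rw [e]; ext <;> simp [a₁, Algebra.algebraMap_eq_smul_one] <;> ring
  · simpa [a₂] using LinearMap.congr_fun e (1, 0)
  · rw [e]; ext <;> simp [a₂, Algebra.algebraMap_eq_smul_one] <;> ring

theorem Pair.no_ce (h : Pair {P} s cf ce) (hP : ∀ c, P.eval c ≠ 0) : Pair {P} s cf fun _ => False :=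
  let ⟨U, _, _, a₁, a₂, p1, p2, p3, p4, p5, _⟩ := h
  ⟨U, _, _, a₁, a₂, p1, p2, p3, p4, p5, fun _ ⟨w, y, a, b, _⟩ => hP y (by
    simpa [(p2.aeval_eq_zero_iff (Q := P)).2 (by simp), a] using (aeval_eigen b P).symm)⟩

theorem two_of_model [Module.Finite F V] {U : Type*} [AddCommGroup U] [Module F U] {a₁ a₂ : End F U} (h1 : Sim a₁ A)
    (h2 : Cj a₁ a₂) (h3 : CT (a₁ * a₂) s) : Two A s := by
  obtain ⟨e, rfl⟩ := sim_iff.1 h1
  exact ⟨_, h2.map (e.conjAlgEquiv F : End F U →* End F V) fun f => (sim_conj e f).det_eq.symm,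
    h3.of_sim ((sim_conj e _).trans (.of_eq (map_mul _ _ _)))⟩

theorem Pair.two [Module.Finite F V] (h : Pair μ s cf ce) (hA : Blocks A μ) (hd : detC A = ⊤) : Two A s := by
  obtain ⟨U, _, _, a₁, a₂, p1, p2, p3, -⟩ := h
  haveI := p1.finite
  exact two_of_model (p1.sim hA) (.of_sim (p1.sim p2) ((p1.sim hA).detC_eq.trans hd)) p3

theorem Pair.full [Module.Finite F V] (h : Pair μ s cf ce) (hA : Blocks A μ) (hd : detC A = ⊤) : Full A s :=
  (h.two hA hd).full_good h.nz hd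

variable [Finite F]

theorem Pair.glue (h : Pair μ s cf ce) (h' : Pair ν t cf' ce') (H : ∀ l, cf l → ¬ ce' l) :
    Pair (μ + ν) (s + t) (fun l => cf' l ∨ cf l ∧ l ∉ t) fun _ => True := by
  obtain ⟨U, _, _, a₁, a₂, p1, p2, p3, p4, p5, -⟩ := h
  obtain ⟨W, _, _, b₁, b₂, q1, q2, q3, q4, q5, q6⟩ := h'
  haveI := p1.finite
  haveI := q1.finite
  obtain ⟨n, h1, h2, h3⟩ := Lev.glue p3 q3 p4 (fun l a b => H l (p5 l a) (q6 l b)) 0 0
  rw [tri_zero] at h1 h2 h3
  exact ⟨_, _, _, _, _, p1.prodMap q1, h1.sim.symm.blocks (p2.prodMap q2), h2, by simp [p4, q4],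
    fun l e => (h3 l e).imp (q5 l) (.imp_left (p5 l)), fun _ _ => trivial⟩

theorem pair_start (hq : 4 ≤ Nat.card F) {a : F} (ha : a ≠ 0) (hP : P.Monic) (h0 : P.coeff 0 ≠ 0)
    (h2 : 2 ≤ P.natDegree) (h3 : P.natDegree = 2 → a * a ≠ P.coeff 0 * P.coeff 0) :
    ∃ s, Pair {P} (a ::ₘ s) (· = a) (· ≠ a) := by
  rcases h2.eq_or_lt with h2 | h2
  · have h4 : P.coeff 0 * P.coeff 0 / a ≠ a := fun e => h3 h2.symm ((div_eq_iff ha).1 e).symm
    exact ⟨_, (pair_pc (t := 0) hP h2.symm ha (by simp) (by simp [h0, ha]) h4 (by simp) (by simp [field])).mono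
      (fun _ h => h.1) fun _ h => h ▸ h4⟩
  · obtain ⟨k, hk⟩ := Nat.exists_eq_add_of_lt h2
    obtain ⟨e, e0, e1, e2⟩ := ex_sq hq a (P.coeff 0 * P.coeff 0 / a ^ (k + 1))
    refine ⟨_, (pair_pc (t := (P.coeff 0 * P.coeff 0 / a ^ (k + 1) / e) ::ₘ .replicate k a) hP (by simp [hk]; omega) ha
      (by simp [Multiset.mem_replicate, h0, ha, e0, ha.symm, eq_comm (a := (0 : F))]) e0 e1 ?_ (by simp [field]; ring)).mono
      (fun _ h => h.1) fun _ h => h ▸ e1⟩
    simp only [Multiset.mem_cons, Multiset.mem_replicate, e1, and_false, or_false]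
    exact fun h => e2 ((eq_div_iff e0).1 h)

theorem pair_chain (hq : 4 ≤ Nat.card F) {a : F} (ha : a ≠ 0) (h : ∀ P ∈ μ, P.Monic ∧ P.coeff 0 ≠ 0 ∧
    2 ≤ P.natDegree ∧ (P.natDegree = 2 → a * a ≠ P.coeff 0 * P.coeff 0)) :
    ∃ s, Pair μ s (· = a) (fun _ => True) ∧ (μ ≠ 0 → a ∈ s) := by
  induction μ using Multiset.induction_on with
  | empty => exact ⟨0, pair_zero.mono (by simp) (by simp), by simp⟩
  | cons P μ ih =>
    obtain ⟨s, h1, -⟩ := ih fun Q hQ => h Q (by simp [hQ])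
    obtain ⟨p1, p2, p3, p4⟩ := h P (by simp)
    obtain ⟨t, h2⟩ := pair_start hq ha p1 p2 p3 p4
    refine ⟨s + a ::ₘ t, ?_, fun _ => Multiset.mem_add.2 (.inr (Multiset.mem_cons_self a t))⟩
    rw [← Multiset.singleton_add, add_comm]
    exact (h1.glue h2 fun l a b => b a).mono (fun l h => h.elim _root_.id And.left) fun _ _ => trivial

/-- An irreducible factor split off as a quotient adjusts the determinant. -/
theorem Pair.two_quot (h : Pair (P ::ₘ ν) s cf ce) (h' : Pair {φ} t cf' ce') (hφ : Irreducible φ)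
    (H : ∀ l, cf l → ¬ ce' l) (hA : Blocks A ((P * φ) ::ₘ ν)) : Two A (s + t) := by
  obtain ⟨U, _, _, a₁, a₂, p1, p2, p3, p4, p5, -⟩ := h
  obtain ⟨W, _, _, b₁, b₂, q1, q2, q3, q4, q5, q6⟩ := h'
  haveI := p1.finite
  haveI := q1.finite
  haveI := hA.finite
  obtain ⟨n₁, h1⟩ := exists_tri_blocks p1 q1
  obtain ⟨n₂, h2⟩ := exists_tri_blocks p2 q2
  obtain ⟨g, hg⟩ := exists_unit (h1.sim h2)
  obtain ⟨c, c1, c2⟩ : (Units.map (LinearMap.det : _ →* F) g)⁻¹ ∈ detC b₂ :=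
    (detC_eq_top q2 hφ (by simp)).ge trivial
  obtain ⟨c, rfl⟩ := (isUnit_iff_isUnit_det c).2 (c2 ▸ Units.isUnit _)
  obtain ⟨n, h3, h4, -⟩ := Lev.glue p3 q3 p4 (fun l a b => H l (p5 l a) (q6 l b)) n₁ (n₂ ∘ₗ (c⁻¹).1)
  refine two_of_model (h1.sim hA) (.trans (.of_semi (g := tri (1 : End F U) 0 c.1 * g.1) ?_ ?_) h3) h4
  · rw [map_mul, det_tri, map_one, one_mul, c2]
    exact (Units.map (LinearMap.det : _ →* F) g).inv_mul
  · rw [mul_assoc, ← (Units.mul_inv_eq_iff_eq_mul _).1 hg |>.symm, ← mul_assoc, ← mul_assoc, tri_mul, tri_mul, c1.eq]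
    congr 2
    ext w
    simp [← End.mul_apply]

/-- A Jordan block of size two adjusts the determinant up to squares. -/
theorem Pair.two_jordan (hq : 4 ≤ Nat.card F) (h : Pair μ s cf ce) {α : F} (hα : α ≠ 0) (H : ¬ cf (α * α))
    (hA : Blocks A (μ + {(X - C α) ^ 2})) : Two A (s + {α * α, α * α}) := by
  obtain ⟨U, _, _, a₁, a₂, p1, p2, p3, p4, p5, -⟩ := h
  haveI := p1.finite
  haveI := hA.finite
  have h1 : Blocks (tri (α • 1) (α • 1) (α • 1) : End F (F × F)) {(X - C α) ^ 2} := by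
    simpa [lt, sq] using (ct_two (c := α) hα).blocks
  obtain ⟨g, hg⟩ := exists_unit ((p1.prodMap h1).sim (p2.prodMap h1))
  set d := Units.map (LinearMap.det : _ →* F) g with hd
  obtain ⟨k, k0, -, k1⟩ := ex_sq hq 0 (-d.1)
  have c0 : (d⁻¹).1 * (k * k) ≠ 0 := by simp [k0]
  have h2 : CT ((tri (α • 1) (α • 1) (α • 1) : End F (F × F)) * tri (α • 1) (((d⁻¹).1 * (k * k) * α) • 1) (α • 1))
      {α * α, α * α} := by
    convert ct_two (c := α * α) (d := α * α * (1 + (d⁻¹).1 * (k * k))) (mul_ne_zero (mul_ne_zero hα hα) fun e => k1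
      (by rw [← d.mul_inv_cancel_left (k * k), eq_neg_of_add_eq_zero_right e]; simp)) using 1
    ext <;> simp
    ring
  obtain ⟨n, h3, h4, -⟩ := Lev.glue p3 h2 p4 (fun l a b => H (by
    obtain rfl : l = α * α := by simpa using h2.of_ce b
    exact p5 _ a)) 0 0
  obtain ⟨u, hu⟩ := (isUnit_iff_isUnit_det (tri (1 : End F U) 0 (tri (((d⁻¹).1 * (k * k)) • 1) 0 1 : End F (F × F)))).2
    (by simpa [det_tri] using k0)
  rw [tri_zero] at h4
  refine two_of_model ((p1.prodMap h1).sim hA) (.trans ?_ h3) h4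
  convert Cj.of_det (g := u * g) ?_ using 1
  · rw [eq_comm, Units.mul_inv_eq_iff_eq_mul, Units.val_mul, mul_assoc, (Units.mul_inv_eq_iff_eq_mul _).1 hg,
      ← mul_assoc, ← mul_assoc, hu]
    congr 1
    refine LinearMap.ext fun z => ?_
    simp
    ring
  · convert pow_mem_detC_of_X_sub_C (p1.prodMap h1) (t := α) (e := 2) (by simp) (Units.mk0 k k0) using 1
    ext
    rw [map_mul, ← hd, Units.val_mul, Units.coe_map, hu]
    simp [det_tri, field]

omit [Finite F] in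
theorem Full.exists_mul [Module.Finite F V] (hF : Big F) (h3 : 3 ≤ finrank F V) (h : Full A s) (h0 : 0 ∉ s)
    {G : End F V} (hG : NS G) (hd : LinearMap.det G = LinearMap.det A ^ 4) : ∃ B C, B * C = G ∧ Pw 2 A B ∧
      Pw 2 A C ∧ ((∃ l ∈ s, l ≠ 1) → ∀ z, B z = z → C z = z → z = 0) := by
  obtain ⟨⟨Y, hY⟩, h⟩ := h
  obtain ⟨B, C, h1, h2, h4, h5⟩ := exists_ct_mul hF h3 hG hY.card hY.card h0 h0
    (by rw [hd, ← hY.det, (h Y hY).det]; ring)
  exact ⟨B, C, h1, h B h2, h C h4, h5⟩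

omit [Finite F] in
theorem Full.cov [Module.Finite F V] (hF : Big F) (h3 : 3 ≤ finrank F V) (h : Full A s) (h0 : 0 ∉ s) : Cov 4 A :=
  fun _ hG hd => let ⟨_, _, h1, h2, h4, _⟩ := h.exists_mul hF h3 h0 hG hd; h1 ▸ h2.mul h4

omit [Finite F] in
theorem Full.fn [Module.Finite F V] (hF : Big F) (h3 : 3 ≤ finrank F V) (hA : IsUnit A) (h : Full A s) (h0 : 0 ∉ s)
    {c : F} (hc : c ≠ 0) (hs : s.map (c / ·) = s) : Fn 4 A :=
  (h.cov hF h3 h0).fn' hA (h.scalar h0 hc hs)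

end Cfsg.Lib.Lev
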