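import Cfsg.Agent.Lib.Lev.CT

/-!
# Products of classes in `GL_n`, III: the product of two cyclic classes
-/

set_option autoImplicit false

namespace Cfsg.Lib.Lev

open Module Polynomial LinearMap Cfsg.Lib.GLC Cfsg.Lib.Ore Submodule

variable {F V W U : Type*} [Field F] [AddCommGroup V] [Module F V] [AddCommGroup W] [Module F W]
  [AddCommGroup U] [Module F U]

theorem exists_shift {m : ℕ} (u : Basis (Fin (m + 1)) F V) {P : F[X]} (hP : P.Monic) (hd : P.natDegree = m + 1) :
    ∃ B : End F V, Blocks B {P} ∧ ∀ k : Fin m, B (u k.castSucc) = u k.succ := by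
  let b := (AdjoinRoot.powerBasis' hP).basis.reindex (finCongr hd)
  have hb : ∀ i, b i = AdjoinRoot.root P ^ (i : ℕ) := fun i => by simp [b]; rfl
  let e := b.equiv u (Equiv.refl _)
  have he : ∀ i, e.symm (u i) = b i := fun i => by simp [e]
  refine ⟨e.conjAlgEquiv F (cyc P), (sim_conj e _).symm.blocks (blocks_cyc hP), fun k => ?_⟩
  have : cyc P (b k.castSucc) = b k.succ := by simp [hb, cyc, pow_succ']
  simp [LinearEquiv.conjAlgEquiv_apply, he, this, e]

theorem shift_eigen {m : ℕ} {u : Basis (Fin (m + 1)) F V} {B : End F V} (h : ∀ k : Fin m, B (u k.castSucc) = u k.succ)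
    {w : V} {y : F} (h1 : u.coord (.last m) w = 0) (h2 : B w = y • w) : w = 0 := by
  refine u.forall_coord_eq_zero_iff.1 fun i => ?_
  induction i using Fin.reverseInduction with
  | last => exact h1
  | cast k ih =>
    have : u.coord k.succ ∘ₗ B = u.coord k.castSucc + u.coord k.succ (B (u (.last m))) • u.coord (.last m) :=
      u.ext fun j => by
        induction j using Fin.lastCases with
        | last => simp [Finsupp.single_apply, k.castSucc_ne_last.symm]
        | cast j => simp [h, Finsupp.single_apply, j.castSucc_ne_last]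
    have h3 := LinearMap.congr_fun this w
    simp only [comp_apply, h2, map_smul, ih, LinearMap.add_apply, LinearMap.smul_apply, h1, smul_zero, add_zero] at h3
    exact h3.symm

theorem exists_cyc {A : End F V} {P : F[X]} (h : Blocks A {P}) : ∃ v, Cyc A v := by
  obtain ⟨e, he⟩ := (blocks_cyc (h.monic P (by simp))).sim h
  refine ⟨e 1, fun U h1 h2 => ?_⟩
  have := cyc_one P (U.comap e.toLinearMap) h1 fun w hw => by simpa [he] using h2 _ hw
  exact eq_top_iff.2 fun z _ => by simpa using this.ge (mem_top (x := e.symm z))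

theorem cyc_inv [Module.Finite F V] {A M : End F V} {v : V} (h : Cyc A v) {c : F} (hc : c ≠ 0)
    (hM : A * M = c • 1) : Cyc M v := fun U h1 h2 => h U h1 fun w hw => by
  have h3 : ∀ z, A (M z) = c • z := LinearMap.congr_fun hM
  have h4 : Function.Injective (M.restrict h2) := ker_eq_bot.1 (ker_eq_bot'.2 fun z hz => Subtype.ext (by
    have : M z = 0 := congrArg Subtype.val hz
    simpa [this, hc] using (h3 z).symm))
  obtain ⟨u, hu⟩ := injective_iff_surjective.1 h4 ⟨w, hw⟩
  rw [← show M u = w from congrArg Subtype.val hu, h3]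
  exact smul_mem _ _ u.2

theorem blocks_inv_cyc [Module.Finite F V] {A M : End F V} {P : F[X]} (h : Blocks A {P}) {c : F} (hc : c ≠ 0)
    (hM : A * M = c • 1) : Blocks M {M.charpoly} :=
  let ⟨_, hv⟩ := exists_cyc h
  blocks_of_forall_invariant (cyc_inv hv hc hM)

/-- A common eigenfunctional. -/
def CF (a₁ a₂ : End F V) (μ : F) : Prop :=
  ∃ (ψ : V →ₗ[F] F) (x : F), ψ ≠ 0 ∧ (∀ u, ψ (a₁ u) = x * ψ u) ∧ ∀ u, ψ (a₁ (a₂ u)) = μ * ψ u

/-- A common eigenvector. -/
def CE (a₁ a₂ : End F V) (μ : F) : Prop :=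
  ∃ (w : V) (y : F), w ≠ 0 ∧ a₂ w = y • w ∧ a₁ (a₂ w) = μ • w

theorem CT.of_cf {a₁ a₂ : End F V} {s : Multiset F} {μ : F} (h : CT (a₁ * a₂) s) (h1 : CF a₁ a₂ μ) : μ ∈ s :=
  let ⟨_, _, h2, _, h3⟩ := h1; h.mem' h2 h3

theorem CT.of_ce {a₁ a₂ : End F V} {s : Multiset F} {μ : F} (h : CT (a₁ * a₂) s) (h1 : CE a₁ a₂ μ) : μ ∈ s :=
  let ⟨_, _, h2, _, h3⟩ := h1; h.mem h2 h3

/-- The vectors of the bidiagonal basis. -/
def pcSeq (M : End F V) (x : ℕ → F) (v : V) : ℕ → V
  | 0 => 0
  | 1 => v
  | k + 2 => M (x k • pcSeq M x v (k + 1) + pcSeq M x v k)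

theorem pcSeq_span [Module.Finite F V] [Nontrivial V] {M : End F V} {x : ℕ → F} {v : V} (hv : Cyc M v)
    (hx : ∀ k, x k ≠ 0) {d : ℕ} (hd : d = finrank F V) :
    ⊤ ≤ span F (Set.range fun i : Fin d => pcSeq M x v (i + 1)) := by
  let S : ℕ → Submodule F V := fun k => span F (pcSeq M x v '' Set.Iic k)
  have h1 : ∀ {j k}, j ≤ k → pcSeq M x v j ∈ S k := fun h => subset_span ⟨_, h, rfl⟩
  have h2 : ∀ {j k}, j ≤ k → S j ≤ S k := fun h => span_mono (Set.image_mono (Set.Iic_subset_Iic.2 h))
  have h3 : ∀ j, M (pcSeq M x v j) ∈ S (j + 1) := fun j => by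
    induction j with
    | zero => simp [pcSeq]
    | succ j ih =>
      have : M (pcSeq M x v (j + 1)) = (x j)⁻¹ • (pcSeq M x v (j + 2) - M (pcSeq M x v j)) := by
        simp [pcSeq, hx]
      exact this ▸ smul_mem _ _ (sub_mem (h1 le_rfl) (h2 (by omega) ih))
  have h4 : ∀ j, (M ^ j) v ∈ S (j + 1) := fun j => by
    induction j with
    | zero => exact h1 (j := 1) le_rfl
    | succ j ih =>
      rw [pow_succ', End.mul_apply]
      exact (Submodule.map_span_le M _ _).2 (by rintro _ ⟨i, hi, rfl⟩; exact h2 (by simpa using hi) (h3 i))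
        ⟨_, ih, rfl⟩
  intro w _
  obtain ⟨Q, rfl⟩ := hv.exists_aeval w
  have h5 : (Q %ₘ M.charpoly).natDegree < d := hd ▸ M.charpoly_natDegree ▸ natDegree_modByMonic_lt Q M.charpoly_monic
    fun e => by simpa [e, finrank_pos.ne] using M.charpoly_natDegree
  rw [LinearMap.aeval_eq_aeval_mod_charpoly, aeval_eq_sum_range' h5, LinearMap.sum_apply]
  refine (span_le.2 ?_ : S d ≤ _) (sum_mem fun i hi => smul_mem _ _ (h2 (by simpa using hi) (h4 i)))
  rintro _ ⟨_ | i, hi, rfl⟩
  · exact zero_mem _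
  · exact subset_span ⟨⟨i, hi⟩, rfl⟩

theorem exists_range_map (t : Multiset F) :
    ∃ y : ℕ → F, (Multiset.range t.card).map y = t ∧ ∀ k, y k ∈ t ∨ y k = 1 := by
  induction t using Multiset.induction_on with
  | empty => exact ⟨fun _ => 1, by simp⟩
  | cons a t ih =>
    obtain ⟨y, h1, h2⟩ := ih
    refine ⟨Function.update y t.card a, ?_, fun k => ?_⟩
    · rw [Multiset.card_cons, Multiset.range_succ, Multiset.map_cons, Function.update_self,
        Multiset.map_congr rfl fun k hk => Function.update_of_ne (Multiset.mem_range.1 hk).ne _ _, h1]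
    · by_cases hk : k = t.card
      · simp [hk]
      · rw [Function.update_of_ne hk]
        exact (h2 k).imp_left Multiset.mem_cons_of_mem

/-- The product of two cyclic classes contains the cyclic maps with prescribed eigenvalues. -/
theorem exists_pc [Module.Finite F V] {A : End F V} {P Q : F[X]} (h1 : Blocks A {P}) (hQ : Q.Monic)
    {x e : F} {t : Multiset F} (hd : Q.natDegree = t.card + 2) (hV : finrank F V = t.card + 2) (hx : x ≠ 0)
    (ht : (0 : F) ∉ t) (he0 : e ≠ 0) (he : e ≠ x) (he' : e ∉ t) (hdet : x * e * t.prod = P.coeff 0 * Q.coeff 0) :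
    ∃ B : End F V, Blocks B {Q} ∧ CT (A * B) (x ::ₘ e ::ₘ t) ∧ (∀ μ, CF A B μ → μ = x ∧ μ ∉ t) ∧
      ∀ μ, CE A B μ → μ = e := by
  have h0 : x * t.prod ≠ 0 := mul_ne_zero hx (Multiset.prod_ne_zero ht)
  obtain ⟨A', rfl⟩ : IsUnit A := h1.isUnit_iff.2 fun R hR => Multiset.mem_singleton.1 hR ▸
    left_ne_zero_of_mul (hdet ▸ mul_right_comm x e _ ▸ mul_ne_zero h0 he0)
  obtain ⟨v, hv⟩ := exists_cyc h1
  replace hv := cyc_inv hv one_ne_zero (A'.mul_inv.trans (one_smul _ _).symm)
  obtain ⟨y, hy, hy'⟩ := exists_range_map t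
  haveI : Nontrivial V := nontrivial_of_finrank_pos (R := F) (by omega)
  let z : ℕ → F := fun k => Nat.casesOn k x y
  have hz : ∀ k, z k ≠ 0 := fun k => by
    cases k with
    | zero => exact hx
    | succ k => exact fun e => (hy' k).elim (fun h => ht ((show y k = 0 from e) ▸ h :)) fun h => one_ne_zero (h.symm.trans e)
  generalize hm : t.card = m at hd hV hy
  have hz1 : ∀ μ, μ ∈ x ::ₘ t ↔ ∃ k ≤ m, z k = μ := fun μ => by
    rw [Multiset.mem_cons, ← hy, Multiset.mem_map]
    exact ⟨fun h => h.elim (fun h => ⟨0, m.zero_le, h.symm⟩) fun ⟨k, a, b⟩ => ⟨k + 1, Multiset.mem_range.1 a, b⟩,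
      fun ⟨k, a, b⟩ => by
        cases k with
        | zero => exact .inl b.symm
        | succ k => exact .inr ⟨k, Multiset.mem_range.2 a, b⟩⟩
  have hz2 : ∀ {M : Type _} [CommMonoid M] (f : F → M), ∏ k ∈ .range (m + 1), f (z k) = ((x ::ₘ t).map f).prod :=
    fun f => by rw [Finset.prod_range_succ', ← hy, Multiset.map_cons, Multiset.prod_cons, mul_comm, Multiset.map_map]; rfl
  set u := pcSeq (A'⁻¹).1 z v with hu
  let b := basisOfTopLeSpanOfCardEqFinrank _ (pcSeq_span hv hz hV.symm) (by simp [hV])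
  have hb : ∀ i, b i = u (i + 1) := fun i => by simp [b, hu]
  have hc : ∀ (i : Fin (m + 2)) j, j ≤ m + 2 → b.coord i (u j) = if i + 1 = j then 1 else 0 := fun i j hj => by
    cases j with
    | zero => simp [hu, pcSeq]
    | succ j => rw [← hb ⟨j, hj⟩]; simp [Finsupp.single_apply, Fin.ext_iff, eq_comm]
  obtain ⟨B, hB, hs⟩ := exists_shift b hQ hd
  have h2 : ∀ k ≤ m, B (u (k + 1)) = u (k + 2) := fun k hk => by
    simpa [hb] using hs ⟨k, by omega⟩
  set Y := A'.1 * B with hY
  have h3 : ∀ k ≤ m, Y (u (k + 1)) = z k • u (k + 1) + u k := fun k hk => by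
    rw [hY, End.mul_apply, h2 k hk, hu, pcSeq, ← End.mul_apply, A'.mul_inv, End.one_apply]
  have h4 : b.coord (.last _) (Y (b (.last _))) = e := by
    have h5 : LinearMap.det Y = x * e * t.prod := by
      rw [hY, map_mul, h1.det_eq, hB.det_eq, hdet, mul_mul_mul_comm, ← mul_pow]; simp
    rw [← det_toMatrix b, Matrix.det_of_isUpperTriangular (fun i j hij => by
      have : (j : ℕ) < i := hij
      rw [toMatrix_apply, hb, h3 j (by omega), ← b.coord_apply, map_add, map_smul, hc _ _ (by omega),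
        hc _ _ (by omega), if_neg (by omega), if_neg (by omega)]; simp), Fin.prod_univ_castSucc,
      Finset.prod_congr rfl (g := fun i : Fin (m + 1) => z i) fun i _ => by
        rw [toMatrix_apply, hb, Fin.val_castSucc, h3 i (by omega), ← b.coord_apply, map_add, map_smul,
          hc _ _ (by omega), hc _ _ (by omega)]; simp,
      Fin.prod_univ_eq_prod_range z, hz2 fun a => a, toMatrix_apply] at h5
    refine mul_left_cancel₀ h0 ?_
    simpa [mul_right_comm x e] using h5
  have ext' : ∀ p : V → Prop, (∀ k ≤ m, p (u (k + 1))) → p (b (.last _)) → ∀ j, p (b j) := fun p a c j => by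
    induction j using Fin.lastCases with
    | last => exact c
    | cast j => exact hb _ ▸ a j (by omega)
  have ext : ∀ {f g : V →ₗ[F] F}, (∀ k ≤ m, f (u (k + 1)) = g (u (k + 1))) →
      f (b (.last _)) = g (b (.last _)) → f = g := fun {f g} a c => b.ext (ext' (fun w => f w = g w) a c)
  have h5 : ∀ w, b.coord (.last _) (Y w) = e * b.coord (.last _) w := LinearMap.congr_fun
    (ext (f := b.coord (.last _) ∘ₗ Y) (g := e • b.coord (.last _)) (fun k hk => by
      simp only [comp_apply, h3 k hk, map_add, map_smul, LinearMap.smul_apply]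
      rw [hc _ _ (by omega), hc _ _ (by omega), if_neg (by simp; omega), if_neg (by simp; omega)]; simp)
      (by simpa using h4))
  have h6 : ∀ w μ, Y w = μ • w → b.coord (.last _) w = 0 → ∀ k (hk : k < m + 2),
      b.coord ⟨k, hk⟩ w = (∏ i ∈ .range k, (μ - z i)) * b.coord 0 w := fun w μ e1 e2 k => by
    induction k with
    | zero => simp
    | succ k ih =>
      intro hk
      have := LinearMap.congr_fun (ext (f := b.coord ⟨k, by omega⟩ ∘ₗ Y)
        (g := z k • b.coord ⟨k, by omega⟩ + b.coord ⟨k + 1, hk⟩ + (b.coord ⟨k, by omega⟩ (Y (b (.last _))) -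
          b.coord ⟨k + 1, hk⟩ (b (.last _))) • b.coord (.last _)) (fun j hj => by
        simp only [comp_apply, h3 j hj, map_add, map_smul, LinearMap.smul_apply, LinearMap.add_apply]
        rw [hc _ _ (by omega), hc _ _ (by omega), hc _ _ (by omega), hc _ _ (by omega),
          if_neg (c := (Fin.last (m + 1) : ℕ) + 1 = j + 1) (by simp; omega)]
        by_cases h : k = j <;> simp [h]) (by
        have : Fin.last (m + 1) ≠ ⟨k, by omega⟩ := fun h => by simp [Fin.ext_iff] at h; omega
        simp [Finsupp.single_apply, this])) w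
      simp only [comp_apply, e1, map_smul, LinearMap.smul_apply, LinearMap.add_apply, e2, ih (by omega),
        smul_eq_mul] at this
      rw [Finset.prod_range_succ]
      linear_combination -this
  have h7 : ∀ w μ, Y w = μ • w → b.coord (.last _) w = 0 → b.coord 0 w = 0 → w = 0 := fun w μ e1 e2 e3 =>
    b.forall_coord_eq_zero_iff.1 fun i => (h6 w μ e1 e2 i i.2).trans (by rw [e3, mul_zero])
  have h8 : ∀ w μ, Y w = μ • w → μ ≠ e → b.coord (.last _) w = 0 := fun w μ e1 e2 => by
    have := h5 w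
    rw [e1, map_smul, smul_eq_mul, ← sub_eq_zero, ← sub_mul] at this
    exact (mul_eq_zero.1 this).resolve_left (sub_ne_zero.2 e2)
  refine ⟨B, hB, ⟨by simp [hV, hm], ?_, fun μ w w' hw e1 e2 => ?_⟩, ?_, ?_⟩
  · have h9 : ∀ j ≤ m + 1, aeval Y (∏ k ∈ .range j, (X - C (z k))) (u j) = 0 := fun j => by
      induction j with
      | zero => simp [hu, pcSeq]
      | succ j ih =>
        intro hj
        rw [Finset.prod_range_succ, map_mul, End.mul_apply, aeval_X_sub, h3 j (by omega), add_sub_cancel_left,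
          ih (by omega)]
    have h10 : aeval Y (lt (x ::ₘ t)).prod =
        (b.coord (.last _)).smulRight (aeval Y (lt (x ::ₘ t)).prod (b (.last _))) := b.ext <| ext'
      (fun w => _ = LinearMap.smulRight _ _ w) (fun k hk => by
        rw [smulRight_apply, hc _ _ (by omega), if_neg (by simp; omega), zero_smul, lt, ← hz2,
          ← Finset.prod_range_mul_prod_Ico _ (show k + 1 ≤ m + 1 by omega), mul_comm, map_mul, End.mul_apply,
          h9 _ (by omega), map_zero]) (by simp)
    ext w
    rw [Multiset.cons_swap, lt_prod_cons, mul_comm, map_mul, End.mul_apply, h10, aeval_X_sub, smulRight_apply,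
      map_sub, h5]
    simp
  · have key : ∀ f : V →ₗ[F] F, (∀ w, Y w = μ • w → f w = 0 → w = 0) → ∃ c : F, w' = c • w := fun f hf =>
      ⟨f w' / f w, sub_eq_zero.1 (hf _ (by rw [map_sub, map_smul, e1, e2]; module)
        (by simp [mt (hf w e1) hw]))⟩
    by_cases hμ : μ = e
    · refine key (b.coord (.last _)) fun w e1 e2 => h7 w μ e1 e2 ?_
      have := h6 w μ e1 e2 (m + 1) (by omega)
      rw [show (⟨m + 1, _⟩ : Fin (m + 2)) = .last _ from rfl, e2] at this
      refine (mul_eq_zero.1 this.symm).resolve_left (Finset.prod_ne_zero_iff.2 fun i hi h => ?_)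
      have := (hz1 e).2 ⟨i, by simp at hi; omega, by rw [← hμ, sub_eq_zero.1 h]⟩
      simp [he, he'] at this
    · exact key (b.coord 0) fun w e1 => h7 w μ e1 (h8 w μ e1 hμ)
  · rintro μ ⟨ψ, x', p1, p2, p3⟩
    have p4 : x' ≠ 0 := fun h => p1 (LinearMap.ext fun w => by
      simpa [h, ← End.mul_apply] using p2 ((A'⁻¹).1 w))
    have p5 : ∀ k ≤ m + 1, ψ (u (k + 1)) = (μ / x') ^ k * ψ (u 1) := fun k => by
      induction k with
      | zero => simp
      | succ k ih =>
        intro hk
        have := p3 (u (k + 1))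
        rw [p2, h2 k (by omega), ih (by omega)] at this
        rw [pow_succ]
        field_simp
        linear_combination this
    have p6 : ψ (u 1) ≠ 0 := fun h => p1 (b.ext fun i => by rw [hb, p5 i (by omega), h]; simp)
    have p7 : ∀ k ≤ m, z k * ψ (u (k + 1)) + ψ (u k) = μ * ψ (u (k + 1)) := fun k hk => by
      rw [← p3, ← End.mul_apply, ← hY, h3 k hk]; simp
    have p8 : μ = x := mul_right_cancel₀ p6 (by simpa [hu, pcSeq, z] using (p7 0 m.zero_le).symm)
    refine ⟨p8, fun h => ?_⟩
    obtain ⟨k, a, c⟩ := Multiset.mem_map.1 (hy ▸ h)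
    have := p7 (k + 1) (Multiset.mem_range.1 a)
    rw [show z (k + 1) = μ from c, add_eq_left, p5 k (by simp at a; omega)] at this
    exact mul_ne_zero (pow_ne_zero _ (div_ne_zero (p8 ▸ hx) p4)) p6 this
  · rintro μ ⟨w, y', p1, p2, p3⟩
    exact by_contra fun h => p1 (shift_eigen hs (h8 w μ p3 h) p2)

end Cfsg.Lib.Lev
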