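import Cfsg.Agent.Lib.Lev.Pair

/-!
# Products of classes in `GL_n`, VIII: peeling off fixed lines
-/

set_option autoImplicit false

namespace Cfsg.Lib.Lev

open Module Polynomial LinearMap Cfsg.Lib.GLC Cfsg.Lib.Ore Submodule

universe u

variable {F V W : Type u} [Field F] [AddCommGroup V] [Module F V] [AddCommGroup W] [Module F W]

/-- A product of `k` maps of type `μ`. -/
def PwB (k : ℕ) (μ : Multiset F[X]) (G : End F V) : Prop :=
  ∃ l : List (End F V), l.length = k ∧ (∀ B ∈ l, Blocks B μ) ∧ l.prod = G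

variable {μ : Multiset F[X]} {k j : ℕ} {A B G : End F V} {P : F[X]} {s : Multiset F}

theorem PwB.cons (h : Blocks B μ) (h' : PwB k μ G) : PwB (k + 1) μ (B * G) :=
  let ⟨l, h1, h2, h3⟩ := h'; ⟨B :: l, by simp [h1], by simpa [h] using h2, by simp [h3]⟩

theorem PwB.one (h : Blocks B μ) : PwB 1 μ B := ⟨[B], rfl, by simpa, by simp⟩

theorem PwB.pw [Module.Finite F V] (h : PwB k μ G) (hA : Blocks A μ) (hd : detC A = ⊤) : Pw k A G :=
  let ⟨l, h1, h2, h3⟩ := h; ⟨l, h1, fun B hB => .of_sim (hA.sim (h2 B hB)) hd, h3⟩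

/-- The determinant of a type. -/
noncomputable def dt (μ : Multiset F[X]) : F := (-1) ^ (μ.map natDegree).sum * (μ.map (coeff · 0)).prod

theorem det_eq_dt (h : Blocks A μ) : LinearMap.det A = dt μ := by rw [h.det_eq, h.finrank_eq, dt]

theorem dt_cons (μ : Multiset F[X]) : dt ((X - C 1) ::ₘ μ) = dt μ := by
  simp only [dt, Multiset.map_cons, Multiset.sum_cons, Multiset.prod_cons, natDegree_X_sub_C, pow_add]
  simp

theorem prod_fix {l : List (End F V)} {z : V} (h : ∀ B ∈ l, B z = z) : l.prod z = z := by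
  induction l with
  | nil => rfl
  | cons B l ih => rw [List.prod_cons, End.mul_apply, ih fun D hD => h D (by simp [hD]), h B (by simp)]

variable [Module.Finite F V] {π : V →ₗ[F] W} {σ : W →ₗ[F] V}

theorem blocks_lift (hσ : ∀ w, π (σ w) = w) (hj : finrank F V = finrank F W + j) {B : End F W} (hB : Blocks B μ) :
    Blocks (1 + σ ∘ₗ (B - 1) ∘ₗ π : End F V) (μ + .replicate j (X - C 1)) := by
  have h1 := π.finrank_range_add_finrank_ker
  rw [range_eq_top.2 fun w => ⟨_, hσ w⟩, finrank_top] at h1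
  have h2 := blocks_scalar (V := ker π) (1 : F)
  rw [show finrank F (ker π) = j by omega, one_smul] at h2
  have h0 : ∀ z : ker π, π z = 0 := fun z => z.2
  refine Sim.blocks (Sim.symm ⟨.ofBijective (σ.coprod (ker π).subtype) ⟨ker_eq_bot.1 (ker_eq_bot'.2 fun x hx => ?_),
    fun z => ⟨(π z, ⟨z - σ (π z), by simp [hσ]⟩), by simp⟩⟩, fun x => ?_⟩) (hB.prodMap h2)
  · have h3 : x.1 = 0 := by simpa [hσ, h0] using congrArg π hx
    exact Prod.ext h3 (by simpa [h3] using hx)
  · change (σ.coprod (ker π).subtype) _ = (1 + σ ∘ₗ (B - 1) ∘ₗ π : End F V) ((σ.coprod (ker π).subtype) x)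
    simp [hσ, h0]
    abel

theorem lift_list (hπ : Function.Surjective π) (hj : finrank F V = finrank F W + j) (h0 : ∀ P ∈ μ, P.coeff 0 ≠ 0)
    (l : List (End F W)) (hl : ∀ B ∈ l, Blocks B μ) (H : End F V) (h1 : ∀ z, π (H z) = l.prod (π z))
    (h2 : ∀ z, (∀ B ∈ l, B (π z) = π z) → H z = z) : PwB l.length (μ + .replicate j (X - C 1)) H := by
  induction l generalizing H with
  | nil => exact ⟨[], rfl, by simp, LinearMap.ext fun z => (h2 z (by simp)).symm⟩
  | cons B l ih =>
    obtain ⟨σ₀, hσ⟩ := π.exists_rightInverse_of_surjective (range_eq_top.2 hπ)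
    replace hσ : ∀ w, π (σ₀ w) = w := LinearMap.congr_fun hσ
    let E : Submodule F V := ⨅ D ∈ l, ker ((D - 1) ∘ₗ π)
    have hE : ∀ z, z ∈ E ↔ ∀ D ∈ l, D (π z) = π z := fun z => by simp [E, sub_eq_zero]
    obtain ⟨Z, hZ⟩ := exists_factor ((B - 1) ∘ₗ π ∘ₗ E.subtype) ((H - 1) ∘ₗ E.subtype) fun z hz => by
      have h3 : B (π z) = π z := by simpa [sub_eq_zero] using hz
      simp [h2 z (List.forall_mem_cons.2 ⟨h3, (hE z).1 z.2⟩)]
    have h3 : ∀ w, π ((σ₀ + Z - σ₀ ∘ₗ π ∘ₗ Z) w) = w := fun w => by simp [hσ]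
    have h4 := blocks_lift h3 hj (hl B (by simp))
    obtain ⟨D, hD⟩ := h4.isUnit_iff.2 fun P hP => (Multiset.mem_add.1 hP).elim (h0 P) fun h => by
      simp [Multiset.eq_of_mem_replicate h]
    have h5 : ∀ z, π (D.1 z) = B (π z) := fun z => by simp [hD, hσ]
    have h6 : ∀ z, D.1 ((D⁻¹).1 z) = z := LinearMap.congr_fun D.mul_inv
    rw [← D.mul_inv_cancel_left H]
    refine .cons (hD ▸ h4) (ih (fun D hD => hl D (by simp [hD])) _ (fun z => ?_) fun z hz => ?_)
    · refine ((End.isUnit_iff _).1 ((hl B (by simp)).isUnit_iff.2 h0)).1 ?_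
      rw [← h5, End.mul_apply, h6, h1, List.prod_cons, End.mul_apply]
    · refine ((End.isUnit_iff _).1 D.isUnit).1 ?_
      have : Z (B (π z) - π z) = H z - z := hZ ⟨z, (hE z).2 hz⟩
      rw [End.mul_apply, h6, hD]
      simp [-map_sub, this, map_sub π, h1, prod_fix hz]

/-- The covering property in dimension `deg μ`, for all extensions by fixed vectors. -/
def Lift (k : ℕ) (μ : Multiset F[X]) : Prop :=
  ∀ (V W : Type u) [AddCommGroup V] [Module F V] [AddCommGroup W] [Module F W] [Module.Finite F V] (π : V →ₗ[F] W)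
    (H : End F V) (G : End F W) (j : ℕ), Function.Surjective π → finrank F W = (μ.map natDegree).sum →
    finrank F V = finrank F W + j → (∀ z, π (H z) = G (π z)) → (∀ z, π z = 0 → H z = z) → NS G →
    LinearMap.det G = dt μ ^ k → PwB k (μ + .replicate j (X - C 1)) H

theorem Lift.cov (h : Lift k μ) (hA : Blocks A μ) (hd : detC A = ⊤) : Cov k A := fun G h1 h2 => by
  have := h V V LinearMap.id G G 0 Function.surjective_id hA.finrank_eq rfl (fun _ => rfl)
    (fun z hz => by simp_all) h1 (det_eq_dt hA ▸ h2)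
  exact PwB.pw (by simpa using this) hA hd

theorem exists_blocks_map (hμ : ∀ P ∈ μ, P.Monic) (hP : P ∈ μ) (h2 : 2 ≤ P.natDegree)
    (hV : finrank F V = (μ.map natDegree).sum) {u v : V} (h : I2 F u v) : ∃ B : End F V, Blocks B μ ∧ B u = v := by
  obtain ⟨A, hA⟩ := exists_blocks_of_finrank hμ hV.symm
  obtain ⟨z, hz⟩ := exists_not_eigen (ns_of_blocks hA hP h2)
  obtain ⟨e, h1, h3⟩ := (i2_of_ne hz).equiv rfl h
  obtain ⟨B, hB⟩ := exists_conj e A
  exact ⟨B, (Sim.symm ⟨e, hB⟩).blocks hA, by rw [← h1, ← hB, h3]⟩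

theorem exists_ns_quot (h3 : 3 ≤ finrank F V) (hA : IsUnit A) (hG : IsUnit G) {v : V} (hv : ∀ c : F, G v ≠ c • v)
    (h : A v = G v) : ∃ B, Sim A B ∧ B v = G v ∧ ∀ c : F, ¬ ∀ z, ∃ t : F, G z - c • B z = t • G v := by
  by_contra hc
  push Not at hc
  obtain ⟨f, f0, f1, f2⟩ := exists_ann h3 v (A v)
  obtain ⟨B, h1, h2⟩ := exists_cj_tv f1 f2
  obtain ⟨c, h4⟩ := hc A (.refl A) h
  obtain ⟨d, h5⟩ := hc B h1.sim (by rw [h2, f1, f2, h]; simp)
  obtain ⟨u, hu⟩ := exists_eq_one f0
  obtain ⟨z, rfl⟩ := ((End.isUnit_iff _).1 hA).2 u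
  obtain ⟨a, ha⟩ := h4 z
  obtain ⟨b, hb⟩ := h5 z
  rw [h2, hu, h] at hb
  rw [h] at f2
  have h6 : (d - c) • A z + d • v + (b - a - d * f z) • G v = 0 := by linear_combination (norm := module) ha - hb
  have h7 : d - c = 0 := by simpa [hu, f1, f2] using congrArg f h6
  have h8 : d = 0 := (i2_of_ne hv d _ (by simpa [h7] using h6)).1
  obtain ⟨y, hy⟩ := ((End.isUnit_iff _).1 hG).2 v
  obtain ⟨t, ht⟩ := h5 y
  exact one_ne_zero (i2_of_ne hv 1 (-t) (by rw [h8, hy] at ht; linear_combination (norm := module) ht)).1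

omit [Module.Finite F V] in
theorem Lift.succ (h : Lift k μ) (hμ : ∀ P ∈ μ, P.Monic ∧ P.coeff 0 ≠ 0) (hP : P ∈ μ) (h2 : 2 ≤ P.natDegree) :
    Lift (k + 1) ((X - C 1) ::ₘ μ) := by
  intro V W _ _ _ _ _ π H G j hπ h3 h4 h5 h6 h7 h8
  haveI : Module.Finite F W := .of_surjective π hπ
  have h9 : (μ.map natDegree).sum + 1 = finrank F W := by simp [h3, add_comm, natDegree_X_sub_C, -map_one]
  have h10 := Multiset.single_le_sum (s := μ.map natDegree) (by simp) _ (Multiset.mem_map_of_mem _ hP)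
  obtain ⟨v, hv⟩ := exists_not_eigen h7
  have m0 : ∀ P ∈ (X - C 1) ::ₘ μ, P.Monic ∧ P.coeff 0 ≠ 0 :=
    Multiset.forall_mem_cons.2 ⟨⟨monic_X_sub_C 1, by simp⟩, hμ⟩
  obtain ⟨A, a1, a2⟩ := exists_blocks_map (fun P hP => (m0 P hP).1) (Multiset.mem_cons_of_mem hP) h2 h3 (i2_of_ne hv)
  have a3 := a1.isUnit_iff.2 fun P hP => (m0 P hP).2
  obtain ⟨B, b1, b2, b3⟩ := exists_ns_quot (by omega) a3 ((isUnit_iff_isUnit_det G).2
    (h8 ▸ det_eq_dt a1 ▸ ((isUnit_iff_isUnit_det A).1 a3).pow _)) hv a2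
  replace b1 := b1.symm.blocks a1
  obtain ⟨B, rfl⟩ := b1.isUnit_iff.2 fun P hP => (m0 P hP).2
  obtain ⟨v, rfl⟩ := hπ v
  obtain ⟨σ₀, hσ⟩ := π.exists_rightInverse_of_surjective (range_eq_top.2 hπ)
  replace hσ : ∀ w, π (σ₀ w) = w := LinearMap.congr_fun hσ
  obtain ⟨f, hf⟩ := exists_map_one (F := F) (sub_ne_zero.2 (by simpa using hv 1 : G (π v) ≠ π v)) (1 : F)
  have c1 : ∀ w, π ((σ₀ + f.smulRight (H v - v - σ₀ (G (π v) - π v))) w) = w := fun w => by
    simp [-map_sub, map_sub π, hσ, h5]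
  have c2 := blocks_lift c1 h4 b1
  obtain ⟨D, hD⟩ := c2.isUnit_iff.2 fun P hP => (Multiset.mem_add.1 hP).elim (fun h => (m0 P h).2) fun h => by
    simp [Multiset.eq_of_mem_replicate h]
  have d1 : ∀ z, π (D.1 z) = B.1 (π z) := fun z => by
    rw [hD, LinearMap.add_apply, map_add, comp_apply, c1]; simp
  have d2 : ∀ z, D.1 ((D⁻¹).1 z) = z := LinearMap.congr_fun D.mul_inv
  have d3 : ∀ z, B.1 ((B⁻¹).1 z) = z := LinearMap.congr_fun B.mul_inv
  have d4 := ((End.isUnit_iff _).1 B.isUnit).1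
  have d5 : (B⁻¹).1 (G (π v)) = π v := d4 (by rw [d3, b2])
  have v0 : π v ≠ 0 := fun e => hv 0 (by simp [e])
  let L := span F {π v}
  have l1 : ∀ w, L.mkQ w = 0 ↔ ∃ c : F, c • π v = w := fun w => by
    rw [mkQ_apply, Quotient.mk_eq_zero, mem_span_singleton]
  obtain ⟨R, hR⟩ := exists_factor L.mkQ (L.mkQ ∘ₗ ((B⁻¹).1 * G)) fun w hw => by
    obtain ⟨c, rfl⟩ := (l1 w).1 hw
    exact (l1 _).2 ⟨c, by simp [d5]⟩
  have l2 := L.finrank_quotient_add_finrank
  rw [finrank_span_singleton v0] at l2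
  have := h V (W ⧸ L) (L.mkQ ∘ₗ π) ((D⁻¹).1 * H) R (j + 1) (L.mkQ_surjective.comp hπ) (by omega) (by omega)
    (fun z => by
      rw [comp_apply, comp_apply, hR, comp_apply]
      exact congrArg _ (d4 (by rw [← d1, End.mul_apply, End.mul_apply, d2, d3, h5])))
    (fun z hz => ((End.isUnit_iff _).1 D.isUnit).1 (by
      obtain ⟨c, hc⟩ := (l1 _).1 hz
      have e := h6 (z - c • v) (by simp [hc])
      rw [map_sub, map_smul, sub_eq_iff_eq_add] at e
      rw [End.mul_apply, d2, hD, e]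
      simp [-map_sub, ← hc, b2, ← smul_sub c (G _), hf]
      module))
    (fun c hc => b3 c fun z => by
      obtain ⟨t, ht⟩ := (l1 ((B⁻¹).1 (G z) - c • z)).1 (by
        rw [map_sub, map_smul, ← End.mul_apply, ← comp_apply L.mkQ, ← hR, hc]; simp)
      exact ⟨t, by simpa [d3, b2] using (congrArg B.1 ht).symm⟩)
    (by
      have e := det_eq_of_exact (a := (1 : End F F)) (b := (B⁻¹).1 * G) (c := R) (ι := toSpanSingleton F W (π v))
        (π := L.mkQ) (ker_eq_bot.1 (ker_toSpanSingleton F v0)) L.mkQ_surjective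
        (by rw [ker_mkQ, ← LinearMap.span_singleton_eq_range]) (fun c => by simp [d5]) fun w => (hR w).symm
      rw [map_one, one_mul, det_of_mul rfl (by rw [h8, det_eq_dt b1])] at e
      rw [← e, det_eq_dt b1, dt_cons])
  rw [← D.mul_inv_cancel_left H]
  refine .cons (hD ▸ c2) ?_
  rwa [Multiset.replicate_succ, Multiset.add_cons, ← Multiset.cons_add] at this

omit [Module.Finite F V] in
theorem Lift.add (h : Lift k μ) (hμ : ∀ P ∈ μ, P.Monic ∧ P.coeff 0 ≠ 0) (hP : P ∈ μ) (h2 : 2 ≤ P.natDegree) (j : ℕ) :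
    Lift (k + j) (μ + .replicate j (X - C 1)) := by
  induction j with
  | zero => simpa using h
  | succ j ih =>
    rw [Multiset.replicate_succ, Multiset.add_cons]
    exact ih.succ (fun Q hQ => (Multiset.mem_add.1 hQ).elim (hμ Q) fun h => by
      simp [Multiset.eq_of_mem_replicate h, monic_X_sub_C, -map_one]) (Multiset.mem_add.2 (.inl hP)) h2

omit [Module.Finite F V] in
theorem Pair.lift [Finite F] (hF : Big F) {cf ce : F → Prop} (h : Pair μ s cf ce) (hμ : ∀ P ∈ μ, P.Monic ∧ P.coeff 0 ≠ 0)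
    (h1 : X - C 1 ∈ μ) (h3 : 3 ≤ (μ.map natDegree).sum) (hs : ∃ l ∈ s, l ≠ 1) : Lift 4 μ := by
  intro V W _ _ _ _ _ π H G j hπ h4 h5 h6 h7 h8 h9
  haveI : Module.Finite F W := .of_surjective π hπ
  obtain ⟨A, hA⟩ := exists_blocks_of_finrank (fun P hP => (hμ P hP).1) h4.symm
  obtain ⟨B, C, rfl, ⟨l, a1, a2, rfl⟩, ⟨l', a3, a4, rfl⟩, a5⟩ :=
    (h.full hA (detC_eq_top hA (irreducible_X_sub_C 1) h1)).exists_mul hF (h4 ▸ h3) h.nz h8 (det_eq_dt hA ▸ h9)
  simpa [a1, a3] using lift_list hπ h5 (fun P hP => (hμ P hP).2) (l ++ l')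
    (fun B hB => ((List.mem_append.1 hB).elim (a2 B) (a4 B)).sim.symm.blocks hA) H (by simpa using h6)
    fun z hz => h7 z (a5 hs _ (prod_fix fun B hB => hz B (by simp [hB])) (prod_fix fun B hB => hz B (by simp [hB])))

theorem I2.span {u v : V} (h : I2 F u v) (h2 : finrank F V = 2) (z : V) : ∃ a b : F, z = a • u + b • v := by
  by_contra hc
  have := I3.le (F := F) (u := u) (v := v) (w := z) fun a b c e => by
    have : c = 0 := by_contra fun h0 => hc ⟨-a / c, -b / c, by
      rw [← smul_right_inj h0, eq_neg_of_add_eq_zero_right e]; match_scalars <;> field_simp⟩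
    simpa [this] using h a b (by simpa [this] using e)
  omega

theorem blocks_transvection (hV : finrank F V = j + 2) {a : V} {b : Dual F V} (ha : a ≠ 0) (hb : b ≠ 0) {δ : F}
    (hδ : 1 + b a = δ) : Blocks (transvection b a) ({(X - C 1) * (X - C δ)} + .replicate j (X - C 1)) := by
  have h1 : Blocks (transvection (.snd F F F) (1, b a)) {(X - C 1) * (X - C δ)} :=
    blocks_of_two (by simp) (fun c e => by
      have e1 := LinearMap.congr_fun e (1, 0)
      simpa [transvection.apply] using LinearMap.congr_fun e (0, 1)) ((monic_X_sub_C _).mul (monic_X_sub_C _))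
      (by rw [(monic_X_sub_C _).natDegree_mul (monic_X_sub_C _), natDegree_X_sub_C, natDegree_X_sub_C])
      (LinearMap.ext fun z => by
        rw [map_mul, End.mul_apply, aeval_X_sub, aeval_X_sub, ← hδ]
        ext <;> simp only [transvection.apply, Prod.fst_sub, Prod.snd_sub, Prod.fst_add, Prod.snd_add, Prod.smul_fst,
          Prod.smul_snd, snd_apply, smul_eq_mul, LinearMap.zero_apply, Prod.fst_zero, Prod.snd_zero] <;> ring)
  have h2 := blocks_scalar (V := Fin j → F) (1 : F)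
  rw [finrank_fin_fun, one_smul] at h2
  refine ((sim_transvection (a' := ((1, b a), 0)) (b' := .snd F F F ∘ₗ .fst F _ (Fin j → F)) (by simp [hV, add_comm])
    ha hb (by simp) (fun e => by simpa using LinearMap.congr_fun e ((0, 1), 0)) rfl).trans (.of_eq ?_)).blocks
    (h1.prodMap h2)
  exact LinearMap.ext fun z => by simp [transvection.apply, Prod.ext_iff]

theorem pwB_transvection (hF : Big F) (hV : finrank F V = j + 2) {b : Dual F V} (hb : b ≠ 0) (k : ℕ) {a : V}
    (ha : a ≠ 0) (h : b a = 0) :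
    PwB (k + 1) ({(X - C 1) * (X - C 1)} + .replicate j (X - C 1)) (transvection b a) := by
  induction k generalizing a with
  | zero => exact .one (blocks_transvection hV ha hb (by simp [h]))
  | succ k ih =>
    obtain ⟨x, x0, x1, -⟩ := hF 0 1 1
    have := PwB.cons (blocks_transvection hV (smul_ne_zero x0 ha) hb (δ := 1) (by simp [h]))
      (ih (smul_ne_zero (sub_ne_zero.2 x1.symm) ha) (by simp [h]))
    rwa [End.mul_eq_comp, transvection.comp_of_left_eq (by simp [h]), ← add_smul, add_sub_cancel, one_smul] at this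

omit [Module.Finite F V] in
theorem lift_two (hF : Big F) {δ : F} (hδ : δ ≠ 0) : Lift 2 {(X - C 1) * (X - C δ)} := by
  intro V W _ _ _ _ _ π H G j hπ h3 h4 h5 h6 h7 h8
  haveI : Module.Finite F W := .of_surjective π hπ
  have m1 := (monic_X_sub_C (1 : F)).mul (monic_X_sub_C δ)
  have m2 : ((X - C 1) * (X - C δ)).natDegree = 2 := by
    rw [(monic_X_sub_C _).natDegree_mul (monic_X_sub_C _), natDegree_X_sub_C, natDegree_X_sub_C]
  have m3 : ∀ P ∈ ({(X - C 1) * (X - C δ)} : Multiset F[X]), P.coeff 0 ≠ 0 := by simp [hδ]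
  have m4 : dt {(X - C 1) * (X - C δ)} = δ := by simp [dt, m2, -map_one]
  obtain ⟨u, hu⟩ := exists_not_eigen h7
  obtain ⟨B, b1, b2⟩ := exists_blocks_map (by simpa only [Multiset.mem_singleton, forall_eq] using m1)
    (Multiset.mem_singleton_self _) m2.ge h3 (i2_of_ne hu)
  rw [Multiset.map_singleton, Multiset.sum_singleton, m2] at h3
  obtain ⟨B, rfl⟩ := b1.isUnit_iff.2 m3
  have d3 : ∀ z, B.1 ((B⁻¹).1 z) = z := LinearMap.congr_fun B.mul_inv
  have d5 : (B⁻¹).1 (G u) = u := ((End.isUnit_iff _).1 B.isUnit).1 (by rw [d3, b2])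
  obtain ⟨f, f1, f2⟩ := (i2_of_ne hu).map (0 : F) 1
  have f0 : f ≠ 0 := fun e => by simp [e] at f2
  have e1 : (B⁻¹).1 * G = transvection f ((B⁻¹).1 (G (G u)) - G u) := LinearMap.ext fun z => by
    obtain ⟨a, b, rfl⟩ := (i2_of_ne hu).span h3 z
    simp [transvection.apply, f1, f2, d5]
    module
  have e2 := det_of_mul (k := 1) rfl (h8.trans (by rw [det_eq_dt b1]))
  rw [e1, transvection.det, det_eq_dt b1, m4, pow_one] at e2
  by_cases h9 : (B⁻¹).1 (G (G u)) - G u = 0
  swap
  · refine lift_list hπ h4 m3 [B.1, (B⁻¹).1 * G] (List.forall_mem_cons.2 ⟨b1, by simpa [e1] using blocks_transvection (j := 0) h3 h9 f0 e2⟩) H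
      (by simpa [d3] using h5) fun z hz => h6 z ?_
    have e3 : f (π z) = 0 := by simpa [e1, transvection.apply, h9] using hz ((B⁻¹).1 * G) (by simp)
    obtain ⟨a, b, e⟩ := (i2_of_ne hu).span h3 (π z)
    obtain rfl : b = 0 := by simpa [e, f1, f2] using e3
    have e4 := hz B.1 (by simp)
    rw [e, zero_smul, add_zero, map_smul, b2] at e4
    rw [e, (i2_of_ne hu (-a) a (by linear_combination (norm := module) e4)).2]
    simp
  obtain rfl : 1 = δ := by simpa [h9] using e2
  obtain rfl : G = B.1 := by rw [← B.mul_inv_cancel_left G, e1, h9, transvection.of_right_eq_zero]; rfl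
  obtain ⟨a, b, a0, b0, p1⟩ := rank_one_of_blocks (μ := 0) (l := 1) b1 m2 (by simp) (dvd_mul_right _ _)
  have p2 : b a = 0 := by
    have := det_eq_dt b1
    rw [show B.1 = transvection b a from LinearMap.ext (by simpa [transvection.apply] using p1), transvection.det, m4] at this
    simpa using this
  obtain ⟨w, hw⟩ := exists_eq_one b0
  have p3 : I2 F a w := fun x y e => by
    have : y = 0 := by simpa [p2, hw] using congrArg b e
    simpa [this, a0] using e
  obtain ⟨g, g1, g2⟩ := p3.map (1 : F) 0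
  obtain ⟨a, rfl⟩ := hπ a
  obtain ⟨w, rfl⟩ := hπ w
  have p4 : π (H a - a) = 0 := by simp [h5, p1, p2]
  have p5 : π (H w - w) = π a := by simp [h5, p1, hw]
  have p6 : H = transvection (b ∘ₗ π) (H w - w) * transvection (g ∘ₗ π) (H a - a) := LinearMap.ext fun z => by
    obtain ⟨x, y, e⟩ := p3.span h3 (π z)
    have := h6 (z - x • a - y • w) (by simp [e])
    simp only [map_sub, map_smul] at this
    simp only [End.mul_apply, transvection.apply, comp_apply, map_add, map_smul, p4, e, p2, hw, g1, g2, map_zero]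
    linear_combination (norm := module) this
  have p7 : H w - w ≠ 0 := fun e => a0 (by rw [← p5, e, map_zero])
  have p8 : b ∘ₗ π ≠ 0 := fun e => by simpa [hw] using LinearMap.congr_fun e w
  rw [h3, add_comm] at h4
  by_cases p9 : H a - a = 0
  · rw [p6, p9, transvection.of_right_eq_zero, ← End.one_eq_id, mul_one]
    exact pwB_transvection hF h4 p8 1 p7 (by rw [comp_apply, p5, p2])
  · rw [p6]
    exact .cons (blocks_transvection h4 p7 p8 (by rw [comp_apply, p5, p2, add_zero])) (.one (blocks_transvection h4 p9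
      (fun e => by simpa [g1] using LinearMap.congr_fun e a) (by rw [comp_apply, p4, map_zero, add_zero])))

theorem pwB_scalar (hF : Big F) (hV : finrank F V = j + 2) (δ : F) :
    PwB (j + 2) ({(X - C 1) * (X - C δ)} + .replicate j (X - C 1)) (δ • 1 : End F V) := by
  let b := finBasisOfFinrankEq F V hV
  have h0 : ∀ i, b.coord i ≠ 0 := fun i e => by simpa using LinearMap.congr_fun e (b i)
  by_cases h : δ = 1
  · subst h
    have h1 : b.coord 0 (b 1) = 0 := by simp
    have := PwB.cons (blocks_transvection hV (neg_ne_zero.2 (b.ne_zero 1)) (h0 0) (δ := 1) (by simp [h1]))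
      (pwB_transvection hF hV (h0 0) j (b.ne_zero 1) h1)
    rwa [End.mul_eq_comp, transvection.comp_of_left_eq h1, neg_add_cancel, transvection.of_right_eq_zero,
      ← End.one_eq_id, ← one_smul F (1 : End F V)] at this
  · have key : ∀ l : List (Fin (j + 2)), l.Nodup → ∀ i,
        (l.map fun i => transvection (b.coord i) ((δ - 1) • b i)).prod (b i) = (if i ∈ l then δ else 1) • b i := by
      intro l hl i
      induction l with
      | nil => simp
      | cons x l ih =>
        rw [List.nodup_cons] at hl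
        rw [List.map_cons, List.prod_cons, End.mul_apply, ih hl.2, map_smul]
        by_cases e : i = x
        · simp [e, hl.1, transvection.apply, sub_smul]
        · simp [e, transvection.apply]
    refine ⟨(List.finRange _).map fun i => transvection (b.coord i) ((δ - 1) • b i), by simp,
      List.forall_mem_map.2 fun i _ => blocks_transvection hV (smul_ne_zero (sub_ne_zero.2 h) (b.ne_zero i)) (h0 i)
        (by simp), b.ext fun i => by simp [key _ (List.nodup_finRange _)]⟩

end Cfsg.Lib.Lev
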