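import Cfsg.Agent.Lib.Lev.Cov

/-!
# Products of classes in `GL_n`, V: Sourour's elimination with cyclic factors
-/

set_option autoImplicit false

namespace Cfsg.Lib.Lev

open Module Polynomial LinearMap Cfsg.Lib.GLC Cfsg.Lib.Ore Submodule

universe u

variable {F : Type*} {W : Type u} [Field F] [AddCommGroup W] [Module F W]

theorem exists_conj {V : Type*} [AddCommGroup V] [Module F V] (e : V ≃ₗ[F] W) (f : End F V) :
    ∃ g : End F W, ∀ x, e (f x) = g (e x) :=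
  ⟨e.conjAlgEquiv F f, fun x => by simp [LinearEquiv.conjAlgEquiv_apply]⟩

/-- The Schur complement. -/
def sch (S : End F W) (v : W) (φ : W →ₗ[F] F) (τ : F) : End F W := S - τ⁻¹ • (φ ∘ₗ S).smulRight (S v)

theorem sch_apply (S : End F W) (v : W) (φ : W →ₗ[F] F) (τ : F) (z : W) :
    sch S v φ τ z = S z - (τ⁻¹ * φ (S z)) • S v := by simp [sch, mul_smul]

/-- A factorisation into cyclic maps, with the compatibility conditions. -/
def Out (S : End F W) (x : W) (y : W →ₗ[F] F) (β₁ γ₁ : F) (β γ : Multiset F) (p : Prop) : Prop :=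
  ∃ B C : End F W, B * C = S ∧ CT B (β₁ ::ₘ β) ∧ CT C (γ₁ ::ₘ γ) ∧ (∀ u, B u - β₁ • u ≠ x) ∧
    (∀ u, C u = γ₁ • u → y u = 0 → u = 0) ∧ (p → ∀ u, C u = γ₁ • u → B u = u → u = 0)

variable {S : End F W} {v x : W} {φ y : W →ₗ[F] F} {τ τ' β₁ γ₁ β₂ γ₂ : F} {β γ : Multiset F}

theorem phi_sch (h : φ (S v) = τ) (h0 : τ ≠ 0) (z : W) : φ (sch S v φ τ z) = 0 := by
  rw [sch_apply, map_sub, map_smul, h, smul_eq_mul]
  field_simp
  ring

theorem exists_factors (h1 : φ v = 1) (hβ : β₁ ≠ 0) (hγ : γ₁ ≠ 0) {c : ker φ} (hc : c.1 = S v - (β₁ * γ₁) • v)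
    {B' C' : End F (ker φ)} (h : ∀ w, (B' (C' w)).1 = sch S v φ (β₁ * γ₁) w) :
    ∃ B C : End F W, B * C = S ∧ Sim (tri B' (toSpanSingleton F _ (γ₁⁻¹ • c)) (β₁ • 1)) B ∧
      Sim (tri (γ₁ • 1) (β₁⁻¹ • φ ∘ₗ S ∘ₗ (ker φ).subtype) C') C ∧ (∀ z, φ (B z) = β₁ * φ z) ∧
      B v = γ₁⁻¹ • S v ∧ C v = γ₁ • v := by
  have h0 : ∀ w : ker φ, φ w = 0 := fun w => w.2
  let e : (ker φ × F) ≃ₗ[F] W := .ofBijective ((ker φ).subtype.coprod (toSpanSingleton F W v))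
    ⟨ker_eq_bot.1 (ker_eq_bot'.2 fun x hx => by
      have h3 : x.2 = 0 := by simpa [h1, h0] using congrArg φ hx
      exact Prod.ext (by simpa [h3] using hx) h3), fun z => ⟨(⟨z - φ z • v, by simp [h1]⟩, φ z), by simp⟩⟩
  have he : ∀ x, e x = x.1 + x.2 • v := fun _ => rfl
  obtain ⟨B, hB⟩ : ∃ B : End F W, ∀ x, e (tri B' (toSpanSingleton F _ (γ₁⁻¹ • c)) (β₁ • 1) x) = B (e x) :=
    exists_conj e _
  obtain ⟨C, hC⟩ : ∃ C : End F W, ∀ x, ((LinearEquiv.prodComm F _ _).trans e)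
      (tri (γ₁ • 1) (β₁⁻¹ • φ ∘ₗ S ∘ₗ (ker φ).subtype) C' x) = C (((LinearEquiv.prodComm F _ _).trans e) x) :=
    exists_conj _ _
  have b1 : ∀ (w : ker φ) (a : F), B (w + a • v) = B' w + a • γ₁⁻¹ • c + (β₁ * a) • v := fun w a => by
    simpa [he] using (hB (w, a)).symm
  have c1 : ∀ (w : ker φ) (a : F), C (w + a • v) = C' w + (γ₁ * a + β₁⁻¹ * φ (S w)) • v := fun w a => by
    simpa [he] using (hC (a, w)).symm
  refine ⟨B, C, LinearMap.ext fun z => ?_, ⟨e, hB⟩, ⟨_, hC⟩, fun z => ?_, ?_, by simpa using c1 0 1⟩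
  · obtain ⟨⟨w, a⟩, rfl⟩ := e.surjective z
    rw [he, End.mul_apply, c1, b1, h, hc, sch_apply, map_add, map_smul]
    match_scalars <;> field_simp <;> ring
  · obtain ⟨⟨w, a⟩, rfl⟩ := e.surjective z
    rw [he, b1]
    simp [h0, h1]
  · have := b1 0 1
    simp only [ZeroMemClass.coe_zero, one_smul, zero_add, map_zero, hc] at this
    rw [this]
    match_scalars <;> field_simp <;> ring

variable [Module.Finite F W]

theorem det_sch (h1 : φ v = 1) (hβ : β₁ ≠ 0) (hγ : γ₁ ≠ 0) (h2 : φ (S v) = β₁ * γ₁) {T : End F (ker φ)}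
    (h : ∀ w, (T w).1 = sch S v φ (β₁ * γ₁) w) : LinearMap.det S = β₁ * γ₁ * LinearMap.det T := by
  obtain ⟨B, C, rfl, h3, h4, -⟩ := exists_factors (S := S) h1 hβ hγ (c := ⟨_, by simp [h1, h2]⟩) rfl (C' := 1) h
  rw [map_mul, ← h3.det_eq, ← h4.det_eq, det_tri, det_tri]
  simp
  ring

theorem Out.step (h1 : φ v = 1) (hβ : β₁ ≠ 0) (hγ : γ₁ ≠ 0) {c : ker φ} (hc : c.1 = S v - (β₁ * γ₁) • v)
    {T : End F (ker φ)} (h : ∀ w, (T w).1 = sch S v φ (β₁ * γ₁) w) (hx : φ x ≠ 0) (hy : y v ≠ 0)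
    (e1 : β₁ ∈ β₂ ::ₘ β → β₁ = β₂) (e2 : γ₁ ∈ γ₂ ::ₘ γ → γ₁ = γ₂) {p : Prop}
    (H : Out T c (φ ∘ₗ S ∘ₗ (ker φ).subtype) β₂ γ₂ β γ p) : Out S x y β₁ γ₁ (β₂ ::ₘ β) (γ₂ ::ₘ γ) True := by
  obtain ⟨B', C', rfl, h2, h3, h4, h5, -⟩ := H
  obtain ⟨B, C, h6, h7, h8, h9, h10, h11⟩ := exists_factors h1 hβ hγ hc h
  have v0 : v ≠ 0 := fun e => by simp [e] at h1
  have hC : CT C (γ₁ ::ₘ γ₂ ::ₘ γ) := ((ct_point γ₁).tri h3 fun μ u w u' a b c d e => by
    obtain rfl : γ₁ = μ := by simpa [a] using b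
    exact c (h5 w (e2 (h3.mem c d) ▸ d) (by simpa [hβ] using e))).of_sim h8
  refine ⟨B, C, h6, ?_, hC, fun u e => hx (by rw [← e]; simp [h9]), fun u a b => ?_, fun _ u a b => ?_⟩
  · rw [← Multiset.singleton_add, add_comm]
    refine (h2.tri (ct_point β₁) fun μ u w u' a b c d e => ?_).of_sim h7
    obtain rfl : β₁ = μ := by simpa [c] using d
    refine h4 (-(γ₁ * w⁻¹) • u') ?_
    rw [← e1 (h2.mem a b), map_smul, smul_comm β₁, ← e, toSpanSingleton_apply]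
    match_scalars <;> field_simp <;> ring
  · obtain ⟨k, rfl⟩ := hC.e1 γ₁ v u v0 h11 a
    simp_all
  · obtain ⟨k, rfl⟩ := hC.e1 γ₁ v u v0 h11 a
    by_contra hk
    have k0 := left_ne_zero_of_smul hk
    have b1 : β₁ = 1 := by simpa [h9, h1, k0] using congrArg φ b
    rw [map_smul, h10, smul_right_inj k0, inv_smul_eq_iff₀ hγ] at b
    exact h4 0 (Subtype.ext (by simp [hc, b, b1]))

omit [Module.Finite F W] in
theorem exists_phi3 (h3 : I3 F v (S v) (S (S v))) (hx : ∀ k : F, x ≠ k • (S v - τ • v)) :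
    ∃ a e : F, (e = 0 → a ≠ 0) ∧ ∀ t, e * t + a ≠ 0 →
      ∃ φ : W →ₗ[F] F, φ v = 1 ∧ φ (S v) = τ ∧ φ (S (S v)) = t ∧ φ x ≠ 0 := by
  by_cases h : ∃ a b e : F, x = a • v + b • S v + e • S (S v)
  · obtain ⟨a, b, e, rfl⟩ := h
    refine ⟨a + b * τ, e, fun h1 h2 => hx b ?_, fun t ht => ?_⟩
    · rw [h1, eq_neg_of_add_eq_zero_left h2]; module
    · obtain ⟨φ, h1, h2, h4⟩ := h3.map 1 τ t
      exact ⟨φ, h1, h2, h4, by simpa [h1, h2, h4, add_comm] using ht⟩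
  · have h4 : I4 F v (S v) (S (S v)) x := fun a b c d e => by
      have : d = 0 := by_contra fun hd => h ⟨-a / d, -b / d, -c / d, by
        rw [← smul_right_inj hd, eq_neg_of_add_eq_zero_right e]; match_scalars <;> field_simp⟩
      simpa [this] using h3 a b c (by simpa [this] using e)
    refine ⟨1, 0, fun _ => one_ne_zero, fun t _ => ?_⟩
    obtain ⟨φ, h1, h2, h5, h6⟩ := h4.map 1 τ t 1
    exact ⟨φ, h1, h2, h5, h6 ▸ one_ne_zero⟩

/-- The state of the elimination. -/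
structure St (S : End F W) (v x : W) (y : W →ₗ[F] F) (τ : F) (K : Submodule F W) : Prop where
  hy : y v ≠ 0
  hx : ∀ k : F, x ≠ k • (S v - τ • v)
  deg : I3 F v (S v) (S (S v)) ∨ I2 F v (S v) ∧ (∀ z ∈ K, ∃ a b : F, z = a • v + b • S v) ∧
    ∀ z ∈ K, S z = τ • z → z = 0

omit [Module.Finite F W] in
theorem exists_next_aux (hF : Big F) {T : End F W} {c d w : W} {σ π : F} {r : W →ₗ[F] F} (h1 : T c = d)
    (h2 : T d = σ • d - π • c) (hcd : I2 F c d) (hr : r c ≠ 0) {Q : Type*} [AddCommGroup Q] [Module F Q]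
    {ρ : W →ₗ[F] Q} {R : End F Q} (h3 : ∀ z, ρ (T z) = R (ρ z)) (h4 : ρ c = 0) (hw : ρ w ≠ 0) (K : Submodule F W)
    (hc : c ∈ K) (hwK : w ∈ K)
    (h : (∃ l : F, T w = l • w ∧ l * l - σ * l + π ≠ 0) ∨ I2 F (ρ w) (R (ρ w)) ∧
      ∀ a b : F, a • ρ w + b • R (ρ w) + R (R (ρ w)) = 0 → b ≠ -σ) :
    ∃ v' ∈ K, St T v' c r τ' K := by
  have h5 : ρ d = 0 := by rw [← h1, h3, h4, map_zero]
  have h6 : I3 F c d w := fun a b e h => by
    have : e = 0 := by simpa [h4, h5, hw] using congrArg ρ h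
    simpa [this] using hcd a b (by simpa [this] using h)
  rcases h with ⟨l, h7, h8⟩ | ⟨h7, h8⟩
  · obtain ⟨s, s1, s2, -⟩ := ex_lin hF (a₁ := 1) (b₁ := 0) (a₂ := r w) (b₂ := r c) (a₃ := 1) (b₃ := 0)
      (by simp) (fun _ => hr) (by simp)
    refine ⟨c + s • w, add_mem hc (smul_mem _ _ hwK), by simpa [add_comm, mul_comm] using s2, fun k e => ?_,
      .inl fun a b e h => ?_⟩
    · simp only [map_add, map_smul, h1, h7] at e
      obtain ⟨e1, e2, -⟩ := h6 (1 + k * τ') (-k) (-k * s * (l - τ')) (by linear_combination (norm := module) e)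
      simp [neg_eq_zero.1 e2] at e1
    · simp only [map_add, map_smul, h1, h2, h7] at h
      obtain ⟨e1, e2, e3⟩ := h6 (a - e * π) (b + e * σ) (s * (a + b * l + e * (l * l)))
        (by linear_combination (norm := module) h)
      have e4 : e = 0 := (mul_eq_zero.1 (show e * (l * l - σ * l + π) = 0 by
        linear_combination (mul_eq_zero.1 e3).resolve_left (by simpa using s1) - e1 - l * e2)).resolve_right h8
      exact ⟨by simpa [e4] using e1, by simpa [e4] using e2, e4⟩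
  · obtain ⟨a₀, b₀, h9, h10⟩ : ∃ a₀ b₀ : F, b₀ ≠ -σ ∧
        ∀ a b : F, a • ρ w + b • R (ρ w) + R (R (ρ w)) = 0 → a = a₀ ∧ b = b₀ := by
      by_cases h : ∃ a b : F, a • ρ w + b • R (ρ w) + R (R (ρ w)) = 0
      · obtain ⟨a₀, b₀, h⟩ := h
        exact ⟨a₀, b₀, h8 _ _ h, fun a b e => by
          simpa [sub_eq_zero] using h7 (a - a₀) (b - b₀) (by linear_combination (norm := module) e - h)⟩
      · exact ⟨0, 1 - σ, by simp [sub_eq_add_neg], fun a b e => (h ⟨a, b, e⟩).elim⟩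
    obtain ⟨f, f1, f2⟩ := hcd.map (0 : F) 1
    obtain ⟨s, s1, s2, s3⟩ := ex_lin hF (a₁ := 1) (b₁ := 0) (a₂ := r w) (b₂ := r c)
      (a₃ := f (a₀ • w + b₀ • T w + T (T w))) (b₃ := b₀ + σ) (by simp) (fun _ => hr)
      fun _ => fun e => h9 (eq_neg_of_add_eq_zero_left e)
    replace s1 : s ≠ 0 := by simpa using s1
    refine ⟨c + s • w, add_mem hc (smul_mem _ _ hwK), by simpa [add_comm, mul_comm] using s2, fun k e => ?_,
      .inl fun a b e h => ?_⟩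
    · have e1 := congrArg ρ e
      simp only [map_add, map_smul, map_sub, h3, h4, map_zero] at e1
      have e2 := (h7 (-k * τ' * s) (k * s) (by linear_combination (norm := module) -e1)).2
      rw [(mul_eq_zero.1 e2).resolve_right s1, zero_smul] at e
      simpa [e] using hr
    · have e1 := congrArg ρ h
      simp only [map_add, map_smul, h3, h4, map_zero] at e1
      have e2 : e = 0 := by_contra fun he => s3 (by
        obtain ⟨rfl, rfl⟩ := h10 (a / e) (b / e) (by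
          rw [← smul_right_inj (mul_ne_zero he s1), smul_zero, ← e1]; match_scalars <;> field_simp)
        have e3 := congrArg f h
        simp only [map_add, map_smul, map_sub, h1, h2, f1, f2, smul_eq_mul, map_zero] at e3 ⊢
        field_simp
        linear_combination e3)
      obtain ⟨e3, e4⟩ := h7 (a * s) (b * s) (by rw [e2] at e1; linear_combination (norm := module) e1)
      exact ⟨by simpa [s1] using e3, by simpa [s1] using e4, e2⟩

omit [Module.Finite F W] in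
theorem exists_next (hF : Big F) (hS : Function.Injective S) (h0 : τ ≠ 0) (h0' : τ' ≠ 0)
    (h3 : I3 F v (S v) (S (S v))) (hx : ∀ k : F, x ≠ k • (S v - τ • v)) :
    ∃ φ : W →ₗ[F] F, φ v = 1 ∧ φ (S v) = τ ∧ φ x ≠ 0 ∧
      ∃ v' ∈ ker φ, St (sch S v φ τ) v' (S v - τ • v) (φ ∘ₗ S) τ' (ker φ) := by
  obtain ⟨a, e, h1, h2⟩ := exists_phi3 h3 hx
  have hi : τ⁻¹ ≠ 0 := inv_ne_zero h0
  have key : ∀ a₃ b₃ : F, (a₃ = 0 → b₃ ≠ 0) → ∃ (φ : W →ₗ[F] F) (t : F), φ v = 1 ∧ φ (S v) = τ ∧ φ x ≠ 0 ∧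
      φ (S (S v)) = t ∧ a₃ * t + b₃ ≠ 0 ∧ φ (S v - τ • v) = 0 ∧ (φ ∘ₗ S) (S v - τ • v) ≠ 0 ∧
      sch S v φ τ (S v - τ • v) = S (S v) - (τ⁻¹ * t) • S v ∧
      I2 F (S v - τ • v) (S (S v) - (τ⁻¹ * t) • S v) := fun a₃ b₃ h => by
    obtain ⟨t, t1, t2, t3⟩ := ex_lin hF h1 (a₂ := 1) (b₂ := -(τ * τ)) (by simp) h
    obtain ⟨φ, p1, p2, p3, p4⟩ := h2 t t1
    refine ⟨φ, t, p1, p2, p4, p3, t3, by simp [p1, p2], by simpa [p2, p3, sub_eq_add_neg] using t2, ?_,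
      fun a b h => ?_⟩
    · simp only [sch_apply, map_sub, map_smul, p2, p3, smul_eq_mul]
      match_scalars <;> field_simp <;> ring
    · obtain ⟨e1, -, e2⟩ := h3 (-a * τ) (a - b * (τ⁻¹ * t)) b (by linear_combination (norm := module) h)
      exact ⟨by simpa [h0] using e1, e2⟩
  have hx' : ∀ {c d : W}, I2 F c d → ∀ k : F, c ≠ k • (d - τ' • c) := fun h k e => by
    obtain ⟨e1, e2⟩ := h (1 + k * τ') (-k) (by linear_combination (norm := module) e)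
    simp [neg_eq_zero.1 e2] at e1
  by_cases h4 : ∃ a₀ a₁ a₂ : F, S (S (S v)) = a₀ • v + a₁ • S v + a₂ • S (S v)
  swap
  · obtain ⟨φ, t, p1, p2, p3, p4, -, p5, p6, p7, p8⟩ := key 1 0 (by simp)
    refine ⟨φ, p1, p2, p3, _, p5, p6, p7 ▸ hx' p8, .inl fun a b c h => ?_⟩
    rw [p7, sch_apply, map_sub, map_smul] at h
    have : c = 0 := by_contra fun hc => h4 ⟨a * τ / c, (c * (τ⁻¹ * φ (S (S (S v)) - (τ⁻¹ * t) • S (S v))) - a +
      b * (τ⁻¹ * t)) / c, (c * (τ⁻¹ * t) - b) / c, by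
        rw [← smul_right_inj hc, ← sub_eq_zero, ← h]; match_scalars <;> field_simp <;> ring⟩
    simpa [this] using p8 a b (by simpa [this] using h)
  obtain ⟨a₀, a₁, a₂, h4⟩ := h4
  have a0 : a₀ ≠ 0 := fun e => one_ne_zero (h3 (-a₁) (-a₂) 1 (hS (by
    rw [e] at h4; simp only [map_add, map_smul, map_zero]; linear_combination (norm := module) h4))).2.2
  have h5 : ∀ (φ : W →ₗ[F] F) (t : F), φ v = 1 → φ (S v) = τ → φ (S (S v)) = t →
      sch S v φ τ (S (S v) - (τ⁻¹ * t) • S v) =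
        (a₂ - τ⁻¹ * t) • (S (S v) - (τ⁻¹ * t) • S v) - (τ⁻¹ * a₀) • (S v - τ • v) ∧
      ∀ p q s : F, φ (p • v + q • S v + s • S (S v)) = 0 → ∃ a b : F, p • v + q • S v + s • S (S v) =
        a • (S v - τ • v) + b • (S (S v) - (τ⁻¹ * t) • S v) := fun φ t p1 p2 p3 => by
    refine ⟨?_, fun p q s h => ⟨q + s * (τ⁻¹ * t), s, ?_⟩⟩
    · simp only [sch_apply, map_sub, map_smul, map_add, h4, p1, p2, p3, smul_eq_mul]
      match_scalars <;> field_simp <;> ring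
    · simp only [map_add, map_smul, p1, p2, p3, smul_eq_mul, mul_one, add_assoc] at h
      rw [eq_neg_of_add_eq_zero_left h]
      match_scalars <;> field_simp <;> ring
  let Z := span F {v, S v, S (S v)}
  have hZ : ∀ z, Z.mkQ z = 0 ↔ ∃ p q s : F, p • v + q • S v + s • S (S v) = z := fun z => by
    rw [mkQ_apply, Quotient.mk_eq_zero, mem_span_triple]
  by_cases h6 : ∀ z, Z.mkQ z = 0
  · obtain ⟨φ, t, p1, p2, p3, p4, p9, p5, p6, p7, p8⟩ := key (τ⁻¹ * τ') (τ' * τ' - a₂ * τ' + τ⁻¹ * a₀)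
      (by simp [h0, h0'])
    obtain ⟨q1, q2⟩ := h5 φ t p1 p2 p4
    have q3 : ∀ z ∈ ker φ, ∃ a b : F, z = a • (S v - τ • v) + b • (S (S v) - (τ⁻¹ * t) • S v) := fun z hz => by
      obtain ⟨p, q, s, rfl⟩ := (hZ z).1 (h6 z)
      exact q2 p q s hz
    refine ⟨φ, p1, p2, p3, _, p5, p6, p7 ▸ hx' p8, .inr ⟨p7 ▸ p8, p7 ▸ q3, fun z hz h => ?_⟩⟩
    obtain ⟨a, b, rfl⟩ := q3 z hz
    rw [map_add, map_smul, map_smul, p7, q1] at h
    obtain ⟨e1, e2⟩ := p8 (-b * (τ⁻¹ * a₀) - τ' * a) (a + b * (a₂ - τ⁻¹ * t) - τ' * b)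
      (by linear_combination (norm := module) h)
    have e3 : b = 0 := (mul_eq_zero.1 (show b * _ = 0 by linear_combination -e1 - τ' * e2)).resolve_right p9
    have e4 : a = 0 := by simpa [e3] using e2
    simp [e3, e4]
  obtain ⟨w, hw⟩ := not_forall.1 h6
  have z1 : Z.mkQ v = 0 := (hZ _).2 ⟨1, 0, 0, by simp⟩
  have z2 : Z.mkQ (S v) = 0 := (hZ _).2 ⟨0, 1, 0, by simp⟩
  obtain ⟨R, hR⟩ := exists_factor Z.mkQ (Z.mkQ ∘ₗ S) fun z hz => by
    obtain ⟨p, q, s, rfl⟩ := (hZ z).1 hz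
    exact (hZ _).2 ⟨s * a₀, p + s * a₁, q + s * a₂, by simp only [map_add, map_smul, h4]; module⟩
  have z3 : ∀ (φ : W →ₗ[F] F) z, Z.mkQ (sch S v φ τ z) = R (Z.mkQ z) := fun φ z => by
    rw [sch_apply, map_sub, map_smul, z2, hR]; simp
  have z4 : Z.mkQ (S v - τ • v) = 0 := by rw [map_sub, map_smul, z1, z2]; simp
  have z5 : ∀ c : F, Z.mkQ (w - c • v) = Z.mkQ w := fun c => by rw [map_sub, map_smul, z1]; simp
  by_cases h7 : ∃ l : F, R (Z.mkQ w) = l • Z.mkQ w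
  · obtain ⟨l, h7⟩ := h7
    obtain ⟨φ, t, p1, p2, p3, p4, p9, p5, p6, p7, p8⟩ := key (τ⁻¹ * l) (l * l - a₂ * l + τ⁻¹ * a₀)
      fun h => by simpa [(mul_eq_zero.1 h).resolve_left hi, h0] using a0
    obtain ⟨q1, q2⟩ := h5 φ t p1 p2 p4
    have q3 : φ (w - φ w • v) = 0 := by simp [p1]
    obtain ⟨p, q, s, q4⟩ := (hZ (sch S v φ τ (w - φ w • v) - l • (w - φ w • v))).1 (by
      rw [map_sub, map_smul, z3, z5, h7, sub_self])
    obtain ⟨a, b, q5⟩ := q2 p q s (by rw [q4, map_sub, map_smul, q3, phi_sch p2 h0]; simp)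
    have q6 := p7 ▸ phi_sch p2 h0 (S v - τ • v)
    have q7 := p7 ▸ z3 φ (S v - τ • v)
    rw [z4, map_zero] at q7
    have q8 : l * l - (a₂ - τ⁻¹ * t) * l + τ⁻¹ * a₀ ≠ 0 := by convert p9 using 1; ring
    generalize S v - τ • v = c at *
    generalize S (S v) - (τ⁻¹ * t) • S v = d at *
    generalize a₂ - τ⁻¹ * t = σ at *
    generalize τ⁻¹ * a₀ = π at *
    obtain ⟨k, hk⟩ : ∃ k, k * (l * l - σ * l + π) = 1 := ⟨_, inv_mul_cancel₀ q8⟩
    refine ⟨φ, p1, p2, p3, exists_next_aux hF p7 q1 p8 p6 (z3 φ) z4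
      (w := w - φ w • v + (-k * (a * (σ - l) + b * π)) • c + (k * (a + b * l)) • d) ?_ _ p5 ?_ (.inl ⟨l, ?_, q8⟩)⟩
    · rwa [map_add, map_add, map_smul, map_smul, z4, z5, q7, smul_zero, smul_zero, add_zero, add_zero]
    · rw [mem_ker, map_add, map_add, map_smul, map_smul, q3, p5, q6]; simp
    · rw [map_add, map_add, map_smul, map_smul, p7, q1, eq_add_of_sub_eq (q4.symm.trans q5)]
      match_scalars <;> first | ring1 | linear_combination -a * hk | linear_combination -b * hk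
  · have h8 := i2_of_ne (not_exists.1 h7)
    obtain ⟨b₀, h9⟩ : ∃ b₀ : F, ∀ a b : F, a • Z.mkQ w + b • R (Z.mkQ w) + R (R (Z.mkQ w)) = 0 → b = b₀ := by
      by_cases h : ∃ a b : F, a • Z.mkQ w + b • R (Z.mkQ w) + R (R (Z.mkQ w)) = 0
      · obtain ⟨a₀, b₀, h⟩ := h
        exact ⟨b₀, fun a b e => sub_eq_zero.1 (h8 (a - a₀) (b - b₀) (by linear_combination (norm := module) e - h)).2⟩
      · exact ⟨0, fun a b e => (h ⟨a, b, e⟩).elim⟩
    obtain ⟨φ, t, p1, p2, p3, p4, p9, p5, p6, p7, p8⟩ := key τ⁻¹ (-a₂ - b₀) fun h => (hi h).elim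
    exact ⟨φ, p1, p2, p3, exists_next_aux hF p7 (h5 φ t p1 p2 p4).1 p8 p6 (z3 φ) z4 (w := w - φ w • v)
      (z5 _ ▸ hw) _ p5 (by simp [p1]) (.inr (z5 _ ▸ ⟨h8, fun a b e h => p9 (by rw [← h9 a b e, h]; ring)⟩))⟩

end Cfsg.Lib.Lev
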