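import Cfsg.Agent.Lib.Lev.Sour

/-!
# Products of classes in `GL_n`, VI: the product of two cyclic triangularizable classes
-/

set_option autoImplicit false

namespace Cfsg.Lib.Lev

open Module Polynomial LinearMap Cfsg.Lib.GLC Cfsg.Lib.Ore Submodule

universe u w

variable {F : Type w} {W : Type u} [Field F] [AddCommGroup W] [Module F W]
  {S : End F W} {v x : W} {φ y : W →ₗ[F] F} {τ β₁ γ₁ β₂ γ₂ : F} {β γ : Multiset F}

theorem exists_head (a : F) (h : β ≠ 0) : ∃ b β', β = b ::ₘ β' ∧ (a ∈ b ::ₘ β' → a = b) := by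
  by_cases ha : a ∈ β
  · obtain ⟨β', rfl⟩ := Multiset.exists_cons_of_mem ha
    exact ⟨a, β', rfl, fun _ => rfl⟩
  · obtain ⟨b, hb⟩ := Multiset.exists_mem_of_ne_zero h
    obtain ⟨β', rfl⟩ := Multiset.exists_cons_of_mem hb
    exact ⟨b, β', rfl, fun e => (ha e).elim⟩

theorem exists_sch (h : φ (S v) = τ) (h0 : τ ≠ 0) : ∃ T : End F (ker φ), ∀ w, (T w).1 = sch S v φ τ w :=
  ⟨codRestrict _ (sch S v φ τ ∘ₗ (ker φ).subtype) fun w => phi_sch h h0 w, fun _ => rfl⟩

theorem St.restrict {K : Submodule F W} {T : End F K} (hT : ∀ w, (T w).1 = S w) {v x : K} (h : St S v x y τ K) :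
    St T v x (y ∘ₗ K.subtype) τ ⊤ := by
  refine ⟨h.hy, fun k e => h.hx k (by simpa [hT] using congrArg Subtype.val e), h.deg.imp
    (fun h a b c e => h a b c (by simpa [hT] using congrArg Subtype.val e)) fun ⟨h1, h2, h3⟩ =>
    ⟨fun a b e => h1 a b (by simpa [hT] using congrArg Subtype.val e), fun z _ => ?_, fun z _ e =>
      Subtype.ext (h3 z z.2 (by simpa [hT] using congrArg Subtype.val e))⟩⟩
  obtain ⟨a, b, e⟩ := h2 z z.2
  exact ⟨a, b, Subtype.ext (by simpa [hT] using e)⟩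

variable [Module.Finite F W]

theorem I3.le {u v w : W} (h : I3 F u v w) : 3 ≤ finrank F W := by
  obtain ⟨f, h1, h2, h3⟩ := h.map ((1, 0, 0) : F × F × F) (0, 1, 0) (0, 0, 1)
  simpa using LinearMap.finrank_le_finrank_of_surjective (f := f) fun z =>
    ⟨z.1 • u + z.2.1 • v + z.2.2 • w, by simp [h1, h2, h3]⟩

theorem ct_line (h : finrank F W = 1) (c : F) : CT (c • 1 : End F W) {c} :=
  (ct_point c).of_sim ⟨.ofFinrankEq _ _ (by simp [h]), fun _ => map_smul _ c _⟩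

theorem Out.descend (h1 : φ v = 1) (hβ : β₁ ≠ 0) (hγ : γ₁ ≠ 0) (h2 : φ (S v) = β₁ * γ₁) (hx : φ x ≠ 0)
    (hy : y v ≠ 0) (e1 : β₁ ∈ β₂ ::ₘ β → β₁ = β₂) (e2 : γ₁ ∈ γ₂ ::ₘ γ → γ₁ = γ₂)
    (hd : LinearMap.det S = β₁ * γ₁ * ((β₂ ::ₘ β).prod * (γ₂ ::ₘ γ).prod)) {v' : W} (hv : v' ∈ ker φ)
    (hs : St (sch S v φ (β₁ * γ₁)) v' (S v - (β₁ * γ₁) • v) (φ ∘ₗ S) (β₂ * γ₂) (ker φ))
    (H : ∀ (T : End F (ker φ)) v x y, LinearMap.det T = β₂ * γ₂ * (β.prod * γ.prod) → St T v x y (β₂ * γ₂) ⊤ →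
      Out T x y β₂ γ₂ β γ True) : Out S x y β₁ γ₁ (β₂ ::ₘ β) (γ₂ ::ₘ γ) True := by
  obtain ⟨T, hT⟩ := exists_sch h2 (mul_ne_zero hβ hγ)
  refine .step h1 hβ hγ (c := ⟨_, by simp [h1, h2]⟩) rfl hT hx hy e1 e2 (H T ⟨v', hv⟩ _ _ ?_ (St.restrict (y := φ ∘ₗ S) hT hs))
  rw [det_sch h1 hβ hγ h2 hT, mul_right_inj' (mul_ne_zero hβ hγ)] at hd
  rw [hd, Multiset.prod_cons, Multiset.prod_cons, mul_mul_mul_comm]

theorem out_of_st (hF : Big F) (m : ℕ) : ∀ (W : Type u) [AddCommGroup W] [Module F W] [Module.Finite F W]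
    (β₁ γ₁ : F) (β γ : Multiset F), finrank F W = m + 2 → β.card = m + 1 → γ.card = m + 1 → β₁ ≠ 0 → γ₁ ≠ 0 →
    0 ∉ β → 0 ∉ γ → ∀ (S : End F W) v x y, LinearMap.det S = β₁ * γ₁ * (β.prod * γ.prod) →
    St S v x y (β₁ * γ₁) ⊤ → Out S x y β₁ γ₁ β γ True := by
  induction m with
  | zero =>
    intro W _ _ _ β₁ γ₁ β γ h1 h2 h3 hβ hγ _ _ S v x y hd hs
    obtain ⟨β₂, rfl⟩ := Multiset.card_eq_one.1 h2
    obtain ⟨γ₂, rfl⟩ := Multiset.card_eq_one.1 h3
    obtain ⟨h4, -, h5⟩ := hs.deg.resolve_left fun h => by have := h.le; omega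
    obtain ⟨φ, p1, p2⟩ := h4.map 1 (β₁ * γ₁)
    obtain ⟨T, hT⟩ := exists_sch p2 (mul_ne_zero hβ hγ)
    have h6 : finrank F (ker φ) = 1 := by
      have := finrank_ker_add_one (b := φ) fun e => by simp [e] at p1
      omega
    let c : ker φ := ⟨S v - (β₁ * γ₁) • v, by simp [p1, p2]⟩
    have h7 : c ≠ 0 := fun e => one_ne_zero (h4 (-(β₁ * γ₁)) 1 (by
      have : S v - (β₁ * γ₁) • v = 0 := congrArg Subtype.val e
      linear_combination (norm := module) this)).2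
    have h8 := (finrank_eq_one_iff_of_nonzero' c h7).1 h6
    have h9 : T = (β₂ * γ₂) • 1 := by
      obtain ⟨k, hk⟩ := h8 (T c)
      have e : T = k • 1 := LinearMap.ext fun z => by
        obtain ⟨a, rfl⟩ := h8 z
        simp [← hk, smul_comm a]
      rw [det_sch p1 hβ hγ p2 hT, mul_right_inj' (mul_ne_zero hβ hγ), e, det_smul, h6] at hd
      rw [e, show k = β₂ * γ₂ by simpa using hd]
    refine .step (β := 0) (γ := 0) p1 hβ hγ (c := c) rfl hT (fun e => ?_) hs.hy (by simp) (by simp) (p := False)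
      ⟨β₂ • 1, γ₂ • 1, by simp [h9, smul_smul, mul_comm], ct_line h6 _, ct_line h6 _, by simpa using h7.symm,
        fun u _ e => ?_, False.elim⟩
    · obtain ⟨k, hk⟩ := h8 ⟨x, e⟩
      exact hs.hx k (congrArg Subtype.val hk).symm
    · obtain ⟨a, rfl⟩ := h8 u
      by_contra h0
      obtain ⟨k, hk⟩ := h8 ⟨S c, by simpa [left_ne_zero_of_smul h0] using e⟩
      have e1 : k • (S v - (β₁ * γ₁) • v) = S (S v - (β₁ * γ₁) • v) := congrArg Subtype.val hk
      exact one_ne_zero (h4 (-k) 1 (by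
        have := h5 (S v - k • v) trivial (by
          simp only [map_sub, map_smul] at e1 ⊢; linear_combination (norm := module) -e1)
        linear_combination (norm := module) this)).2
  | succ m ih =>
    intro W _ _ _ β₁ γ₁ β γ h1 h2 h3 hβ hγ b0 c0 S v x y hd hs
    obtain ⟨β₂, β, rfl, e1⟩ := exists_head β₁ (Multiset.card_pos.1 (by omega : 0 < β.card))
    obtain ⟨γ₂, γ, rfl, e2⟩ := exists_head γ₁ (Multiset.card_pos.1 (by omega : 0 < γ.card))
    have h4 := hs.deg.resolve_right fun ⟨_, h, _⟩ => by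
      obtain ⟨f, f0, f1, f2⟩ := exists_ann (F := F) (by omega) v (S v)
      refine f0 (LinearMap.ext fun z => ?_)
      obtain ⟨a, b, rfl⟩ := h z trivial
      simp [f1, f2]
    have h5 : IsUnit S := (isUnit_iff_isUnit_det S).2 (hd ▸ (mul_ne_zero (mul_ne_zero hβ hγ)
      (mul_ne_zero (Multiset.prod_ne_zero b0) (Multiset.prod_ne_zero c0))).isUnit)
    simp only [Multiset.mem_cons, not_or, Multiset.card_cons] at b0 c0 h2 h3
    obtain ⟨φ, p1, p2, p3, v', p4, p5⟩ := exists_next hF ((End.isUnit_iff _).1 h5).1 (mul_ne_zero hβ hγ)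
      (mul_ne_zero (Ne.symm b0.1) (Ne.symm c0.1)) h4 hs.hx
    have := finrank_ker_add_one (b := φ) fun e => by simp [e] at p1
    exact .descend p1 hβ hγ p2 p3 hs.hy e1 e2 hd p4 p5
      (ih _ _ _ _ _ (by omega) (by omega) (by omega) (Ne.symm b0.1) (Ne.symm c0.1) b0.2 c0.2)

variable {μ : Multiset F[X]} {P : F[X]}

omit [Module.Finite F W] in
theorem eq_smul_of_blocks {c : F} (h : Blocks S μ) (h1 : ∀ Q ∈ μ, Q = X - C c) : S = c • 1 := by
  have := (h.aeval_eq_zero_iff (Q := X - C c)).2 fun P hP => by rw [h1 P hP]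
  rwa [map_sub, aeval_X, aeval_C, sub_eq_zero, Algebra.algebraMap_eq_smul_one] at this

omit [Module.Finite F W] in
theorem ns_of_blocks (h : Blocks S μ) (hP : P ∈ μ) (h2 : 2 ≤ P.natDegree) : NS S := fun c hc => by
  have := natDegree_le_of_dvd (h.aeval_eq_zero_iff.1 (show aeval S (X - C c) = 0 by
    simp [hc, Algebra.algebraMap_eq_smul_one]) P hP) (X_sub_C_ne_zero c)
  rw [natDegree_X_sub_C] at this
  omega

omit [Module.Finite F W] in
theorem exists_i3 (h : Blocks S μ) (hP : P ∈ μ) (h3 : 3 ≤ P.natDegree) : ∃ v, I3 F v (S v) (S (S v)) := by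
  obtain ⟨ν, rfl⟩ := Multiset.exists_cons_of_mem hP
  obtain ⟨A, B, hA, hB, -, h1, -⟩ := Blocks.exists_isCompl (μ := {P}) (ν := ν) h
  obtain ⟨v, hv⟩ := exists_cyc h1
  have h2 : 3 ≤ finrank F A := by simpa [h1.finrank_eq] using h3
  refine ⟨v, fun a b c e => ?_⟩
  have h4 : c = 0 := by_contra fun hc => hv.lin2 h2 (-a / c) (-b / c) (Subtype.ext (by
    change S (S v) = (-a / c) • v.1 + (-b / c) • S v
    rw [← smul_right_inj hc, eq_neg_of_add_eq_zero_right e]; match_scalars <;> field_simp))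
  simpa [h4] using i2_of_ne (hv.lin1 (by omega)) a b (Subtype.ext (by simpa [h4] using e))

theorem rank_one_of_blocks {l : F} (h : Blocks S (P ::ₘ μ)) (h2 : P.natDegree = 2) (h1 : ∀ Q ∈ μ, Q = X - C l)
    (h3 : X - C l ∣ P) : ∃ (a : W) (b : Dual F W), a ≠ 0 ∧ b ≠ 0 ∧ ∀ z, S z = l • z + b z • a := by
  have h4 := h.kd_eq (X - C l)
  have h5 := h.finrank_eq
  rw [Multiset.eq_replicate_card.2 h1] at h4 h5
  simp only [Multiset.map_cons, Multiset.map_replicate, Multiset.sum_cons, Multiset.sum_replicate, h2,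
    kd_cyc_of_dvd' (h.monic P (by simp)).ne_zero h3, kd_cyc_of_dvd' (X_sub_C_ne_zero l) dvd_rfl,
    natDegree_X_sub_C, smul_eq_mul] at h4 h5
  obtain ⟨a, b, h6, h7, h8⟩ := exists_of_rank_one (N := aeval S (X - C l)) (by unfold kd at h4; omega)
  exact ⟨a, b, h6, h7, fun z => by rw [← h8, aeval_X_sub]; abel⟩

theorem ct_of_blocks (h : Blocks S {(lt β).prod}) : CT S β := by
  refine ⟨by simp [h.finrank_eq, natDegree_lt_prod], h.aeval_eq_zero_iff.2 (by simp), fun l u w hu h1 h2 => ?_⟩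
  have h3 := h.kd_eq (X - C l)
  have h4 : ∀ z, S z = l • z → z ∈ ker (aeval S (X - C l)) := fun z hz => by rw [mem_ker, aeval_X_sub, hz, sub_self]
  have h5 : (⟨u, h4 u h1⟩ : ker (aeval S (X - C l))) ≠ 0 := fun e => hu (congrArg Subtype.val e)
  rw [Multiset.map_singleton, Multiset.sum_singleton, kd_cyc_of_dvd' (monic_lt_prod β).ne_zero (dvd_iff_isRoot.2 (by
    simpa [(h.aeval_eq_zero_iff (Q := (lt β).prod)).2 (by simp), hu] using (aeval_eigen h1 (lt β).prod).symm)),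
    natDegree_X_sub_C] at h3
  obtain ⟨c, hc⟩ := (finrank_eq_one_iff_of_nonzero' _ h5).1 h3 ⟨w, h4 w h2⟩
  exact ⟨c, (congrArg Subtype.val hc).symm⟩

theorem exists_ct (h : β.card = finrank F W) : ∃ T : End F W, CT T β :=
  let ⟨T, hT⟩ := exists_blocks_of_finrank (V := W) (μ := {(lt β).prod}) (by simp [monic_lt_prod])
    (by simp [natDegree_lt_prod, h])
  ⟨T, ct_of_blocks hT⟩

theorem CT.dual (h : CT S β) : CT S.dualMap β := by
  refine ⟨h.card.trans Subspace.dual_finrank_eq.symm, ?_, fun l f g hf h1 h2 => ?_⟩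
  · have : ∀ (β : Multiset F) (f : Dual F W) z,
        aeval (S.dualMap : End F (Dual F W)) (lt β).prod f z = f (aeval S (lt β).prod z) := fun β => by
      induction β using Multiset.induction_on with
      | empty => simp [lt]
      | cons a β ih =>
        intro f z
        rw [lt_prod_cons, map_mul, End.mul_apply, aeval_X_sub, mul_comm, map_mul, End.mul_apply, aeval_X_sub, ← ih]
        simp
    ext f z
    simp [this, h.ann]
  · obtain ⟨x, hx⟩ := exists_eq_one hf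
    have h3 : ∀ z, f (S z) = l * f z := LinearMap.congr_fun h1
    have h4 : ∀ z, g (S z) = l * g z := LinearMap.congr_fun h2
    refine ⟨g x, LinearMap.ext fun z => ?_⟩
    obtain ⟨c, u, rfl⟩ := h.e1.exists_eq (μ := l) (x := x) (fun u e => by simp [← e, h3] at hx) z
    simp [h3, h4, hx, mul_comm]

omit [Module.Finite F W] in
theorem E1.exists_gen [Nontrivial W] (h : E1 S) (l : F) : ∃ w, w ≠ 0 ∧ ∀ z, S z = l • z → ∃ c : F, z = c • w := by
  by_cases h1 : ∃ u, u ≠ 0 ∧ S u = l • u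
  · obtain ⟨u, h1, h2⟩ := h1
    exact ⟨u, h1, fun z => h l u z h1 h2⟩
  · obtain ⟨w, hw⟩ := exists_ne (0 : W)
    exact ⟨w, hw, fun z hz => ⟨0, by_contra fun e => h1 ⟨z, by simpa using e, hz⟩⟩⟩

/-- Two cyclic maps with different characteristic polynomials whose difference has rank one. -/
theorem exists_levelt {m : ℕ} (b : Basis (Fin (m + 1)) F W) {P Q : F[X]} (hP : P.Monic) (hQ : Q.Monic)
    (h1 : P.natDegree = m + 1) (h2 : Q.natDegree = m + 1) (h : P ≠ Q) : ∃ (B C : End F W) (d : W),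
    Blocks B {P} ∧ Blocks C {Q} ∧ d ≠ 0 ∧ (∀ z, C z = B z + b.coord (.last m) z • d) ∧
      ∀ k : Fin m, C (b k.castSucc) = b k.succ := by
  obtain ⟨B, h3, h4⟩ := exists_shift b hP h1
  obtain ⟨C, h5, h6⟩ := exists_shift b hQ h2
  have h7 : C = B + (b.coord (.last m)).smulRight (C (b (.last m)) - B (b (.last m))) := b.ext fun j => by
    induction j using Fin.lastCases with
    | last => simp
    | cast j => simp [h4, h6, j.castSucc_ne_last]
  refine ⟨B, C, _, h3, h5, fun e => h ?_, LinearMap.congr_fun h7, h6⟩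
  rw [e, smulRight_zero, add_zero] at h7
  subst h7
  simpa using h3.charpoly_eq.symm.trans h5.charpoly_eq

/-- A rank one difference gives a factorisation. -/
theorem levelt_core {V : Type*} [AddCommGroup V] [Module F V] [Module.Finite F V] (hV : finrank F V = finrank F W)
    {l : F} (hl : l ≠ 0) {a : W} {b : Dual F W} (ha : a ≠ 0) (hb : b ≠ 0) (hS : ∀ z, S z = l • z + b z • a)
    {B B' C : End F V} (h1 : B * B' = l • 1) {d : V} {f : Dual F V} (hd : d ≠ 0) (hf : f ≠ 0)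
    (h2 : ∀ z, C z = B' z + f z • d) (h3 : LinearMap.det B * LinearMap.det C = LinearMap.det S) :
    Sim (B * C) S := by
  have h4 : ∀ z, B (B' z) = l • z := LinearMap.congr_fun h1
  have e1 : B * C = l • transvection f (l⁻¹ • B d) := LinearMap.ext fun z => by
    simp [transvection.apply, h2, h4, smul_comm l, hl]
  have e2 : S = l • transvection b (l⁻¹ • a) := LinearMap.ext fun z => by
    simp [transvection.apply, hS, smul_comm l, hl]
  have h5 : IsUnit B := IsUnit.of_mul_eq_one (l⁻¹ • B') (by rw [mul_smul_comm, h1, inv_smul_smul₀ hl])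
  rw [← map_mul, e1, e2, det_smul, det_smul, hV, mul_right_inj' (pow_ne_zero _ hl), transvection.det,
    transvection.det, add_right_inj] at h3
  rw [e1, e2]
  exact (sim_transvection hV (smul_ne_zero (inv_ne_zero hl) fun e => hd (((End.isUnit_iff _).1 h5).1
    (by simpa using e))) hf (smul_ne_zero (inv_ne_zero hl) ha) hb h3).smul l

theorem exists_rank_one_pair (hF : Big F) {l : F} {m : ℕ} (h1 : β.card = m + 2) (h2 : γ.card = m + 2) :
    ∃ (V : Type w) (_ : AddCommGroup V) (_ : Module F V) (_ : Module.Finite F V) (B C : End F V) (d : V)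
      (f : Dual F V), CT B β ∧ CT C γ ∧ d ≠ 0 ∧ f ≠ 0 ∧ (∀ z, C z = B z + f z • d) ∧
      ((∃ μ ∈ γ, μ ≠ 1) → ∀ z, B z = l • z → C z = z → z = 0) := by
  by_cases h : β = γ
  · subst h
    obtain ⟨μ, hμ, h3⟩ : ∃ μ ∈ β, (∃ μ ∈ β, μ ≠ 1) → μ ≠ 1 := by
      by_cases h : ∃ μ ∈ β, μ ≠ 1
      · exact let ⟨μ, a, b⟩ := h; ⟨μ, a, fun _ => b⟩
      · exact (Multiset.card_pos_iff_exists_mem.1 (h1 ▸ Nat.succ_pos _)).imp fun μ a => ⟨a, fun e => (h e).elim⟩
    obtain ⟨β, rfl⟩ := Multiset.exists_cons_of_mem hμ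
    obtain ⟨E, hE⟩ := exists_ct (W := Fin (m + 1) → F) (β := β) (by simpa using h1)
    obtain ⟨w₁, a1, a2⟩ := hE.e1.exists_gen 1
    obtain ⟨w₂, a3, a4⟩ := hE.e1.exists_gen μ
    obtain ⟨D, hD⟩ := exists_map_one (F := F) a1 (1 : F)
    obtain ⟨t, t1, t2, -⟩ := hF 0 (-D w₂) 0
    obtain ⟨n, hn⟩ := exists_map_one (F := F) a3 t
    have key : ∀ n : (Fin (m + 1) → F) →ₗ[F] F, n w₂ ≠ 0 → CT (tri (μ • 1) n E) (μ ::ₘ β) := fun n hn =>
      (ct_point μ).tri hE fun ν u w u' a b c d e => by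
        obtain rfl : μ = ν := by simpa [a] using b
        obtain ⟨k, rfl⟩ := a4 w d
        simp_all
    refine ⟨F × (Fin (m + 1) → F), _, _, inferInstance, _, _, (1, 0), D ∘ₗ snd F _ _, key n (hn ▸ t1),
      key (n + D) fun e => t2 (by rw [← hn]; exact eq_neg_of_add_eq_zero_left e), by simp,
      fun e => by simpa [hD] using LinearMap.congr_fun e (0, w₁), fun z => by simp [add_assoc],
      fun h4 ⟨z₁, z₂⟩ e1 e2 => ?_⟩
    simp only [tri_apply, Prod.smul_mk, Prod.mk.injEq, LinearMap.smul_apply, End.one_apply, smul_eq_mul,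
      LinearMap.add_apply, Prod.mk_eq_zero] at e1 e2 ⊢
    have e3 : z₂ = 0 := by
      obtain ⟨k, rfl⟩ := a2 z₂ (by simpa using e2.2)
      by_contra h0
      obtain rfl : 1 = l := smul_left_injective F h0 (by simpa using e2.2.symm.trans e1.2)
      have : D (k • w₁) = 0 := by linear_combination e2.1 - e1.1
      simp_all
    exact ⟨by simpa [e3, h3 h4, mul_eq_right₀] using (mul_eq_zero.1 (show (μ - 1) * z₁ = 0 by
      simp only [e3, map_zero] at e2; linear_combination e2.1)).resolve_left (sub_ne_zero.2 (h3 h4)), e3⟩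
  let b := Pi.basisFun F (Fin (m + 2))
  obtain ⟨B, C, d, h3, h4, h5, h6, h7⟩ := exists_levelt b (monic_lt_prod β) (monic_lt_prod γ)
    ((natDegree_lt_prod β).trans h1) ((natDegree_lt_prod γ).trans h2) fun e => h (lt_injective (eq_of_prod_eq
      (fun P hP => ⟨lt_monic _ P hP, lt_irreducible _ P hP⟩) (fun P hP => ⟨lt_monic _ P hP, lt_irreducible _ P hP⟩) e))
  have h8 : b.coord (.last _) ≠ 0 := fun e => by simpa using LinearMap.congr_fun e (b (.last _))
  by_cases hl : l = 1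
  · refine ⟨_, _, _, inferInstance, B, C, d, _, ct_of_blocks h3, ct_of_blocks h4, h5, h8, h6, fun _ z e1 e2 =>
      shift_eigen h7 ?_ (e2.trans (one_smul F z).symm)⟩
    simpa [e1, e2, hl, h5] using h6 z
  · refine ⟨Dual F (Fin (m + 2) → F), _, _, inferInstance, B.dualMap, C.dualMap, b.coord (.last _), Dual.eval F _ d,
      (ct_of_blocks h3).dual, (ct_of_blocks h4).dual, h8, fun e => h5 ((forall_dual_apply_eq_zero_iff F _).1 fun f =>
        LinearMap.congr_fun e f), fun f => LinearMap.ext fun z => by simp [h6, mul_comm], fun _ f e1 e2 => ?_⟩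
    have e3 : ∀ z, f (B z) = l * f z := LinearMap.congr_fun e1
    have e4 : ∀ z, f (C z) = f z := LinearMap.congr_fun e2
    have e5 : ∀ z, (1 - l) * f z = b.coord (.last _) z * f d := fun z => by
      have := e4 z
      rw [h6, map_add, e3, map_smul, smul_eq_mul] at this
      linear_combination -this
    have e6 := e5 (b (Fin.last m).castSucc)
    rw [← e4, h7, e5] at e6
    have e7 : f d = 0 := by simpa [(Fin.last m).castSucc_ne_last] using e6
    exact LinearMap.ext fun z => by simpa [e7, sub_eq_zero, Ne.symm hl] using e5 z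

/-- **Lev**: the product of two cyclic triangularizable classes covers the nonscalar maps. -/
theorem exists_ct_mul (hF : Big F) (h3 : 3 ≤ finrank F W) (hS : NS S) (h1 : β.card = finrank F W)
    (h2 : γ.card = finrank F W) (b0 : 0 ∉ β) (c0 : 0 ∉ γ) (hd : LinearMap.det S = β.prod * γ.prod) :
    ∃ B C : End F W, B * C = S ∧ CT B β ∧ CT C γ ∧ ((∃ μ ∈ γ, μ ≠ 1) → ∀ z, B z = z → C z = z → z = 0) := by
  obtain ⟨m, hm⟩ := Nat.exists_eq_add_of_le' h3
  obtain ⟨β₁, β', rfl, -⟩ := exists_head 1 (Multiset.card_pos.1 (by omega : 0 < β.card))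
  obtain ⟨γ₁, γ', rfl, e⟩ := exists_head 1 (Multiset.card_pos.1 (by omega : 0 < γ.card))
  have fin : ∀ x y, Out S x y β₁ γ₁ β' γ' True → ∃ B C : End F W, B * C = S ∧ CT B (β₁ ::ₘ β') ∧ CT C (γ₁ ::ₘ γ') ∧
      ((∃ μ ∈ γ₁ ::ₘ γ', μ ≠ 1) → ∀ z, B z = z → C z = z → z = 0) := fun x y ⟨B, C, a, b, c, _, _, d⟩ =>
    ⟨B, C, a, b, c, fun _ z e1 e2 => by_contra fun hz => hz (d trivial z
      (by rw [← e (c.mem hz (e2.trans (one_smul F z).symm)), e2, one_smul]) e1)⟩
  have hu : IsUnit S := (isUnit_iff_isUnit_det S).2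
    (hd ▸ (mul_ne_zero (Multiset.prod_ne_zero b0) (Multiset.prod_ne_zero c0)).isUnit)
  have hd' : LinearMap.det S = β₁ * γ₁ * (β'.prod * γ'.prod) := by
    rw [hd, Multiset.prod_cons, Multiset.prod_cons, mul_mul_mul_comm]
  have b1 : β₁ ≠ 0 := fun e => b0 (by simp [e])
  have c1 : γ₁ ≠ 0 := fun e => c0 (by simp [e])
  obtain ⟨μ, m1, m2, m3⟩ := exists_inv S
  by_cases h4 : ∃ P ∈ μ, 3 ≤ P.natDegree
  · obtain ⟨P, hP, h4⟩ := h4
    obtain ⟨v, hv⟩ := exists_i3 m1 hP h4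
    obtain ⟨y, hy, -⟩ := hv.map (1 : F) 0 0
    refine fin v y (out_of_st hF (m + 1) W _ _ _ _ hm (by simpa [hm] using h1) (by simpa [hm] using h2) b1 c1
      (fun e => b0 (by simp [e])) (fun e => c0 (by simp [e])) S v v y hd' ⟨hy ▸ one_ne_zero, fun k e => ?_, .inl hv⟩)
    obtain ⟨e1, e2, -⟩ := hv (1 + k * (β₁ * γ₁)) (-k) 0 (by linear_combination (norm := module) e)
    simp [neg_eq_zero.1 e2] at e1
  push Not at h4
  obtain ⟨P, hP, h5⟩ : ∃ P ∈ μ, P.natDegree = 2 := by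
    by_contra h5
    push Not at h5
    obtain ⟨Q, hQ⟩ := Multiset.exists_mem_of_ne_zero (s := μ) fun e => by simp [m1.finrank_eq, e] at h3
    have h6 : ∀ P ∈ μ, P.natDegree = 1 := fun P hP => by
      have := h4 P hP; have := h5 P hP; have := m2 P hP; omega
    refine hS (-Q.coeff 0) (eq_smul_of_blocks m1 fun P hP => ?_)
    rw [eq_of_monic_of_dvd_of_natDegree_le (m1.monic Q hQ) (m1.monic P hP) (m3 Q hQ P hP (by rw [h6 P hP, h6 Q hQ]))
      (by rw [h6 P hP, h6 Q hQ]), (m1.monic Q hQ).eq_X_add_C (h6 Q hQ)]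
    simp
  obtain ⟨ν, rfl⟩ := Multiset.exists_cons_of_mem hP
  by_cases h6 : ∃ Q ∈ ν, Q.natDegree = 2
  · obtain ⟨Q, hQ, h6⟩ := h6
    obtain ⟨A, B, hA, hB, h7, h8, h9⟩ := Blocks.exists_isCompl (μ := {P}) (ν := ν) m1
    obtain ⟨v₁, p1⟩ := exists_not_eigen (ns_of_blocks h8 (Multiset.mem_singleton_self P) h5.ge)
    obtain ⟨v₂, p2⟩ := exists_not_eigen (ns_of_blocks h9 hQ h6.ge)
    have p3 : I4 F v₁.1 (S v₁) v₂ (S v₂) := fun a b c d e => by
      have e1 : a • v₁.1 + b • S v₁ = 0 := (disjoint_def.1 h7.disjoint) _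
        (add_mem (smul_mem _ _ v₁.2) (smul_mem _ _ (hA _ v₁.2))) (by
          rw [add_assoc] at e
          exact eq_neg_of_add_eq_zero_left e ▸ neg_mem (add_mem (smul_mem _ _ v₂.2) (smul_mem _ _ (hB _ v₂.2))))
      obtain ⟨rfl, rfl⟩ := i2_of_ne p1 a b (Subtype.ext e1)
      simpa using i2_of_ne p2 c d (Subtype.ext (by simpa using e))
    have p4 : ∀ z, S (S z) = -P.coeff 1 • S z - P.coeff 0 • z := fun z => by
      have := LinearMap.congr_fun (m1.aeval_eq_zero_iff.2 fun R hR => m3 R hR P hP (by have := h4 R hR; omega)) z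
      rw [aeval_eq_sum_range, h5] at this
      have h10 : P.coeff 2 = 1 := h5 ▸ (m1.monic P hP).coeff_natDegree
      simp only [Finset.sum_range_succ, Finset.sum_range_zero, h10, pow_succ, pow_zero, LinearMap.add_apply,
        LinearMap.smul_apply, End.mul_apply, End.one_apply, LinearMap.zero_apply] at this
      linear_combination (norm := module) this
    have p5 := m1.isUnit_iff.1 hu P hP
    obtain ⟨φ, q1, q2, q3, q4⟩ := p3.map 1 (β₁ * γ₁) 0 1
    obtain ⟨β₂, β, rfl, e1⟩ := exists_head β₁ (Multiset.card_pos.1 (by simp at h1; omega : 0 < β'.card))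
    obtain ⟨γ₂, γ, rfl, e2⟩ := exists_head γ₁ (Multiset.card_pos.1 (by simp at h2; omega : 0 < γ'.card))
    have := finrank_ker_add_one (b := φ) fun e => by simp [e] at q1
    simp only [Multiset.mem_cons, not_or, Multiset.card_cons] at b0 c0 h1 h2
    refine fin v₁ φ (.descend q1 b1 c1 q2 (q1 ▸ one_ne_zero) (q1 ▸ one_ne_zero) e1 e2 hd' q3
      ⟨by simp [q4], fun k e => ?_, .inl fun a b c e => ?_⟩
      (out_of_st hF m _ _ _ _ _ (by omega) (by omega) (by omega) (Ne.symm b0.2.1) (Ne.symm c0.2.1) b0.2.2 c0.2.2))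
    · rw [sch_apply, q4] at e
      obtain ⟨e3, -⟩ := p3 (-(β₁ * γ₁)) (1 + k * (β₁ * γ₁)⁻¹) (k * (β₂ * γ₂)) (-k)
        (by linear_combination (norm := module) e)
      simp [b1, c1] at e3
    · simp only [sch_apply, q4, map_sub, map_smul, p4, q1, q2, q3, smul_eq_mul] at e
      obtain ⟨e3, -, e4, e5⟩ := p3 (c * (β₁ * γ₁)⁻¹ * P.coeff 0) (-b * (β₁ * γ₁)⁻¹ + c * (β₁ * γ₁)⁻¹ * P.coeff 1 -
        c * (β₁ * γ₁)⁻¹ * (-P.coeff 1 - (β₁ * γ₁)⁻¹ * (-P.coeff 1 * (β₁ * γ₁) - P.coeff 0))) (a - c * P.coeff 0)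
        (b - c * P.coeff 1) (by linear_combination (norm := module) e)
      have e6 : c = 0 := by simpa [b1, c1, p5] using e3
      exact ⟨by simpa [e6] using e4, by simpa [e6] using e5, e6⟩
  push Not at h6
  have h7 : ∀ Q ∈ ν, Q.natDegree = 1 := fun Q hQ => by
    have := h4 Q (by simp [hQ]); have := h6 Q hQ; have := m2 Q (by simp [hQ]); omega
  obtain ⟨Q, hQ⟩ := Multiset.exists_mem_of_ne_zero (s := ν) fun e => by simp [m1.finrank_eq, e, h5] at h3
  have h8 : Q = X - C (-Q.coeff 0) := by simpa using (m1.monic Q (by simp [hQ])).eq_X_add_C (h7 Q hQ)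
  have h9 : -Q.coeff 0 ≠ 0 := neg_ne_zero.2 (m1.isUnit_iff.1 hu Q (by simp [hQ]))
  generalize -Q.coeff 0 = l at h8 h9
  subst h8
  obtain ⟨a, b, p1, p2, p3⟩ := rank_one_of_blocks m1 h5 (fun R hR => eq_of_monic_of_dvd_of_natDegree_le
    (monic_X_sub_C l) (m1.monic R (by simp [hR])) (m3 _ (by simp [hQ]) R (by simp [hR]) (by simp [h7 R hR]))
    (by simp [h7 R hR])) (m3 _ (by simp [hQ]) P hP (by simp [h5]))
  obtain ⟨V, _, _, _, B', C, d, f, q1, q2, q3, q4, q5, q6⟩ := exists_rank_one_pair hF (l := l) (m := m + 1)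
    (β := (β₁ ::ₘ β').map (l / ·)) (by rw [Multiset.card_map, h1, hm]) (h2.trans hm)
  have q0 : 0 ∉ (β₁ ::ₘ β').map (l / ·) := fun h => by
    obtain ⟨x, a, b⟩ := Multiset.mem_map.1 h
    exact div_ne_zero h9 (fun e : x = 0 => b0 (e ▸ a)) b
  obtain ⟨B', rfl⟩ := q1.isUnit q0
  have q7 := q1.inv (Y := l • (B'⁻¹).1) h9 (by simp) (by simp) q0
  rw [Multiset.map_map, Multiset.map_congr rfl (g := _root_.id) fun x _ => by simp [h9], Multiset.map_id] at q7
  obtain ⟨e, he⟩ := levelt_core (q2.card.symm.trans h2) h9 p1 p2 p3 (B := l • (B'⁻¹).1) (by simp) q3 q4 q5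
    (by rw [q7.det, q2.det, hd])
  obtain ⟨B, hB⟩ := exists_conj e (l • (B'⁻¹).1)
  obtain ⟨D, hD⟩ := exists_conj e C
  refine ⟨B, D, LinearMap.ext fun z => ?_, q7.of_sim ⟨e, hB⟩, q2.of_sim ⟨e, hD⟩, fun h z e1 e2 => ?_⟩ <;>
    obtain ⟨z, rfl⟩ := e.surjective z
  · rw [End.mul_apply, ← hD, ← hB, ← he, End.mul_apply]
  · rw [← hB, e.injective.eq_iff] at e1
    rw [q6 h z (by conv_lhs => rw [← e1]
                   simp [← End.mul_apply]) (e.injective ((hD z).trans e2)), map_zero]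

end Cfsg.Lib.Lev
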